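import Cfsg.Agent.Lib.RCS.Bas
import Cfsg.Agent.S0215
import Cfsg.Agent.S0199

set_option autoImplicit false

namespace H50.RC

open Subgroup

variable {G : Type*} [Group G] [Finite G] {a k : ℕ}

theorem LZ.lift {Z : Subgroup G} (hZ : ∀ z ∈ Z, ∀ g, z * g = g * z) (h2 : IsPGroup 2 Z) (ho : Odd Z.index) :
    ∃ O : Subgroup G, (∀ y, y ∈ O ↔ Odd (orderOf y)) ∧ Odd (Nat.card O) ∧ ∀ n, ∃ o ∈ O, ∃ ζ ∈ Z, n = o * ζ := by
  haveI : Z.Normal := ⟨fun z hz g => by rwa [← hZ z hz, mul_inv_cancel_right]⟩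
  obtain ⟨n, hn⟩ := IsPGroup.iff_card.1 h2
  obtain ⟨O, hO⟩ := exists_right_complement'_of_coprime (N := Z)
    (hn ▸ (Nat.coprime_two_left.2 ho).pow_left n)
  have c : Odd (Nat.card O) := hO.symm.index_eq_card ▸ ho
  have d : ∀ n, ∃ o ∈ O, ∃ ζ ∈ Z, n = o * ζ := fun n => by
    obtain ⟨⟨z, o⟩, e⟩ := hO.2 n
    exact ⟨o, o.2, z, z.2, e.symm.trans (hZ z z.2 o)⟩
  have od : ∀ y ∈ O, Odd (orderOf y) := fun y hy => c.of_dvd_nat (O.orderOf_dvd_natCard hy)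
  refine ⟨O, fun y => ⟨od y, fun hy => ?_⟩, c, d⟩
  obtain ⟨o, ho, z, hz, rfl⟩ := d y
  have cm : Commute o z := (hZ z hz o).symm
  have e : z ^ (orderOf (o * z) * orderOf o) = 1 := by
    have := pow_orderOf_eq_one (o * z)
    have h3 : (o * z) ^ (orderOf (o * z) * orderOf o) = 1 := by rw [pow_mul, this, one_pow]
    rwa [cm.mul_pow, pow_mul', pow_orderOf_eq_one, one_pow, one_mul] at h3
  rwa [eq_one_of_tw_odd (tw_of_mem h2 hz) ((hy.mul (od o ho)).of_dvd_nat (orderOf_dvd_of_pow_eq_one e)), mul_one]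

/-- odd-modulo-central subgroups split -/
theorem lift_odd {N Z : Subgroup G} (hZN : Z ≤ N) (hZ : ∀ z ∈ Z, ∀ g ∈ N, z * g = g * z)
    (h2 : IsPGroup 2 Z) (ho : Odd (Z.relIndex N)) :
    ∃ O : Subgroup G, (∀ y, y ∈ O ↔ y ∈ N ∧ Odd (orderOf y)) ∧ Odd (Nat.card O) ∧
      ∀ n ∈ N, ∃ o ∈ O, ∃ ζ ∈ Z, n = o * ζ := by
  obtain ⟨O, h1, h3, h4⟩ := LZ.lift (Z := Z.subgroupOf N)
    (fun z hz g => Subtype.ext (hZ z hz g g.2)) (h2.comap_of_injective _ N.subtype_injective) ho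
  refine ⟨O.map N.subtype, fun y => ⟨?_, fun ⟨a, b⟩ => ⟨⟨y, a⟩, (h1 _).2 (by rwa [orderOf_mk]), rfl⟩⟩,
    by rwa [card_map_of_injective N.subtype_injective], fun n hn => ?_⟩
  · rintro ⟨y, hy, rfl⟩
    exact ⟨y.2, by simpa using (h1 y).1 hy⟩
  · obtain ⟨o, ho, z, hz, e⟩ := h4 ⟨n, hn⟩
    exact ⟨o, ⟨o, ho, rfl⟩, z, hz, congrArg Subtype.val e⟩

theorem LZ.star {u : G} (u2 : u * u = 1) (hiso : ∀ g : G, g * u * g⁻¹ ∈ C u → g ∈ C u) :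
    ∃ N : Subgroup G, N.Normal ∧ Odd (Nat.card N) ∧ ∀ g, lam u g ∈ N := by
  by_cases u1 : u = 1
  · exact ⟨⊥, inferInstance, by simp, fun g => by simp [lam, u1]⟩
  obtain ⟨P, hP⟩ := (Tw.zp (y := u) ⟨1, by simpa [sq] using u2⟩).exists_le_sylow
  have uP : u ∈ (P : Subgroup G) := hP (mem_zpowers u)
  have PC : (P : Subgroup G) ≤ C u := by
    by_contra hn
    obtain ⟨g, gP, gR, -, gN⟩ := exists_norm (R := P ⊓ C u) P.isPGroup'
      (lt_of_le_of_ne inf_le_left fun e => hn (e ▸ inf_le_right))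
    exact gR ⟨gP, hiso g ((mem_normalizer_iff.1 gN u).1 ⟨uP, self_mem_C u⟩).2⟩
  obtain ⟨N, h1, h2, h3⟩ := Cfsg.Agent.S0215.result P u (orderOf_eq_prime (by rwa [sq]) u1) uP
    fun g hg => mem_C'.1 (hiso g (PC hg))
  exact ⟨N, h1, h2, fun g => lam_symm g u ▸ inv_mem (h3 g)⟩

/-- Z* modulo a central 2-subgroup -/
theorem lz {K Z : Subgroup G} (hZK : Z ≤ K) (hZ : ∀ z ∈ Z, ∀ g ∈ K, z * g = g * z)
    (h2 : IsPGroup 2 Z) {s : G} (hsK : s ∈ K) (hs2 : s * s ∈ Z)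
    (hiso : ∀ g ∈ K, lam s (g * s * g⁻¹) ∈ Z → lam s g ∈ Z) :
    ∃ O : Subgroup G, O ≤ K ∧ K ≤ normalizer (O : Set G) ∧ Odd (Nat.card O) ∧
      ∀ g ∈ K, ∃ o ∈ O, ∃ ζ ∈ Z, lam s g = o * ζ := by
  haveI : (Z.subgroupOf K).Normal := ⟨fun z hz g => by
    rw [mem_subgroupOf] at hz ⊢
    simpa [← hZ z hz g g.2] using hz⟩
  let π := QuotientGroup.mk' (Z.subgroupOf K)
  have hπ : ∀ x : K, π x = 1 ↔ (x : G) ∈ Z := fun x => QuotientGroup.eq_one_iff x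
  have hl : ∀ x y : K, π (lam x y) = lam (π x) (π y) := fun x y => by simp only [lam, map_mul, map_inv]
  obtain ⟨N, h1, h3, h4⟩ := LZ.star (u := π ⟨s, hsK⟩) (by rw [← map_mul, hπ]; exact hs2) fun g hg => by
    obtain ⟨g, rfl⟩ := QuotientGroup.mk'_surjective _ g
    rw [← lam_eq_one] at hg ⊢
    rw [← map_inv, ← map_mul, ← map_mul, ← hl, hπ] at hg
    rw [← hl, hπ]
    exact hiso g g.2 hg
  have ZN : Z ≤ (N.comap π).map K.subtype := fun z hz =>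
    ⟨⟨z, hZK hz⟩, by rw [SetLike.mem_coe, mem_comap, (hπ _).2 hz]; exact one_mem _, rfl⟩
  have NK : (N.comap π).map K.subtype ≤ K := map_subtype_le _
  obtain ⟨O, h5, h6, h7⟩ := lift_odd ZN (fun z hz g hg => hZ z hz g (NK hg)) h2 (by
    conv => enter [1, 1]; rw [← map_subgroupOf_eq_of_le hZK]
    have := relIndex_ker (N.comap π) π
    rw [QuotientGroup.ker_mk', map_comap_eq_self_of_surjective (QuotientGroup.mk'_surjective _)] at this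
    rwa [relIndex_map_map_of_injective _ _ K.subtype_injective, this])
  have cj : ∀ g ∈ K, ∀ y ∈ O, g * y * g⁻¹ ∈ O := fun g hg y hy => by
    obtain ⟨⟨y, a, rfl⟩, b⟩ := (h5 y).1 hy
    exact (h5 _).2 ⟨⟨_, (h1.comap π).conj_mem y a ⟨g, hg⟩, rfl⟩,
      (MulAut.conj g).orderOf_eq (K.subtype y) ▸ b⟩
  refine ⟨O, fun y hy => NK ((h5 y).1 hy).1, fun g hg => mem_normalizer_iff.2 fun y =>
    ⟨cj g hg y, fun hy => by simpa [mul_assoc] using cj _ (inv_mem hg) _ hy⟩, h6, fun g hg => h7 _ ?_⟩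
  exact ⟨lam ⟨s, hsK⟩ ⟨g, hg⟩, by rw [SetLike.mem_coe, mem_comap, hl]; exact h4 _, rfl⟩

theorem LZ.bs {u : G} (hu : Tw u) (hu2 : ∀ g, u * u * g = g * (u * u))
    (hn : ∀ Q : Subgroup G, Q.Normal → IsPGroup 2 Q → u ∉ Q) : ∃ x, Odd (orderOf x) ∧ x ≠ 1 ∧ Inv u x := by
  by_contra hx
  obtain ⟨Q, h1, h2, h3⟩ := Cfsg.Agent.S0199.result (zpowers u) hu.zp fun g => by
    have hi : Inv u (u⁻¹ * (g * u * g⁻¹)) := by
      calc u * (u⁻¹ * (g * u * g⁻¹)) * u⁻¹ = g * u⁻¹ * (u * u * g⁻¹) * u⁻¹ := by group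
        _ = _ := by rw [hu2]; group
    obtain ⟨m, n, a, b, c⟩ := exists_parts (u⁻¹ * (g * u * g⁻¹))
    rw [show (u⁻¹ * (g * u * g⁻¹)) ^ n = 1 from by_contra fun e => hx ⟨_, b, e, hi.pow n⟩, mul_one] at c
    rw [← c] at a
    refine (sup_zp a.zp hu ?_).to_le (sup_le le_sup_right ?_)
    · refine mem_normalizer_fintype ?_
      rintro _ ⟨i, rfl⟩
      dsimp only
      rw [← conj_zpow, hi]
      exact zpow_mem (inv_mem (mem_zpowers _)) i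
    · rw [MonoidHom.map_zpowers, zpowers_le]
      simpa using mul_mem (mem_sup_right (mem_zpowers u))
        (mem_sup_left (mem_zpowers (u⁻¹ * (g * u * g⁻¹))) : _ ∈ _ ⊔ zpowers u)
  exact hn Q h1 h2 (h3 (mem_zpowers u))

/-- Baer-Suzuki modulo a central 2-subgroup -/
theorem bs {K : Subgroup G} {u : G} (huK : u ∈ K) (hu : Tw u) (hu2 : ∀ g ∈ K, u * u * g = g * (u * u))
    (hn : ∀ Q : Subgroup G, Q ≤ K → K ≤ normalizer (Q : Set G) → IsPGroup 2 Q → u ∉ Q) :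
    ∃ x ∈ K, Odd (orderOf x) ∧ x ≠ 1 ∧ Inv u x := by
  obtain ⟨x, h1, h2, h3⟩ := LZ.bs (u := (⟨u, huK⟩ : K)) (hu.imp fun n e => Subtype.ext e)
    (fun g => Subtype.ext (hu2 g g.2)) fun Q a b c => hn (Q.map K.subtype) (map_subtype_le _)
      (fun g hg => le_normalizer_map K.subtype ⟨⟨g, hg⟩, le_normalizer_of_normal (mem_top _), rfl⟩)
      (b.map _) ⟨_, c, rfl⟩
  exact ⟨x, x.2, by simpa using h1, fun e => h2 (Subtype.ext e), congrArg Subtype.val h3⟩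

end H50.RC
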