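import Cfsg.Agent.Lib.RCS.F7
import Cfsg.Agent.Lib.RCS.LZ
import Cfsg.Agent.S0058

set_option autoImplicit false

namespace H50.RC

open Subgroup

variable {G : Type*} [Group G] [Finite G] {a k : ℕ}

namespace A1

/-- a non-cyclic elementary abelian section acting on an odd group -/
theorem four_act {U S O : Subgroup G} (hUS : U ≤ S) (hS : IsPGroup 2 S)
    (hSN : S ≤ normalizer (U : Set G)) (hON : O ≤ normalizer (U : Set G))
    (hsq : ∀ s ∈ S, s * s ∈ U) (h4 : 4 ∣ U.relIndex S) (hO : Odd (Nat.card O))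
    (hSO : ∀ s ∈ S, ∀ y ∈ O, s * y * s⁻¹ ∈ O) {t : G} (ht : t ∈ S)
    (h : ∀ s ∈ S, s ∉ U → ∀ y ∈ O, s * y = y * s → t * y = y * t) :
    ∀ y ∈ O, t * y = y * t := by
  have : Fact (Nat.Prime 2) := ⟨Nat.prime_two⟩
  let N := normalizer (U : Set G)
  let π := QuotientGroup.mk' (U.subgroupOf N)
  have hπ : ∀ g : N, π g = 1 ↔ (g : G) ∈ U := fun g => QuotientGroup.eq_one_iff g
  have hcm : ∀ s ∈ S, ∀ y ∈ O, s * y * (y * s)⁻¹ ∈ U → s * y = y * s := fun s hs y hy e => by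
    have h1 : s * y * (y * s)⁻¹ ∈ O := by
      have := mul_mem (hSO s hs y hy) (inv_mem hy)
      rwa [mul_inv_rev, ← mul_assoc]
    refine mul_inv_eq_one.1 (eq_one_of_tw_odd (tw_of_mem hS (hUS e)) ?_)
    exact hO.of_dvd_nat (O.orderOf_dvd_natCard h1)
  have hcm' : ∀ s y : N, (s : G) ∈ S → (y : G) ∈ O → π s * π y = π y * π s →
      (s : G) * y = y * s := fun s y hs hy e => hcm s hs y hy (by
    have := (hπ (s * y * (y * s)⁻¹)).1 (by rw [map_mul, map_inv, map_mul, map_mul, e, mul_inv_cancel])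
    exact this)
  have hA2 : ∀ b ∈ (S.subgroupOf N).map π, b * b = 1 := by
    rintro _ ⟨s, hs, rfl⟩
    rw [← map_mul, hπ]
    exact hsq s hs
  have hcard : Nat.card ((S.subgroupOf N).map π) = U.relIndex S := by
    rw [← relIndex_ker, QuotientGroup.ker_mk', relIndex_subgroupOf hSN]
  have key := H2.le_of_forall_centralizer_le (A := (S.subgroupOf N).map π)
    (K := (O.subgroupOf N).map π) (M := centralizer {π ⟨t, hSN ht⟩}) ⟨⟨fun b c => Subtype.ext (by
      have h1 := hA2 _ (mul_mem b.2 c.2)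
      change (b : N ⧸ U.subgroupOf N) * c = c * b
      rw [← inv_eq_of_mul_eq_one_right h1, mul_inv_rev, inv_eq_of_mul_eq_one_right (hA2 _ b.2),
        inv_eq_of_mul_eq_one_right (hA2 _ c.2)])⟩⟩ (fun hc => by
      have h1 : Monoid.exponent ((S.subgroupOf N).map π) ∣ 2 :=
        Monoid.exponent_dvd_of_forall_pow_eq_one fun b => Subtype.ext (by
          rw [sq]; exact hA2 _ b.2)
      rw [IsCyclic.exponent_eq_card, hcard] at h1
      have := h4.trans h1
      omega) (by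
      rintro _ ⟨s, hs, rfl⟩
      refine mem_normalizer_fintype ?_
      rintro _ ⟨y, hy, rfl⟩
      exact ⟨s * y * s⁻¹, hSO s hs y hy, by simp⟩) (by
      obtain ⟨n, hn⟩ := IsPGroup.iff_card.1 ((hS.comap_subtype (K := N)).map π)
      change Nat.card ((S.subgroupOf N).map π) = _ at hn
      rw [hn]
      refine Nat.Coprime.pow_left _ (Nat.coprime_two_left.2 (hO.of_dvd_nat ?_))
      exact (card_map_dvd _ _).trans (card_comap_dvd_of_injective _ _ N.subtype_injective)) (by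
      rintro _ ⟨s, hs, rfl⟩ s1 _ ⟨⟨y, hy, rfl⟩, e⟩
      have e1 := h s hs (fun e => s1 ((hπ s).2 e)) y hy
        (hcm' s y hs hy (mem_centralizer_singleton_iff.1 e).symm)
      rw [mem_centralizer_singleton_iff, ← map_mul, ← map_mul]
      exact congrArg π (Subtype.ext e1.symm))
  intro y hy
  exact hcm' ⟨t, hSN ht⟩ ⟨y, hON hy⟩ ht hy
    (mem_centralizer_singleton_iff.1 (key ⟨⟨y, hON hy⟩, hy, rfl⟩)).symm

end A1

theorem Hyp.a1 (h : Hyp G a k) (ha : 2 ≤ a) {w : G} (hw : W w) {U : Subgroup G} (hU : U ≤ C w)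
    (hc : Nat.card U = 2 ^ k) {x : G} (hx : Odd (orderOf x)) (x1 : x ≠ 1) (hr : Re x) (hUx : U ≤ C x) :
    False := by
  have : Fact (Nat.Prime 2) := ⟨Nat.prime_two⟩
  have hU2 : IsPGroup 2 U := IsPGroup.of_card hc
  have hKN : centralizer (U : Set G) ≤ normalizer (U : Set G) := centralizer_le_normalizer _
  have wU : w ∈ U := h.mem_of_norm hw.re hw.nc hc hU hw.tw (self_mem_C w)
    (hKN fun u hu => mem_C.1 (hU hu))
  obtain ⟨S, hUS, hSM⟩ := h.f7 hw hU2 (hU.trans (C_le_M w))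
  have hSU : (S : Subgroup G) ⊓ C w = U :=
    (eq_of_le_of_card_ge (le_inf hUS hU) (by rw [h.card_U hw S hSM, hc])).symm
  have hmem : ∀ s ∈ (S : Subgroup G), lam w s = 1 → s ∈ U := fun s hs e =>
    hSU ▸ ⟨hs, lam_eq_one.1 e⟩
  have hsq : ∀ s ∈ (S : Subgroup G), s * s ∈ U := fun s hs => hmem _ (mul_mem hs hs) (by
    rw [lam_mul (hSM hs), z0_sq (hSM hs)])
  have hcomm : ∀ s ∈ (S : Subgroup G), ∀ t ∈ (S : Subgroup G), (t * s)⁻¹ * (s * t) ∈ U :=
    fun s hs t ht => by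
    have e : (t * s)⁻¹ * (s * t) = (s * s)⁻¹ * (s * t⁻¹ * (s * t⁻¹)) * (t * t) := by group
    rw [e]
    exact mul_mem (mul_mem (inv_mem (hsq s hs)) (hsq _ (mul_mem hs (inv_mem ht)))) (hsq t ht)
  have hSN : (S : Subgroup G) ≤ normalizer (U : Set G) := fun s hs => mem_normalizer_fintype
    fun u hu => by
      have e : s * u * s⁻¹ = (s * u * (s * u)) * u⁻¹ * (s * s)⁻¹ := by group
      rw [SetLike.mem_coe, e]
      exact mul_mem (mul_mem (hsq _ (mul_mem hs (hUS hu))) (inv_mem hu)) (inv_mem (hsq s hs))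
  have htw : ∀ y ∈ centralizer (U : Set G), Tw y → y ∈ U := fun y hy h2 =>
    h.mem_of_norm hw.re hw.nc hc hU h2 (mem_C.2 (hy w wU).symm) (hKN hy)
  obtain ⟨O, hO, oO, -⟩ := lift_odd (N := centralizer (U : Set G))
    (Z := U ⊓ centralizer (U : Set G)) inf_le_right (fun z hz g hg => hg z hz.1) hU2.to_inf_left (by
      obtain ⟨P⟩ : Nonempty (Sylow 2 (centralizer (U : Set G))) := inferInstance
      have h1 : (P : Subgroup (centralizer (U : Set G))) ≤
          (U ⊓ centralizer (U : Set G)).subgroupOf _ := fun y hy => by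
        obtain ⟨n, hn⟩ := tw_of_mem P.isPGroup' hy
        exact ⟨htw y y.2 ⟨n, congrArg Subtype.val hn⟩, y.2⟩
      rw [← Nat.not_even_iff_odd, even_iff_two_dvd]
      exact fun e => P.not_dvd_index (e.trans (index_dvd_of_le h1)))
  have hOK : ∀ y ∈ O, ∀ u ∈ U, u * y = y * u := fun y hy => ((hO y).1 hy).1
  have hSO : ∀ s ∈ (S : Subgroup G), ∀ y ∈ O, s * y * s⁻¹ ∈ O := fun s hs y hy => by
    refine (hO _).2 ⟨fun u hu => ?_, ?_⟩
    · have h1 : s⁻¹ * u * s ∈ U := (mem_normalizer_iff''.1 (hSN hs) u).1 hu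
      calc u * (s * y * s⁻¹) = s * (s⁻¹ * u * s * y) * s⁻¹ := by group
        _ = _ := by rw [hOK y hy _ h1]; group
    · have := orderOf_injective (MulAut.conj s).toMonoidHom (MulAut.conj s).injective y
      have e : orderOf (s * y * s⁻¹) = orderOf y := by simpa using this
      rw [e]
      exact ((hO y).1 hy).2
  have sharp : ∀ y ∈ O, y ≠ 1 → Re y → ∀ s ∈ (S : Subgroup G), s * y = y * s → s ∈ U :=
    fun y hy y1 ry s hs e => by
    have h1 : U ⊔ zpowers s ≤ S := sup_le hUS (zpowers_le.2 hs)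
    have h2 := h.eq_of_le ry (odd_nc ((hO y).1 hy).2 y1 ry) hc (S.isPGroup'.to_le h1) le_sup_left
      (sup_le (fun u hu => mem_C.2 (hOK y hy u hu)) (zpowers_le.2 (mem_C.2 e)))
    exact h2 ▸ mem_sup_right (mem_zpowers s)
  have hidx : U.relIndex S = 2 ^ a := by
    have h1 := (U.subgroupOf S).index_mul_card
    rw [Nat.card_congr (subgroupOfEquivOfLe hUS).toEquiv, hc, h.syl S, pow_add] at h1
    exact Nat.eq_of_mul_eq_mul_right (by positivity) h1
  have h4 : 4 ∣ U.relIndex S := hidx ▸ pow_dvd_pow 2 ha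
  obtain ⟨t, ht, tU⟩ : ∃ t ∈ (S : Subgroup G), t ∉ U := by
    by_contra e
    push Not at e
    rw [relIndex_eq_one.2 e] at h4
    omega
  have xO : x ∈ O := (hO x).2 ⟨fun u hu => mem_C.1 (hUx hu), hx⟩
  refine tU (sharp x xO x1 hr t ht (A1.four_act hUS S.isPGroup' hSN
    (fun y hy => hKN ((hO y).1 hy).1) hsq h4 oO hSO ht (fun s hs sU y hy e => ?_) x xO))
  have dO : y⁻¹ * (t * y * t⁻¹) ∈ O := mul_mem (inv_mem hy) (hSO t ht y hy)
  by_contra hne
  refine sU (sharp _ dO (fun e1 => hne ?_) ⟨t, ?_⟩ s hs ?_)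
  · rw [inv_mul_eq_one, eq_mul_inv_iff_mul_eq] at e1
    exact e1.symm
  · have e1 := hOK y hy _ (hsq t ht)
    unfold Inv
    calc t * (y⁻¹ * (t * y * t⁻¹)) * t⁻¹ = t * y⁻¹ * t⁻¹ * (t * t * y) * (t * t)⁻¹ := by group
      _ = _ := by rw [e1]; group
  · have e1 := hOK y hy _ (hcomm s hs t ht)
    have e2 : s * y⁻¹ = y⁻¹ * s := by
      rw [eq_inv_mul_iff_mul_eq, ← mul_assoc, ← e, mul_inv_cancel_right]
    rw [← mul_inv_eq_iff_eq_mul]
    calc s * (y⁻¹ * (t * y * t⁻¹)) * s⁻¹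
        = s * y⁻¹ * s⁻¹ * (t * s * ((t * s)⁻¹ * (s * t) * y) * (s * t)⁻¹) := by group
      _ = y⁻¹ * (t * (s * y) * s⁻¹ * t⁻¹) := by rw [e1, e2]; group
      _ = _ := by rw [e]; group

end H50.RC
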