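import Cfsg.Agent.Lib.RCS.A1

set_option autoImplicit false

namespace H50.RC

open Subgroup

variable {G : Type*} [Group G] [Finite G] {a k : ℕ}

theorem Hyp.a2 (h : Hyp G a k) (ha : 2 ≤ a) {x u j : G} (hx : Odd (orderOf x)) (x1 : x ≠ 1) (hu : Inv u x)
    (hj : Tw j) (hc : j ∈ C x) (huj : Inv u j) : j ∈ Z0 G := by
  by_contra hz
  obtain ⟨n, hn⟩ := exists_W_pow hj huj hz
  obtain ⟨T, -, h1, h2, h3⟩ := h.f3 hx x1 hj hc hu huj
  refine h.a1 ha hn (U := T) (fun t ht => ?_) h3 hx x1 ⟨u, hu⟩ h1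
  exact mem_C.2 (Commute.pow_right (mem_C.1 (h2 ht)) n)

namespace A2

theorem core (h : Hyp G a k) (ha : 2 ≤ a) {f : G} (hf : Tw f) (hr : Re f)
    (h4 : f * f * (f * f) ∈ Z0 G) : f * f ∈ Z0 G := by
  by_contra hz
  obtain ⟨u₀, hu₀⟩ := hr
  obtain ⟨n, -, tu, hu⟩ := hu₀.tw
  generalize u₀ ^ n = u at tu hu
  have sq : ∀ {r : G}, Inv r f → Inv r (f * f) := fun hr => by simpa only [pow_two] using hr.pow 2
  have hW : W (f * f) := ⟨⟨u, sq hu⟩, fun hc => hz ((sq hu).z0 hc), h4⟩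
  have nc : f ∉ center G := fun hc => hW.nc (mul_mem hc hc)
  have f2 : f * f ≠ 1 := fun e => hz (e ▸ one_mem _)
  obtain ⟨R, -, uR, RC, cU, cR⟩ := h.exists_R ⟨u, hu⟩ nc f2 tu.zp
    (zpowers_le.2 (mem_Cs.2 (Or.inr hu)))
  have RP : IsPGroup 2 R := IsPGroup.of_card cR
  replace uR : u ∈ R := uR (mem_zpowers u)
  have Cd : C f ≤ C (f * f) := fun t ht => mem_C.2 (Commute.mul_right (mem_C.1 ht) (mem_C.1 ht))
  have RM : R ≤ M (f * f) := by
    intro r hr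
    rcases mem_Cs.1 (RC hr) with e | e
    · exact C_le_M _ (Cd (mem_C'.2 e))
    · rw [mem_M, lam, sq e, ← mul_inv_rev]
      exact inv_mem h4
  obtain ⟨S, RS, SM⟩ := h.f7 hW RP RM
  have eU : R ⊓ C f = (S : Subgroup G) ⊓ C (f * f) :=
    eq_of_le_of_card_ge (inf_le_inf RS Cd) (by rw [h.card_U hW S SM, cU])
  have mU : ∀ t ∈ (S : Subgroup G), lam (f * f) t = 1 → t ∈ R ⊓ C f := fun t ht e =>
    eU ▸ ⟨ht, lam_eq_one.1 e⟩
  have lU : ∀ t ∈ R ⊓ C f, lam (f * f) t = 1 := fun t ht => lam_eq_one.2 (Cd ht.2)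
  have li : ∀ t ∈ (S : Subgroup G), lam (f * f) t⁻¹ * lam (f * f) t = 1 := by
    intro t ht
    rw [← lam_mul (SM (inv_mem ht)), mul_inv_cancel]
    simp [lam]
  have li' : ∀ t ∈ (S : Subgroup G), lam (f * f) t * lam (f * f) t⁻¹ = 1 := fun t ht => by
    simpa only [inv_inv] using li t⁻¹ (inv_mem ht)
  have nU : ∀ s ∈ (S : Subgroup G), ∀ t ∈ R ⊓ C f, s * t * s⁻¹ ∈ R ⊓ C f := by
    intro s hs t ht
    apply mU _ (mul_mem (mul_mem hs (RS ht.1)) (inv_mem hs))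
    rw [lam_mul (SM (inv_mem hs)), lam_mul (SM (RS ht.1)), lU t ht, one_mul, li s hs]
  have fU : f ∈ R ⊓ C f := by
    refine h.mem_of_norm ⟨u, hu⟩ nc cU inf_le_right hf (self_mem_C f) ?_
    rw [mem_normalizer_iff]
    intro t
    constructor
    · intro ht
      rwa [← mem_C.1 ht.2, mul_inv_cancel_right]
    · intro ht
      have e : t = f * t * f⁻¹ := by
        calc t = f⁻¹ * (f * t * f⁻¹ * f) := by group
          _ = _ := by rw [mem_C.1 ht.2]; group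
      rwa [e]
  obtain ⟨s, hs, sR⟩ : ∃ s ∈ (S : Subgroup G), s ∉ R := by
    by_contra hn
    push Not at hn
    have h1 := card_le_of_le (show (S : Subgroup G) ≤ R from hn)
    have h2 := h.syl S
    have h3 : 2 ^ (k + 1) < 2 ^ (a + k) := Nat.pow_lt_pow_right (by norm_num) (by omega)
    rw [cR] at h1
    exact absurd (h2 ▸ h1) (not_le.2 h3)
  have key : ∀ e t, Inv u e → R ⊓ C f ≤ C e → t ∈ (S : Subgroup G) → t ∈ C e → t ∉ R →
      e ∈ Z0 G := by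
    intro e t he h1 h2 h3 h4
    apply he.z0
    by_contra hc
    have := h.eq_of_le ⟨u, he⟩ hc cU (P := (S : Subgroup G) ⊓ C e) (S.isPGroup'.to_le inf_le_left)
      (le_inf (inf_le_left.trans RS) h1) inf_le_right
    exact h4 (this.le ⟨h2, h3⟩).1
  set f' := s * f * s⁻¹ with hf'
  have f'U : f' ∈ R ⊓ C f := nU s hs f fU
  have cm : f' * f = f * f' := mem_C.1 f'U.2
  have Uf' : ∀ t ∈ R ⊓ C f, t * f' = f' * t := by
    intro t ht
    have := mem_C.1 (nU s⁻¹ (inv_mem hs) t ht).2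
    calc t * f' = s * (s⁻¹ * t * s⁻¹⁻¹ * f) * s⁻¹ := by rw [hf']; group
      _ = f' * t := by rw [this, hf']; group
  have uf' : u * f' * u⁻¹ = f'⁻¹ := by
    have m : s⁻¹ * u * s * u⁻¹ ∈ R ⊓ C f := by
      have hu' := RS uR
      apply mU _ (mul_mem (mul_mem (mul_mem (inv_mem hs) hu') hs) (inv_mem hu'))
      rw [lam_mul (SM (inv_mem hu')), lam_mul (SM hs), lam_mul (SM hu'),
        z0_comm (SM hs), ← mul_assoc, ← mul_assoc, li u hu', one_mul, li s hs]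
    have e := mem_C'.1 m.2
    calc u * f' * u⁻¹ = s * ((s⁻¹ * u * s * u⁻¹) * (u * f * u⁻¹) * (s⁻¹ * u * s * u⁻¹)⁻¹) * s⁻¹ := by
          rw [hf']; group
      _ = s * ((s⁻¹ * u * s * u⁻¹) * f * (s⁻¹ * u * s * u⁻¹)⁻¹)⁻¹ * s⁻¹ := by rw [hu]; group
      _ = f'⁻¹ := by rw [e, hf']; group
  have sf' : s * f' * s⁻¹ = f := by
    have m : s * s ∈ R ⊓ C f := by
      apply mU _ (mul_mem hs hs)
      rw [lam_mul (SM hs), z0_sq (SM hs)]
    calc s * f' * s⁻¹ = s * s * f * (s * s)⁻¹ := by rw [hf']; group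
      _ = f := mem_C'.1 m.2
  have e1 : f * f' ∈ Z0 G := by
    refine key _ s ?_ (fun t ht => ?_) hs ?_ sR
    · calc u * (f * f') * u⁻¹ = u * f * u⁻¹ * (u * f' * u⁻¹) := by group
        _ = (f * f')⁻¹ := by rw [hu, uf', ← cm]; group
    · exact mem_C.2 (Commute.mul_right (mem_C.1 ht.2) (Uf' t ht))
    · rw [mem_C']
      calc s * (f * f') * s⁻¹ = s * f * s⁻¹ * (s * f' * s⁻¹) := by group
        _ = f * f' := by rw [sf', ← hf', cm]
  have i1 : Inv u (f⁻¹ * f') := by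
    calc u * (f⁻¹ * f') * u⁻¹ = (u * f * u⁻¹)⁻¹ * (u * f' * u⁻¹) := by group
      _ = f'⁻¹ * (f' * f) * f'⁻¹ := by rw [hu, uf']; group
      _ = (f⁻¹ * f')⁻¹ := by rw [cm]; group
  have i2 : Inv s (f⁻¹ * f') := by
    calc s * (f⁻¹ * f') * s⁻¹ = (s * f * s⁻¹)⁻¹ * (s * f' * s⁻¹) := by group
      _ = (f⁻¹ * f')⁻¹ := by rw [sf', ← hf']; group
  have e2 : f⁻¹ * f' ∈ Z0 G := by
    refine key _ (u * s) i1 (fun t ht => ?_) (mul_mem (RS uR) hs) (i1.mul_inv i2) fun m => ?_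
    · exact mem_C.2 (Commute.mul_right (Commute.inv_right (mem_C.1 ht.2)) (Uf' t ht))
    · exact sR ((R.mul_mem_cancel_left uR).1 m)
  apply hz
  convert mul_mem e1 (inv_mem e2) using 1
  group

theorem ind (h : Hyp G a k) (ha : 2 ≤ a) (n : ℕ) : ∀ f : G, f ^ 2 ^ n = 1 → Re f → f * f ∈ Z0 G := by
  induction n with
  | zero =>
    intro f hf _
    rw [pow_zero, pow_one] at hf
    rw [hf, one_mul]
    exact one_mem _
  | succ n ih =>
    intro f hf hr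
    refine core h ha ⟨_, hf⟩ hr (ih _ ?_ ?_)
    · rw [← pow_two, ← pow_mul, ← pow_succ', hf]
    · obtain ⟨u, hu⟩ := hr
      exact ⟨u, by simpa only [pow_two] using hu.pow 2⟩

end A2

theorem Hyp.a3 (h : Hyp G a k) (ha : 2 ≤ a) {f : G} (hf : Tw f) (hr : Re f) : f * f ∈ Z0 G := by
  obtain ⟨n, hn⟩ := hf
  exact A2.ind h ha n f hn hr

theorem A2.two (h : Hyp G a k) (ha : 2 ≤ a) {w v : G} (hw : w * w ∈ Z0 G) (he : v * v = w * w)
    (ht : Tw (w * v)) : v ∈ M w := by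
  have h1 := h.a3 ha ht ⟨w, (inv_mul_of_sq hw he).1⟩
  have h2 := z0_normal.conj_mem _ (mul_mem (mul_mem h1 (inv_mem (he ▸ hw : v * v ∈ Z0 G)))
    (inv_mem hw)) w⁻¹
  rw [mem_M, lam]
  convert h2 using 1
  group

/-- odd transpositions modulo `Z0` -/
theorem Hyp.odd_or (h : Hyp G a k) (ha : 2 ≤ a) {w v : G} (hw : w * w ∈ Z0 G) (he : v * v = w * w) :
    v ∈ M w ∨ ∃ x ζ : G, Odd (orderOf x) ∧ x ≠ 1 ∧ ζ ∈ Z0 G ∧ w * v = x * ζ ∧ Inv w x ∧ Inv v x := by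
  obtain ⟨i1, i2⟩ := inv_mul_of_sq hw he
  obtain ⟨m, n, h1, h2, h3⟩ := exists_parts (w * v)
  by_cases e : (w * v) ^ n = 1
  · rw [e, mul_one] at h3
    exact Or.inl (A2.two h ha hw he (h3 ▸ h1))
  · have c : (w * v) ^ m * (w * v) ^ n = (w * v) ^ n * (w * v) ^ m := pow_mul_comm _ _ _
    exact Or.inr ⟨_, _, h2, e, h.a2 ha h2 e (i1.pow n) h1 (mem_C.2 c) (i1.pow m), h3.trans c,
      i1.pow n, i2.pow n⟩

theorem Hyp.comm_two (h : Hyp G a k) (ha : 2 ≤ a) {w v : G} (hw : w * w ∈ Z0 G) (he : v * v = w * w)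
    (ht : Tw (w * v)) : v ∈ M w := A2.two h ha hw he ht

theorem Hyp.exT (h : Hyp G a k) (ha : 2 ≤ a) {w v x ζ : G} (hw : w * w ∈ Z0 G)
    (hx : Odd (orderOf x)) (x1 : x ≠ 1) (hζ : ζ ∈ Z0 G) (he : w * v = x * ζ) (hi : Inv w x)
    {P : Subgroup G} (hP : IsPGroup 2 P) (hwP : w ∈ P) (hle : P ≤ Cs x) :
    ∃ T : Subgroup G, IsPGroup 2 T ∧ P ⊓ C x ≤ T ∧ T ≤ C x ∧ Nat.card T = 2 ^ k ∧ T ≤ M w ∧ T ≤ M v ∧
      ∀ s ∈ T, lam v s = lam w s := by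
  obtain ⟨R, RP, PR, -, cU, -⟩ := h.exists_R ⟨w, hi⟩ (odd_nc hx x1 ⟨w, hi⟩) (odd_sq_ne hx x1) hP hle
  have wR := PR hwP
  have m1 : R ⊓ C x ≤ M w := by
    intro s hs
    refine h.a2 ha hx x1 hi (tw_of_mem RP
      (mul_mem (mul_mem (mul_mem hs.1 wR) (inv_mem hs.1)) (inv_mem wR))) ?_ ?_
    · have := (C x).mul_mem hs.2 ((hi.mul_C ((C x).inv_mem hs.2)).1.mul_inv hi.inv_left)
      rw [lam]
      convert this using 1
      group
    · calc w * lam w s * w⁻¹ = w * s * w * (s⁻¹ * (w * w)⁻¹) := by rw [lam]; group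
        _ = (lam w s)⁻¹ := by rw [← z0_comm (inv_mem hw), lam]; group
  have m2 : ∀ s ∈ R ⊓ C x, lam v s = lam w s := by
    intro s hs
    have ev : v = w⁻¹ * x * ζ := by rw [mul_assoc, ← he]; group
    have hl : lam w s ∈ Z0 G := m1 hs
    rw [ev, lam_mul_z hζ]
    calc lam (w⁻¹ * x) s = s * w⁻¹ * s⁻¹ * (s * x * s⁻¹) * x⁻¹ * w := by rw [lam]; group
      _ = w⁻¹ * (lam w s)⁻¹ * w⁻¹⁻¹ := by rw [mem_C'.1 hs.2, lam]; group
      _ = lam w s := by rw [z0_conj (inv_mem hl), z0_inv hl]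
  exact ⟨R ⊓ C x, RP.to_le inf_le_left, inf_le_inf_right _ PR, inf_le_right, cU, m1,
    fun s hs => by rw [mem_M, m2 s hs]; exact m1 hs, m2⟩

end H50.RC
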