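import Cfsg.Agent.Lib.RCS.Bas

set_option autoImplicit false

namespace H50.RC

open Subgroup

variable {G : Type*} [Group G] [Finite G] {a k : ℕ}

namespace Alg

section
variable {Q Q' ι : Type*} [Group Q] [Group Q'] [Fintype ι]

/-- the product of a finite family in a fixed order -/
noncomputable def pr (f : ι → Q) : Q := (Finset.univ.toList.map f).prod

theorem pr_def (f : ι → Q) : pr f = (Finset.univ.toList.map f).prod := rfl

theorem pr_mem {f : ι → Q} {H : Subgroup Q} (h : ∀ i, f i ∈ H) : pr f ∈ H :=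
  list_prod_mem fun x hx => by obtain ⟨i, -, rfl⟩ := List.mem_map.1 hx; exact h i

theorem map_pr (φ : Q →* Q') (f : ι → Q) : φ (pr f) = pr fun i => φ (f i) := by
  rw [pr_def, map_list_prod, List.map_map]; rfl

theorem pr_perm {f : ι → Q} (hc : ∀ i j, Commute (f i) (f j)) {e : ι → ι} (he : Function.Injective e) :
    pr (fun i => f (e i)) = pr f := by
  have p : (Finset.univ.toList.map e).Perm Finset.univ.toList :=
    (List.perm_ext_iff_of_nodup ((Finset.nodup_toList _).map he) (Finset.nodup_toList _)).2 fun i => by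
      simpa using Finite.surjective_of_injective he i
  rw [pr_def, pr_def, ← (p.map f).prod_eq' (List.pairwise_map.2 (List.pairwise_of_forall fun _ _ => hc _ _)),
    List.map_map]
  rfl

theorem pow_odd (ho : Odd (Nat.card ι)) {c : Q} (h : c * c = 1) : c ^ (Finset.univ : Finset ι).toList.length = c := by
  obtain ⟨m, hm⟩ := ho
  rw [Finset.length_toList, Finset.card_univ, ← Nat.card_eq_fintype_card, hm, pow_succ, pow_mul, sq, h, one_pow, one_mul]

theorem pr_mul (ho : Odd (Nat.card ι)) {f : ι → Q} {c : Q} (h : c * c = 1) (hc : ∀ i, Commute c (f i)) :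
    pr (fun i => c * f i) = c * pr f := by
  have : ∀ l : List ι, (l.map fun i => c * f i).prod = c ^ l.length * (l.map f).prod := fun l => by
    induction l with
    | nil => simp
    | cons i l ih =>
      rw [List.map_cons, List.prod_cons, ih, List.map_cons, List.prod_cons, List.length_cons, pow_succ', mul_assoc,
        mul_assoc, ← mul_assoc (f i), ← ((hc i).pow_left _).eq, mul_assoc]
  rw [pr_def, this, pow_odd ho h, pr_def]

theorem pr_sq (ho : Odd (Nat.card ι)) {f : ι → Q} {c : Q} (h : c * c = 1) (hc : ∀ i j, Commute (f i) (f j))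
    (h2 : ∀ i, f i * f i = c) : pr f * pr f = c := by
  have : ∀ l : List ι, (l.map f).prod * (l.map f).prod = c ^ l.length := fun l => by
    induction l with
    | nil => simp
    | cons i l ih =>
      have k : Commute (f i) (l.map f).prod := Commute.list_prod_right _ _ fun x hx => by
        obtain ⟨j, -, rfl⟩ := List.mem_map.1 hx; exact hc i j
      rw [List.map_cons, List.prod_cons, List.length_cons, pow_succ', ← ih, ← h2 i, mul_assoc, ← mul_assoc _ (f i),
        ← k.eq, mul_assoc, mul_assoc]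
  rw [pr_def, this, pow_odd ho h]

theorem key (ho : Odd (Nat.card ι)) {f : ι → Q} {e : ι → ι} {c g : Q} (hc : c ∈ Z0 Q)
    (h : ∀ i, g * f i * g⁻¹ = c * f (e i)) : g * pr f * g⁻¹ = c * pr fun i => f (e i) := by
  rw [← pr_mul ho (z0_sq hc) fun i => z0_comm hc _]
  exact (map_pr (MulAut.conj g).toMonoidHom f).trans (congrArg pr (funext h))

theorem comm_mk {B : Subgroup Q} [B.Normal] {p q : Q} (h : lam q p ∈ B) :
    Commute (QuotientGroup.mk' B p) (QuotientGroup.mk' B q) := by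
  rw [← commutatorElement_eq_one_iff_commute, ← map_commutatorElement]
  exact (QuotientGroup.eq_one_iff _).2 h

theorem key' (ho : Odd (Nat.card ι)) {B : Subgroup Q} [B.Normal] {f : ι → Q} (hf : ∀ i j, lam (f j) (f i) ∈ B)
    {e : ι → ι} (he : Function.Injective e) {c g : Q} (hc : c ∈ Z0 Q) (h : ∀ i, g * f i * g⁻¹ = c * f (e i)) :
    c⁻¹ * lam (pr f) g ∈ B := by
  rw [← QuotientGroup.eq_one_iff, lam, key ho hc h, ← QuotientGroup.mk'_apply, ← mul_assoc, inv_mul_cancel_left, map_mul,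
    map_inv, map_pr, map_pr, pr_perm (f := fun i => QuotientGroup.mk' B (f i)) (fun i j => comm_mk (hf i j)) he,
    mul_inv_cancel]

end

theorem count {Y T R : Subgroup G} (hT : IsPGroup 2 T) (hR : IsPGroup 2 R) (hTY : T ≤ normalizer (Y : Set G))
    (hRY : R ≤ normalizer (Y : Set G)) (h : ∀ s ∈ T, ∃ r ∈ R, ∃ y ∈ Y, s = r * y) (hlt : Y ⊓ T < Y ⊓ R) :
    2 * Nat.card T ∣ Nat.card R := by
  have := Fact.mk Nat.prime_two
  have c : ∀ H : Subgroup G, Nat.card ↥(Y ⊓ H) * Y.relIndex H = Nat.card H := fun H => by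
    rw [← (Y.subgroupOf H).card_mul_index, ← inf_subgroupOf_right, ← relIndex, inf_relIndex_right,
      Nat.card_congr (subgroupOfEquivOfLe inf_le_right).toEquiv]
  have l : Y.relIndex T ≤ Y.relIndex R := by
    rw [← relIndex_subgroupOf hTY, ← relIndex_subgroupOf hRY, ← relIndex_sup_right (R.subgroupOf _)]
    refine relIndex_le_of_le_right (fun s hs => ?_) index_ne_zero_of_finite
    obtain ⟨r, hr, y, hy, e⟩ := h s hs
    rw [show s = ⟨r, hRY hr⟩ * ⟨y, le_normalizer hy⟩ from Subtype.ext e]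
    exact mul_mem_sup hr hy
  have l' : Nat.card T < Nat.card R := by
    rw [← c T, ← c R]
    exact Nat.mul_lt_mul_of_lt_of_le (Set.Finite.card_lt_card (Set.toFinite _) hlt) l
      (Nat.pos_of_ne_zero index_ne_zero_of_finite)
  obtain ⟨m, hm⟩ := hT.exists_card_eq
  obtain ⟨n, hn⟩ := hR.exists_card_eq
  rw [hm, hn] at l' ⊢
  rw [← pow_succ']
  exact pow_dvd_pow 2 ((Nat.pow_lt_pow_iff_right one_lt_two).1 l')

end Alg
open Alg

theorem alg {Y O T : Subgroup G} {w : G} (hY : IsPGroup 2 Y) (hT : IsPGroup 2 T) (hO : Odd (Nat.card O))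
    (hZ : Z0 G ≤ Y) (hYc : ∀ y ∈ Y, Y ≤ M y) (hY2 : ∀ y ∈ Y, y * y ∈ Z0 G) (hw : w ∈ Y)
    (hOY : O ≤ normalizer (Y : Set G)) (hTY : T ≤ normalizer (Y : Set G))
    (hTO : T ≤ normalizer (O : Set G)) (hTw : T ≤ M w) (hYT : ∀ y ∈ Y, y ∈ T → O ≤ C y)
    (hne : ¬ O ≤ M w) :
    ∃ y : G, Re y ∧ y ∉ center G ∧ 2 * Nat.card T ∣ Nat.card (C y) := by
  have := Fact.mk Nat.prime_two
  have := Fintype.ofFinite O
  have cj : ∀ {g u}, g ∈ normalizer (Y : Set G) → u ∈ Y → g * u * g⁻¹ ∈ Y := fun hg hu =>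
    (mem_normalizer_iff.1 hg _).1 hu
  have tc : ∀ s ∈ T, ∃ e : O → O, Function.Injective e ∧ ∀ u, s ∈ M u → ∀ o : O,
      s * (o * u * (o : G)⁻¹) * s⁻¹ = lam u s * (e o * u * (e o : G)⁻¹) := fun s hs =>
    ⟨fun o => ⟨s * o * s⁻¹, (mem_normalizer_iff.1 (hTO hs) _).1 o.2⟩, fun o o' e => Subtype.ext (by simpa using e),
      fun u hu o => by
        rw [← z0_conj hu (s * o * s⁻¹), conj_mul, ← conj_eq]; group⟩
  obtain ⟨i, hi⟩ : ∃ i, i = pr fun o : O => o * w * (o : G)⁻¹ := ⟨_, rfl⟩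
  have wY : ∀ o : O, o * w * (o : G)⁻¹ ∈ Y := fun o => cj (hOY o.2) hw
  have iY : i ∈ Y := hi ▸ pr_mem wY
  have wc : ∀ o o' : O, lam (o' * w * (o' : G)⁻¹) (o * w * (o : G)⁻¹) ∈ Z0 G := fun o o' => hYc _ (wY o') (wY o)
  have Oi : ∀ o ∈ O, o * i * o⁻¹ = i := fun o ho => by
    have := key' hO wc (mul_right_injective (⟨o, ho⟩ : O)) (one_mem _) (g := o) fun o' => by simp [mul_assoc]
    rw [inv_one, one_mul, ← hi] at this
    exact mem_C'.1 (mem_C.2 (mem_C.1 (odd_C (hO.of_dvd_nat (O.orderOf_dvd_natCard ho)) (M_symm this))).symm)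
  have Ti : T ≤ M i⁻¹ := fun s hs => by
    obtain ⟨e, he, h⟩ := tc s hs
    have := key' hO wc he (hTw hs) (h w (hTw hs))
    rw [← hi, mul_mem_cancel_left (inv_mem (mem_M.1 (hTw hs)))] at this
    exact M_symm (inv_mem (M_symm this))
  obtain ⟨y, hy⟩ : ∃ y, y = w * i⁻¹ := ⟨_, rfl⟩
  have yY : y ∈ Y := hy ▸ mul_mem hw (inv_mem iY)
  have Ty : T ≤ M y := fun s hs => by
    rw [mem_M, hy, lam_mul_left (hTw hs) (Ti hs)]; exact mul_mem (hTw hs) (Ti hs)
  have nO : ¬ O ≤ C y := fun k => hne fun o ho => C_le_M w (mem_C'.2 (by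
    rw [show w = y * i by rw [hy, inv_mul_cancel_right], ← conj_mul, Oi o ho, mem_C'.1 (k ho)]))
  obtain ⟨ζ, hζ⟩ : ∃ ζ, ζ = pr fun o : O => o * y * (o : G)⁻¹ := ⟨_, rfl⟩
  have ζZ : ζ ∈ Z0 G := by
    have c := fun o : O => comm_mk (B := Z0 G) (mem_M.1 (hYc _ (wY o) (inv_mem iY)))
    rw [← QuotientGroup.eq_one_iff, ← QuotientGroup.mk'_apply, hζ, map_pr,
      show (fun o : O => QuotientGroup.mk' (Z0 G) (o * y * (o : G)⁻¹)) = fun o : O =>
        QuotientGroup.mk' (Z0 G) i⁻¹ * QuotientGroup.mk' (Z0 G) (o * w * (o : G)⁻¹) from funext fun o => by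
          rw [(c o).eq, ← map_mul, hy, ← conj_mul, conj_inv.symm, Oi o o.2],
      pr_mul hO (by rw [← map_mul]; exact (QuotientGroup.eq_one_iff _).2 (hY2 _ (inv_mem iY))) c, ← map_pr, ← hi,
      ← map_mul, inv_mul_cancel, map_one]
  have lζ : ∀ g, lam ζ g = 1 := fun g => lam_eq_one.2 (mem_C.2 (z0_comm ζZ g).symm)
  let B : Subgroup G :=
    { carrier := {z | ∃ g ∈ Y, lam y g = z}
      one_mem' := ⟨1, one_mem _, by simp [lam]⟩
      mul_mem' := by
        rintro _ _ ⟨p, hp, rfl⟩ ⟨q, hq, rfl⟩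
        exact ⟨q * p, mul_mem hq hp, lam_mul (hYc y yY hp)⟩
      inv_mem' := by
        rintro _ ⟨p, hp, rfl⟩
        exact ⟨p, hp, (z0_inv (hYc y yY hp)).symm⟩ }
  have : B.Normal := ⟨by
    rintro _ ⟨p, hp, rfl⟩ g
    exact ⟨p, hp, (z0_conj (hYc y yY hp) g).symm⟩⟩
  have yc : ∀ o o' : O, lam (o' * y * (o' : G)⁻¹) (o * y * (o : G)⁻¹) ∈ B := fun o o' => by
    have m := cj (hOY (mul_mem (inv_mem o'.2) o.2)) yY
    exact ⟨_, m, by rw [← lam_conj (hYc y yY m) o']; congr 1; group⟩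
  have TB : ∀ s ∈ T, lam y s ∈ B := fun s hs => by
    obtain ⟨e, he, h⟩ := tc s hs
    have := key' hO yc he (Ty hs) (h y (Ty hs))
    rwa [← hζ, lζ, mul_one, inv_mem_iff] at this
  have y2 := hY2 y yY
  obtain ⟨g, -, hg⟩ : y * y ∈ B := by
    rw [← QuotientGroup.eq_one_iff, ← QuotientGroup.mk'_apply,
      ← pr_sq hO (c := QuotientGroup.mk' B (y * y)) (f := fun o : O => QuotientGroup.mk' B (o * y * (o : G)⁻¹)) (by rw [← map_mul, z0_sq y2, map_one]) (fun o o' => comm_mk (yc o o'))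
        (fun o => by rw [← map_mul, conj_mul, z0_conj y2]), ← map_pr, ← hζ, ← map_mul, z0_sq ζZ, map_one]
  have YT : ∀ u ∈ Y, u ∈ T → u ∈ C y := fun u hu uT => by
    have := key hO (f := fun o : O => o * y * (o : G)⁻¹) (e := id) (Ty uT) (g := u) fun o => by
      have c : (o : G) * u = u * o := mem_C.1 (hYT u hu uT o.2)
      rw [id, ← z0_conj (Ty uT) o, conj_mul, ← conj_eq, ← mul_assoc, ← mul_assoc, ← c, mul_assoc _ (o : G)⁻¹,
        ← mul_inv_rev, ← c]
      group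
    rw [show (pr fun o : O => (id o : O) * y * ((id o : O) : G)⁻¹) = ζ from hζ.symm, ← hζ, z0_conj ζZ,
      right_eq_mul] at this
    exact lam_eq_one.1 this
  refine ⟨y, ⟨g, ?_⟩, fun k => nO fun o _ => mem_C.2 (mem_center_iff.1 k o), ?_⟩
  · rw [Inv, conj_eq, hg, eq_inv_iff_mul_eq_one, mul_assoc, z0_sq y2]
  · refine (count (Y := Y) (R := (Y ⊔ T) ⊓ C y) hT (hY.to_sup_of_normal_left' hT hTY).to_inf_left hTY
      (inf_le_left.trans (sup_le le_normalizer hTY)) (fun s hs => ?_) (lt_of_le_of_ne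
        (fun u hu => ⟨hu.1, mem_sup_left hu.1, YT u hu.1 hu.2⟩) fun e => ?_)).trans (card_dvd_of_le inf_le_right)
    · obtain ⟨p, hp, e⟩ := TB s hs
      refine ⟨s * p, ⟨mul_mem (mem_sup_right hs) (mem_sup_left hp), lam_eq_one.1 ?_⟩, p⁻¹, inv_mem hp, by group⟩
      rw [lam_mul (hYc y yY hp), e, z0_sq (Ty hs)]
    · exact nO (hYT y yY (e.ge ⟨yY, mem_sup_left yY, self_mem_C y⟩).2)

end H50.RC
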