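import Cfsg.Agent.Lib.RCS.Bas

set_option autoImplicit false

namespace H50.RC

open Subgroup

variable {G : Type*} [Group G] [Finite G] {a k : ℕ}

theorem Hyp.b0 (h : Hyp G 1 k) {y g ζ : G} (hr : Re y) (hc : y ∉ center G) (y2 : y * y ≠ 1)
    (hζ : ζ ∈ Z0 G) (hg : g * y * g⁻¹ = ζ * y) : ζ = 1 ∨ Inv g y := by
  by_contra hn
  rw [not_or] at hn
  obtain ⟨u, hu⟩ := id hr
  have hN : (zpowers ζ).Normal := ⟨fun n hn g => by rwa [z0_conj (zpowers_le.2 hζ hn)]⟩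
  let π := QuotientGroup.mk' (zpowers ζ)
  have mz : ∀ s, π s = 1 → s = 1 ∨ s = ζ := fun s hs => by
    obtain ⟨m, rfl⟩ := (QuotientGroup.eq_one_iff s).1 hs
    have e : ζ ^ (2 : ℤ) = 1 := by rw [zpow_two, z0_sq hζ]
    obtain ⟨n, rfl | rfl⟩ := m.even_or_odd'
    · exact Or.inl (by simp only [zpow_mul, e, one_zpow])
    · exact Or.inr (by simp only [zpow_add, zpow_mul, e, one_zpow, zpow_one, one_mul])
  have y2' : π y * π y ≠ 1 := fun e => by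
    rcases mz _ ((map_mul π y y).trans e) with e | e
    · exact y2 e
    · exact hn.2 (by rw [Inv, hg, ← z0_inv hζ, ← e]; group)
  have c1 := card_Cs (H := ⊤) y2' (u := π u) (by simpa [Inv] using congrArg π hu) (mem_top _)
  rw [top_inf_eq, top_inf_eq] at c1
  have i1 : (C (π y)).index = 2 * (Cs (π y)).index := by
    have h1 := (C (π y)).card_mul_index
    rw [← (Cs (π y)).card_mul_index, c1, mul_comm 2, mul_assoc] at h1
    exact Nat.eq_of_mul_eq_mul_left Nat.card_pos h1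
  have i2 : (C y).relIndex ((C (π y)).comap π) = 2 := by
    refine relIndex_eq_two_iff_exists_notMem_and'.2 ⟨g, mem_C'.2 ?_, fun e => hn.1 ?_, fun b hb => ?_⟩
    · rw [← map_inv, ← map_mul, ← map_mul, hg, map_mul,
        show π ζ = 1 from (QuotientGroup.eq_one_iff ζ).2 (mem_zpowers ζ), one_mul]
    · rw [mem_C'.1 e] at hg
      exact mul_eq_right.1 hg.symm
    · rcases mz (lam y b) (by simp only [lam, map_mul, map_inv, mem_C'.1 hb, mul_inv_cancel]) with e | e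
      · exact Or.inr (lam_eq_one.1 e)
      · refine Or.inl (mem_C'.2 ?_)
        calc g * b * y * (g * b)⁻¹ = g * (b * y * b⁻¹) * g⁻¹ := by group
          _ = g * ζ * g⁻¹ * (g * y * g⁻¹) := by rw [conj_eq y b, e]; group
          _ = y := by rw [z0_conj hζ, hg, ← mul_assoc, z0_sq hζ, one_mul]
  have i3 := relIndex_mul_index (H := C y) (K := (C (π y)).comap π) fun s hs =>
    mem_C.2 (by rw [← map_mul, mem_C.1 hs, map_mul])
  rw [i2, index_comap_of_surjective _ (QuotientGroup.mk'_surjective _), i1] at i3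
  obtain ⟨S⟩ : Nonempty (Sylow 2 G) := inferInstance
  have := S.pow_dvd_card_of_pow_dvd_card (n := k + 2) (by
    rw [← (C y).card_mul_index, ← i3, pow_add, ← mul_assoc 2]
    exact mul_dvd_mul (h.dvd y hr hc) (dvd_mul_right _ _))
  rw [h.syl, Nat.pow_dvd_pow_iff_le_right one_lt_two] at this
  omega

theorem Hyp.b0' (h : Hyp G 1 k) {w g : G} (hw : W w) (w2 : w * w ≠ 1) (hg : g ∈ M w) :
    lam w g = 1 ∨ (lam w g = w * w ∧ Inv g w) :=
  (h.b0 hw.re hw.nc w2 hg (conj_eq w g)).imp_right fun e =>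
    ⟨by rw [← z0_inv hw.sq, lam, e]; group, e⟩

namespace B2

omit [Finite G] in
theorem not_both {s x : G} (x2 : x * x ≠ 1) (h : s ∈ C x) (h' : Inv s x) : False :=
  x2 (mul_eq_one_iff_eq_inv.2 ((mem_C'.1 h).symm.trans h'))

omit [Finite G] in
theorem inv_mul {u x y : G} (h : x * y = y * x) (h1 : Inv u x) (h2 : Inv u y) : Inv u (x * y) := by
  rw [Inv, ← conj_mul, h1, h2, h, mul_inv_rev]

omit [Finite G] in
theorem mem_of_inv {u f : G} (h : Inv u f) (f2 : f * f = 1) : u ∈ C f :=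
  mem_C'.2 (h.trans (inv_eq_of_mul_eq_one_right f2))

end B2

open B2

theorem Hyp.b2 (h : Hyp G 1 k) {x u y : G} (hx : Odd (orderOf x)) (x1 : x ≠ 1) {S : Subgroup G}
    (hS : IsPGroup 2 S) (hle : S ≤ Cs x) (hy : y ∈ S) (hyx : y ∈ C x) (hu : u ∈ S) (hux : Inv u x)
    (huy : Inv u y) : S ⊓ C x ≤ C y := by
  by_contra hn
  have x2 := odd_sq_ne hx x1
  have xy : x * y = y * x := (mem_C.1 hyx).symm
  have yc : y ∉ center G := fun e => hn fun s _ => mem_C.2 (mem_center_iff.1 e s)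
  have y2 : y * y ≠ 1 := fun e => yc (h.b1 hx x1 hux e hyx (mem_of_inv huy e)).1
  have K : ∀ g f, g ∈ C x → f ∈ S → f ∈ C x → Inv u f → Inv g f → f * f = 1 := by
    intro g f hg hf hfx h1 h2
    by_contra f2
    obtain ⟨T, -, t1, t2, t3⟩ := h.f3 hx x1 (tw_of_mem hS hf) hfx hux h1
    exact h.k2 f2 h2 hg ⟨u, hux⟩ (odd_nc hx x1 ⟨u, hux⟩) (t3 ▸ card_dvd_of_le (le_inf t2 t1))
  have cm := C_mul hx (tw_of_mem hS hy) hyx
  have uxy := inv_mul xy hux huy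
  have mR : ∀ s ∈ S ⊓ Cs (x * y), (s ∈ C x ∧ s ∈ C y) ∨ (Inv s x ∧ Inv s y) := fun s hs => by
    rcases hs.2 with e | e
    · exact Or.inl (mem_inf.1 (cm ▸ mem_C'.2 e))
    · have h1 := mem_inf.1 (cm ▸ e.mul_inv uxy.inv_left)
      have h2 := (hux.mul_C h1.1).2
      have h3 := (huy.mul_C h1.2).2
      rw [inv_mul_cancel_right] at h2 h3
      exact Or.inr ⟨h2, h3⟩
  have mR1 : ∀ s ∈ S ⊓ Cs (x * y), s ∈ C x → s ∈ C y := fun s hs h1 =>
    (mR s hs).elim (·.2) fun e => (not_both x2 h1 e.1).elim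
  have mR2 : ∀ s ∈ S ⊓ Cs (x * y), Inv s x → Inv s y := fun s hs h1 =>
    (mR s hs).elim (fun e => (not_both x2 e.1 h1).elim) (·.2)
  have uR : u ∈ S ⊓ Cs (x * y) := ⟨hu, Or.inr uxy⟩
  have cR : ∀ s ∈ S, s ∈ C x → s ∈ C y → s ∈ S ⊓ Cs (x * y) := fun s h1 h2 h3 =>
    ⟨h1, C_le_Cs _ (cm ▸ mem_inf.2 ⟨h2, h3⟩)⟩
  obtain ⟨g0, g1, g2, g3, g4⟩ := exists_norm hS (R := S ⊓ Cs (x * y)) (lt_of_le_of_ne inf_le_left
    fun e => hn fun s hs => mR1 s (e.ge hs.1) hs.2)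
  obtain ⟨g, gx, g1, g2, g3, g4⟩ : ∃ g ∈ C x, g ∈ S ∧ g ∉ S ⊓ Cs (x * y) ∧ g * g ∈ S ⊓ Cs (x * y) ∧
      g ∈ normalizer ((S ⊓ Cs (x * y) : Subgroup G) : Set G) := by
    rcases hle g1 with e | e
    · exact ⟨g0, mem_C'.2 e, g1, g2, g3, g4⟩
    · refine ⟨g0 * u, e.mul_inv hux, mul_mem g1 hu, fun e => g2 ((mul_mem_cancel_right uR).1 e), ?_,
        mul_mem g4 (le_normalizer uR)⟩
      rw [show g0 * u * (g0 * u) = g0 * u * g0⁻¹ * (g0 * g0 * (g0⁻¹ * g0⁻¹⁻¹ * 1)) * 1 *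
        (g0⁻¹ * g0) * u by group]
      simpa using mul_mem (mul_mem ((mem_normalizer_iff.1 g4 u).1 uR) g3) uR
  have nR : ∀ s ∈ S ⊓ Cs (x * y), g⁻¹ * s * g ∈ S ⊓ Cs (x * y) := fun s hs =>
    (mem_normalizer_iff''.1 g4 s).1 hs
  have c1 : y * (g * y * g⁻¹) = g * y * g⁻¹ * y := by
    have := mem_C.1 (mR1 _ (nR y (cR y hy hyx (self_mem_C y)))
      (mul_mem (mul_mem (inv_mem gx) hyx) gx))
    calc y * (g * y * g⁻¹) = g * (g⁻¹ * y * g * y) * g⁻¹ := by group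
      _ = _ := by rw [this]; group
  have c2 : Inv u (g * y * g⁻¹) := by
    have := (mR2 _ (nR u uR) ((hux.mul_C (inv_mem gx)).2.mul_C gx).1).conj g
    rwa [show g * (g⁻¹ * u * g) * g⁻¹ = u by group] at this
  have c3 : y⁻¹ * (g * y * g⁻¹) = g * y * g⁻¹ * y⁻¹ := (show Commute y _ from c1).inv_left.eq
  have c4 : Inv u (y⁻¹ * (g * y * g⁻¹)) := inv_mul c3 (by rw [Inv, huy.inv, inv_inv]) c2
  have c5 : Inv g (y⁻¹ * (g * y * g⁻¹)) := by
    have := mem_C'.1 (mR1 _ g3 (mul_mem gx gx))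
    calc g * (y⁻¹ * (g * y * g⁻¹)) * g⁻¹ = g * y⁻¹ * g⁻¹ * (g * g * y * (g * g)⁻¹) := by group
      _ = _ := by rw [this]; group
  have fx : y⁻¹ * (g * y * g⁻¹) ∈ C x := mul_mem (inv_mem hyx) (mul_mem (mul_mem gx hyx) (inv_mem gx))
  have f2 := K g _ gx (mul_mem (inv_mem hy) (mul_mem (mul_mem g1 hy) (inv_mem g1))) fx c4 c5
  rcases h.b0 (g := g) ⟨u, huy⟩ yc y2 (h.b1 hx x1 hux f2 fx (mem_of_inv c4 f2))
    (by rw [c3]; group) with e | e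
  · exact g2 (cR g g1 gx (mem_C'.2 (inv_mul_eq_one.1 e).symm))
  · exact y2 (K g y gx hy hyx huy e)

theorem Hyp.exists_cf (h : Hyp G 1 k) {w x : G} (hx : Odd (orderOf x)) (x1 : x ≠ 1) (hi : Inv w x)
    {P : Subgroup G} (hP : IsPGroup 2 P) (hw : w ∈ P) (hle : P ≤ Cs x) :
    ∃ S : Sylow 2 G, Cf w x S ∧ P ≤ S := by
  obtain ⟨R, r1, r2, r3, -, r5⟩ := h.exists_R ⟨w, hi⟩ (odd_nc hx x1 ⟨w, hi⟩) (odd_sq_ne hx x1) hP hle
  obtain ⟨S, hS⟩ := r1.exists_le_sylow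
  have e : R = S := eq_of_le_of_card_ge hS (by rw [r5, h.syl, add_comm])
  exact ⟨S, ⟨hx, x1, hi, e ▸ r3, hS (r2 hw)⟩, r2.trans hS⟩

theorem Cf.card_T (h : Hyp G 1 k) {w x : G} {S : Sylow 2 G} (c : Cf w x S) :
    Nat.card (Tc x S) = 2 ^ k := by
  have := card_Cs (odd_sq_ne c.odd c.ne) c.inv c.mem
  rw [inf_eq_left.2 c.le, h.syl, pow_add, pow_one] at this
  exact (Nat.eq_of_mul_eq_mul_left two_pos this).symm

/-- `S = T ∪ T w` -/
theorem Cf.cases {w x : G} {S : Sylow 2 G} (c : Cf w x S) {s : G} (hs : s ∈ (S : Subgroup G)) :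
    (s ∈ Tc x S ∧ ¬ Inv s x) ∨ (s ∉ Tc x S ∧ Inv s x ∧ s * w⁻¹ ∈ Tc x S) :=
  (c.le hs).imp (fun e => ⟨⟨hs, mem_C'.2 e⟩, not_both (odd_sq_ne c.odd c.ne) (mem_C'.2 e)⟩)
    fun e => ⟨fun h => not_both (odd_sq_ne c.odd c.ne) h.2 e, e,
      mem_inf.2 ⟨mul_mem hs (inv_mem c.mem), e.mul_inv c.inv.inv_left⟩⟩

theorem Cf.conj {w x : G} {S : Sylow 2 G} (c : Cf w x S) (g : G) :
    ∃ S' : Sylow 2 G, Cf (g * w * g⁻¹) (g * x * g⁻¹) S' ∧
      (∀ s, s ∈ (S : Subgroup G) ↔ g * s * g⁻¹ ∈ (S' : Subgroup G)) ∧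
      Nat.card (Ac (g * w * g⁻¹) (g * x * g⁻¹) S') = Nat.card (Ac w x S) := by
  have m : ∀ s, s ∈ (S : Subgroup G) ↔ g * s * g⁻¹ ∈ ((g • S : Sylow 2 G) : Subgroup G) := fun s =>
    (smul_mem_pointwise_smul_iff (a := MulAut.conj g)).symm
  have mc : ∀ s y : G, s ∈ C y ↔ g * s * g⁻¹ ∈ C (g * y * g⁻¹) := fun s y => by
    rw [mem_C, mem_C, conj_mul, conj_mul, mul_left_inj, mul_right_inj]
  refine ⟨g • S, ⟨?_, fun e => c.ne (by simpa using e), c.inv.conj g, fun s hs => ?_,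
    (m w).1 c.mem⟩, m, (Nat.card_congr ((MulAut.conj g).toEquiv.subtypeEquiv fun s =>
      and_congr (and_congr (m s) (mc s x)) (mc s w))).symm⟩
  · rw [show orderOf (g * x * g⁻¹) = orderOf x from (MulAut.conj g).orderOf_eq x]
    exact c.odd
  · obtain ⟨s, rfl⟩ : ∃ t, s = g * t * g⁻¹ := ⟨g⁻¹ * s * g, by group⟩
    exact (c.le ((m s).2 hs)).elim (fun e => C_le_Cs _ ((mc s x).1 (mem_C'.2 e)))
      fun e => Or.inr (e.conj g)

end H50.RC
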