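import Cfsg.Agent.Lib.RCS.B2
import Cfsg.Agent.Lib.FGS.TwoOrbits

set_option autoImplicit false

namespace H50.RC

open Subgroup

variable {G : Type*} [Group G] [Finite G] {a k : ℕ}

/-- `s ↦ lam w s` is a homomorphism from `T` into `Z(T)` with values inverted by `w` -/
theorem Cf.phi (h : Hyp G 1 k) {w x : G} {S : Sylow 2 G} (c : Cf w x S) (hw : w * w ∈ Z0 G) {s : G}
    (hs : s ∈ Tc x S) : lam w s ∈ Tc x S ∧ Inv w (lam w s) ∧ Tc x S ≤ C (lam w s) := by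
  have h1 : lam w s ∈ (S : Subgroup G) :=
    mul_mem (mul_mem (mul_mem hs.1 c.mem) (inv_mem hs.1)) (inv_mem c.mem)
  have h2 : lam w s ∈ C x :=
    (((c.inv.mul_C hs.2).2.mul_C (inv_mem hs.2)).1).mul_inv c.inv.inv_left
  have h3 : Inv w (lam w s) := by
    unfold Inv lam
    calc _ = w * s * w * (s⁻¹ * (w * w)⁻¹) := by group
      _ = _ := by rw [← z0_comm (inv_mem hw)]; group
  exact ⟨⟨h1, h2⟩, h3, h.b2 c.odd c.ne S.isPGroup' c.le h1 h2 c.mem c.inv h3⟩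

theorem Cf.phi_mul (h : Hyp G 1 k) {w x : G} {S : Sylow 2 G} (c : Cf w x S) (hw : w * w ∈ Z0 G) {s t : G}
    (hs : s ∈ Tc x S) (ht : t ∈ Tc x S) : lam w (s * t) = lam w s * lam w t := by
  rw [lam_mul', mem_C'.1 ((c.phi h hw ht).2.2 hs), mem_C.1 ((c.phi h hw ht).2.2 (c.phi h hw hs).1)]

namespace Cfg

theorem exφ (h : Hyp G 1 k) {w x : G} {S : Sylow 2 G} (c : Cf w x S) (hw : w * w ∈ Z0 G) :
    ∃ φ : Tc x S →* G, ∀ s, φ s = lam w s :=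
  ⟨MonoidHom.mk' (fun s => lam w s) fun s t => c.phi_mul h hw s.2 t.2, fun _ => rfl⟩

theorem z0_of_sq (h : Hyp G 1 k) {w x : G} {S : Sylow 2 G} (c : Cf w x S) (hw : w * w ∈ Z0 G)
    {s : G} (hs : s ∈ Tc x S) (e : lam w s * lam w s = 1) : s ∈ M w :=
  h.b1 c.odd c.ne c.inv e (c.phi h hw hs).1.2
    (mem_C'.2 ((c.phi h hw hs).2.1.trans (inv_eq_of_mul_eq_one_right e)))

end Cfg

open Cfg

theorem Cf.norm (h : Hyp G 1 k) {w x : G} {S : Sylow 2 G} (c : Cf w x S) (hw : w * w ∈ Z0 G) :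
    (S : Subgroup G) ≤ normalizer (Ac w x S : Set G) := by
  obtain ⟨φ, hφ⟩ := exφ h c hw
  have k : ∀ g ∈ Tc x S, ∀ n ∈ Ac w x S, g * n * g⁻¹ ∈ Ac w x S := fun g hg n hn => by
    refine mem_inf.2 ⟨(Tc x S).mul_mem ((Tc x S).mul_mem hg hn.1) (inv_mem hg), lam_eq_one.1 ?_⟩
    have := hφ (⟨g, hg⟩ * ⟨n, hn.1⟩ * ⟨g, hg⟩⁻¹)
    rw [map_mul, map_mul, map_inv, hφ ⟨n, hn.1⟩, lam_eq_one.2 hn.2, mul_one, mul_inv_cancel] at this
    exact this.symm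
  refine fun g hg => mem_normalizer_fintype fun n hn => ?_
  rcases c.cases hg with h1 | h1
  · exact k g h1.1 n hn
  · have := k _ h1.2.2 n hn
    rwa [show g * w⁻¹ * n * (g * w⁻¹)⁻¹ = g * (w⁻¹ * (n * w)) * g⁻¹ by group, mem_C.1 hn.2,
      inv_mul_cancel_left] at this

theorem Cf.z0_le {w x : G} {S : Sylow 2 G} : Z0 G ≤ Ac w x S :=
  le_inf (le_inf (z0_le_syl S) (Z0_le_C x)) (Z0_le_C w)

/-- `T/A` is cyclic, non-trivial, inverted by `w` -/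
theorem Cf.cyc (h : Hyp G 1 k) {w x : G} {S : Sylow 2 G} (c : Cf w x S) (hw : W w) (w2 : w * w ≠ 1) :
    ∃ r ∈ Tc x S, r ∉ Ac w x S ∧ w * r * w⁻¹ * r ∈ Ac w x S ∧
      ∀ s ∈ Tc x S, ∃ n : ℕ, s * (r ^ n)⁻¹ ∈ Ac w x S := by
  obtain ⟨φ, hφ⟩ := exφ h c hw.sq
  let _ : CommGroup φ.range := { (inferInstance : Group φ.range) with
    mul_comm := by
      rintro ⟨_, s, rfl⟩ ⟨_, t, rfl⟩
      refine Subtype.ext ?_
      change φ s * φ t = φ t * φ s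
      rw [hφ, hφ]
      exact mem_C.1 ((c.phi h hw.sq t.2).2.2 (c.phi h hw.sq s.2).1) }
  obtain ⟨z, hz⟩ : ∃ z : φ.range, ∀ y : φ.range, y.1 = w * w → y = z := by
    by_cases e : ∃ z : φ.range, z.1 = w * w
    · obtain ⟨z, e⟩ := e
      exact ⟨z, fun y e' => Subtype.ext (e'.trans e.symm)⟩
    · exact ⟨1, fun y e' => (e ⟨y, e'⟩).elim⟩
  obtain ⟨⟨_, r, rfl⟩, hr⟩ := (H78.TwoOrbits.isCyclic_of_unique_invol
    ((S.isPGroup'.to_le (inf_le_left : Tc x S ≤ S)).of_surjective _ φ.rangeRestrict_surjective) z (by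
      rintro ⟨_, s, rfl⟩ e
      have e' : φ s * φ s = 1 := congrArg Subtype.val e
      rw [hφ] at e'
      rcases h.b0' hw w2 (z0_of_sq h c hw.sq s.2 e') with h1 | h1
      · exact .inl (Subtype.ext ((hφ s).trans h1))
      · exact .inr (hz _ ((hφ s).trans h1.1)))).exists_monoid_generator
  have gen : ∀ s ∈ Tc x S, ∃ n : ℕ, s * (r.1 ^ n)⁻¹ ∈ Ac w x S := fun s hs => by
    obtain ⟨n, hn⟩ := hr ⟨_, ⟨s, hs⟩, rfl⟩
    have hn' : φ r ^ n = φ ⟨s, hs⟩ := congrArg Subtype.val hn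
    refine ⟨n, mem_inf.2 ⟨(Tc x S).mul_mem hs (inv_mem (pow_mem r.2 n)), lam_eq_one.1 ?_⟩⟩
    have := hφ (⟨s, hs⟩ * (r ^ n)⁻¹)
    rw [map_mul, map_inv, map_pow, hn', mul_inv_cancel] at this
    exact this.symm
  have m : w * r * w⁻¹ ∈ Tc x S := mem_inf.2 ⟨mul_mem (mul_mem c.mem r.2.1) (inv_mem c.mem),
    (c.inv.mul_C r.2.2).1.mul_inv c.inv.inv_left⟩
  refine ⟨r, r.2, fun hA => ?_, ⟨mul_mem m r.2, lam_eq_one.1 ?_⟩, gen⟩
  · have le : Tc x S ≤ C w := fun s hs => by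
      obtain ⟨n, hn⟩ := gen s hs
      simpa using mul_mem hn.2 (pow_mem hA.2 n)
    have := (h.mem_of_norm hw.re hw.nc (c.card_T h) le hw.tw (self_mem_C w)
      (mem_normalizer_fintype fun n hn => by
        rwa [← mem_C.1 (le hn), mul_inv_cancel_right])).2
    exact odd_sq_ne c.odd c.ne (mul_eq_one_iff_eq_inv.2 ((mem_C'.1 this).symm.trans c.inv))
  · rw [c.phi_mul h hw.sq m r.2, show lam w (w * r * w⁻¹) = w * lam w r * w⁻¹ by
      simp only [lam]; group, (c.phi h hw.sq r.2).2.1, inv_mul_cancel]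

theorem Cf.dich (h : Hyp G 1 k) {w x : G} {S : Sylow 2 G} (c : Cf w x S) (hw : W w) (w2 : w * w ≠ 1) :
    Tc x S ≤ M w ∨ ∃ s ∈ Tc x S, lam w s * lam w s = w * w := by
  refine or_iff_not_imp_left.2 fun hn => ?_
  obtain ⟨s, hs, hz⟩ := SetLike.not_le_iff_exists.1 hn
  obtain ⟨φ, hφ⟩ := exφ h c hw.sq
  obtain ⟨n, j⟩ := exists_W_pow (tw_of_mem S.isPGroup' (c.phi h hw.sq hs).1.1) (c.phi h hw.sq hs).2.1 hz
  have e : lam w s ^ n = lam w (s ^ n) := by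
    rw [← hφ ⟨s, hs⟩, ← map_pow, hφ]; rfl
  have m := pow_mem hs n
  rw [e] at j
  have e2 := c.phi_mul h hw.sq m m
  rcases h.b0' hw w2 (g := s ^ n * s ^ n) (by rw [mem_M, e2]; exact j.sq) with h1 | h1
  · exact (j.nc (z0_of_sq h c hw.sq m (e2.symm.trans h1)).1).elim
  · exact ⟨_, m, e2.symm.trans h1.1⟩

end H50.RC
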