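import Cfsg.Agent.Lib.RCS.F5
import Cfsg.Agent.Lib.RCS.LZ
import Cfsg.Agent.Lib.Core.PCore

set_option autoImplicit false

namespace H50.RC

open Subgroup

variable {G : Type*} [Group G] [Finite G] {a k : ℕ}

theorem Hyp.ex (h : Hyp G a k) {x : G} (hx : Odd (orderOf x)) (x1 : x ≠ 1) (hr : Re x) :
    ∃ E : Subgroup G, Good E ∧ ∃ w ∈ E, W w ∧ ∃ e ∈ E, e ∉ C w := by
  have : Fact (Nat.Prime 2) := ⟨Nat.prime_two⟩
  obtain ⟨Q, hQ⟩ : ∃ Q : Subgroup G, Q = Cfsg.pCore 2 G := ⟨_, rfl⟩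
  have Qn : Q.Normal := hQ ▸ inferInstance
  have Q2 : IsPGroup 2 Q := hQ ▸ H1.isPGroup_pCore
  obtain ⟨E, hE⟩ : ∃ E : Subgroup G, E = normalClosure {y | Odd (orderOf y) ∧ y ∈ centralizer (Q : Set G)} :=
    ⟨_, rfl⟩
  have En : E.Normal := hE ▸ inferInstance
  have EC : E ≤ centralizer (Q : Set G) := hE ▸ normalClosure_le_normal fun y hy => hy.2
  have xE : x ∈ E := hE ▸ subset_normalClosure ⟨hx, fun q hq => mem_C.1 (h.f5 hx hr Qn Q2 hq)⟩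
  have good : Good E := ⟨En, fun R Rn R2 q hq e he => EC he q (hQ ▸ H1.le_pCore R2 hq), fun H hH => by
    have := normal_of_index_eq_two hH
    rw [hE]
    refine normalClosure_le_normal fun y hy => ?_
    obtain ⟨m, hm⟩ := hy.1
    have e : y = (y ^ (m + 1)) ^ 2 := by
      rw [← pow_mul, show (m + 1) * 2 = 2 * m + 1 + 1 by ring, ← hm, pow_succ, pow_orderOf_eq_one, one_mul]
    rw [SetLike.mem_coe, e]
    exact sq_mem_of_index_two hH _⟩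
  have two : ∀ R : Subgroup G, R ≤ E → E ≤ normalizer (R : Set G) → IsPGroup 2 R → R ≤ Q := fun R h1 h2 h3 =>
    hQ ▸ (H1.le_pCoreOf h1 h2 h3).trans (H1.map_subtype_pCore_le E)
  have odd : ∀ O : Subgroup G, O ≤ E → E ≤ normalizer (O : Set G) → Odd (Nat.card O) → O = ⊥ := by
    intro O h1 h2 h3
    have := (H1.le_map_subtype_pPrimeCore h1 h2 (Nat.coprime_two_right.2 h3)).trans
      (H1.map_subtype_pPrimeCore_le E)
    rwa [h.odd _ inferInstance (Nat.coprime_two_right.1 H1.coprime_card_pPrimeCore), le_bot_iff] at this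
  have cZ : ∀ z ∈ E ⊓ Q, ∀ g ∈ E, z * g = g * z := fun z hz g hg => EC hg z hz.2
  have Z2 : IsPGroup 2 ↥(E ⊓ Q) := Q2.to_le inf_le_right
  have ev : 2 ∣ (E ⊓ Q).relIndex E := by
    by_contra n
    obtain ⟨O, h1, h2, -⟩ := lift_odd inf_le_left cZ Z2 (Nat.two_dvd_ne_zero.1 n |> Nat.odd_iff.2)
    have := odd O (fun y hy => ((h1 y).1 hy).1) (fun g hg => mem_normalizer_fintype fun y hy =>
      (h1 _).2 ⟨En.conj_mem _ ((h1 y).1 hy).1 g, by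
        rw [← MulAut.conj_apply, MulEquiv.orderOf_eq]; exact ((h1 y).1 hy).2⟩) h2
    exact x1 (mem_bot.1 (this ▸ (h1 x).2 ⟨xE, hx⟩))
  obtain ⟨v, hv⟩ := exists_prime_orderOf_dvd_card' (G := E ⧸ (E ⊓ Q).subgroupOf E) 2 ev
  obtain ⟨⟨u, uE⟩, rfl⟩ := QuotientGroup.mk_surjective v
  have uZ : u * u ∈ E ⊓ Q := by
    have := pow_orderOf_eq_one (QuotientGroup.mk ⟨u, uE⟩ : E ⧸ (E ⊓ Q).subgroupOf E)
    rw [hv, pow_two, ← QuotientGroup.mk_mul, QuotientGroup.eq_one_iff] at this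
    exact this
  have uQ : u ∉ Q := fun c => by
    rw [(QuotientGroup.eq_one_iff (⟨u, uE⟩ : E)).2 (show u ∈ E ⊓ Q from ⟨uE, c⟩), orderOf_one] at hv
    omega
  have tu : Tw u := by
    obtain ⟨n, hn⟩ := tw_of_mem Z2 uZ
    exact ⟨n + 1, by rw [pow_succ', pow_mul, pow_two, hn]⟩
  obtain ⟨g, hg, l1, l2⟩ : ∃ g ∈ E, lam u (g * u * g⁻¹) ∈ E ⊓ Q ∧ lam u g ∉ E ⊓ Q := by
    by_contra n
    obtain ⟨O, h1, h2, h3, h4⟩ := lz inf_le_left cZ Z2 uE uZ fun g hg c => by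
      by_contra c'
      exact n ⟨g, hg, c, c'⟩
    rw [odd O h1 h2 h3] at h4
    refine uQ (two ((E ⊓ Q) ⊔ zpowers u) (sup_le inf_le_left (zpowers_le.2 uE)) (fun g hg => ?_)
      (sup_zp Z2 tu (normalizer_eq_top (E ⊓ Q) ▸ mem_top u)) (mem_sup_right (mem_zpowers u)))
    refine mem_normalizer_fintype fun y hy => ?_
    have : (E ⊓ Q) ⊔ zpowers u ≤ ((E ⊓ Q) ⊔ zpowers u).comap (MulAut.conj g).toMonoidHom := by
      refine sup_le (fun z hz => mem_sup_left (Normal.conj_mem inferInstance z hz g)) (zpowers_le.2 ?_)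
      obtain ⟨o, ho, ζ, hζ, e⟩ := h4 g hg
      change g * u * g⁻¹ ∈ (E ⊓ Q) ⊔ zpowers u
      rw [conj_eq, e, mem_bot.1 ho, one_mul]
      exact mul_mem (mem_sup_left hζ) (mem_sup_right (mem_zpowers u))
    exact this hy
  obtain ⟨u', hu'⟩ : ∃ u', u' = g * u * g⁻¹ := ⟨_, rfl⟩
  have u'E : u' ∈ E := hu' ▸ En.conj_mem u uE g
  have sq : u * u = u' * u' := by
    rw [hu', conj_mul, ← cZ _ uZ g hg, mul_inv_cancel_right]
  have eE : u⁻¹ * u' ∈ E := mul_mem (inv_mem uE) u'E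
  have iv : Inv u (u⁻¹ * u') := by
    calc u * (u⁻¹ * u') * u⁻¹ = u'⁻¹ * (u' * u') * u⁻¹ := by group
      _ = _ := by rw [← sq]; group
  have e2 : u⁻¹ * u' * (u⁻¹ * u') ∈ E ⊓ Q := by
    have : u⁻¹ * u' * (u⁻¹ * u') = u⁻¹ * lam u u' * u⁻¹⁻¹ * (u' * (u * u)⁻¹ * u') := by
      simp only [lam]; group
    rw [this, sq, show u' * (u' * u')⁻¹ * u' = 1 by group, mul_one]
    exact Normal.conj_mem inferInstance _ (hu' ▸ l1) _
  have y2 : u⁻¹ * u' * (u⁻¹ * u') * (u⁻¹ * u' * (u⁻¹ * u')) = 1 := by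
    have := iv.pow 2
    rw [Inv, pow_two, ← cZ _ e2 u uE, mul_inv_cancel_right] at this
    exact mul_eq_one_iff_eq_inv.2 this
  obtain ⟨x', h1, h2, h3, h4⟩ := bs uE tu (cZ _ uZ) fun R r1 r2 r3 c => uQ (two R r1 r2 r3 c)
  have z0 := h.b1 h2 h3 h4 y2 (mem_C.2 (cZ _ e2 x' h1)) (mem_C.2 (cZ _ e2 u uE).symm)
  have nc : ∃ e ∈ E, e ∉ C (u⁻¹ * u') := by
    by_contra n
    have c : ∀ e ∈ E, e ∈ C (u⁻¹ * u') := fun e he => not_not.1 fun c => n ⟨e, he, c⟩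
    have m := two (zpowers (u⁻¹ * u')) (zpowers_le.2 eE) (fun e he => mem_normalizer_fintype fun y hy => by
        obtain ⟨i, rfl⟩ := mem_zpowers_iff.1 hy
        rw [← conj_zpow, mem_C'.1 (c e he)]
        exact hy)
      (Tw.zp ⟨1 + 1, by rw [pow_succ, pow_one, pow_mul, pow_two, pow_two, y2]⟩) (mem_zpowers _)
    refine l2 ?_
    have : lam u g = u * (u⁻¹ * u') * u⁻¹ := by rw [hu']; simp only [lam]; group
    rw [this]
    exact Normal.conj_mem inferInstance _ (show _ ∈ E ⊓ Q from ⟨eE, m⟩) u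
  refine ⟨E, good, _, eE, ⟨⟨u, iv⟩, fun c => ?_, z0⟩, nc⟩
  obtain ⟨e, -, n⟩ := nc
  exact n (mem_C.2 (mem_center_iff.1 c e))

end H50.RC
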