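import Cfsg.Agent.Lib.RCS.Bas

set_option autoImplicit false

namespace H50.RC

open Subgroup

variable {G : Type*} [Group G] [Finite G] {a k : ℕ}

theorem F5.star {x p m : G} (hx : Odd (orderOf x)) (hm : Tw m) (c : m ∈ C x) (e : x * p * x⁻¹ = m * p) :
    p ∈ C x := by
  have key : ∀ n : ℕ, x ^ n * p * (x ^ n)⁻¹ = m ^ n * p := fun n => by
    induction n with
    | zero => simp
    | succ n ih =>
      have c' : x * m ^ n * x⁻¹ = m ^ n := by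
        rw [mul_inv_eq_iff_eq_mul]
        exact ((show Commute m x from mem_C.1 c).pow_left n).symm
      calc x ^ (n + 1) * p * (x ^ (n + 1))⁻¹ = x * (x ^ n * p * (x ^ n)⁻¹) * x⁻¹ := by group
        _ = x * m ^ n * x⁻¹ * (x * p * x⁻¹) := by rw [ih]; group
        _ = m ^ (n + 1) * p := by rw [c', e, pow_succ, mul_assoc]
  have h1 := key (orderOf x)
  rw [pow_orderOf_eq_one, one_mul, inv_one, mul_one, right_eq_mul] at h1
  have h2 := eq_one_of_tw_odd hm (hx.of_dvd_nat (orderOf_dvd_of_pow_eq_one h1))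
  rw [h2, one_mul, mul_inv_eq_iff_eq_mul] at e
  exact mem_C.2 e.symm

theorem Hyp.f5 (h : Hyp G a k) {x : G} (hx : Odd (orderOf x)) (hr : Re x) {Q : Subgroup G}
    (hn : Q.Normal) (hQ : IsPGroup 2 Q) : Q ≤ C x := by
  by_cases x1 : x = 1
  · exact fun q _ => mem_C.2 (by simp [x1])
  have hc := odd_nc hx x1 hr
  obtain ⟨T, hT, -, TC, cT⟩ := h.exists_T hr hc (P := ⊥) IsPGroup.of_bot bot_le
  have hP : IsPGroup 2 ↥(T ⊔ Q) := hT.to_sup_of_normal_right hQ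
  have xT : ∀ s ∈ T, x * s * x⁻¹ = s := fun s hs => by
    rw [mul_inv_eq_iff_eq_mul]; exact (mem_C.1 (TC hs)).symm
  have xP : ∀ p ∈ T ⊔ Q, x * p * x⁻¹ ∈ T ⊔ Q := fun p hp =>
    (sup_le (fun s hs => show x * s * x⁻¹ ∈ T ⊔ Q from (xT s hs).symm ▸ mem_sup_left hs)
      fun q hq => mem_sup_right (hn.conj_mem q hq x) :
        T ⊔ Q ≤ (T ⊔ Q).comap (MulAut.conj x).toMonoidHom) hp
  have TP : T ≤ T ⊔ Q := le_sup_left
  by_contra hle
  have lt : T < T ⊔ Q := lt_of_le_of_ne TP fun e => hle (le_sup_right.trans (e ▸ TC))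
  generalize T ⊔ Q = P at hP xP TP lt
  have PC : ∀ p ∈ P, p ∈ C x → p ∈ T := fun p hp c =>
    h.eq_of_le hr hc cT (hP.to_le inf_le_left) (le_inf TP TC) inf_le_right ▸ (⟨hp, c⟩ : p ∈ P ⊓ C x)
  have st : ∀ p ∈ P, ∀ m ∈ T, x * p * x⁻¹ = m * p → p ∈ T := fun p hp m hm e =>
    PC p hp (F5.star hx (tw_of_mem hT hm) (TC hm) e)
  obtain ⟨n, nP, nT, -, nN⟩ := exists_norm hP lt
  have lt' : T ⊓ (P ⊓ centralizer T) < P ⊓ centralizer T := by
    refine lt_of_le_of_ne inf_le_right fun e => nT (st n nP (x * n * x⁻¹ * n⁻¹) ?_ (by group))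
    refine (e.ge (mem_inf.2 ⟨mul_mem (xP n nP) (inv_mem nP), mem_centralizer_iff.2 fun s hs => ?_⟩)).1
    have e1 := xT _ ((mem_normalizer_iff.1 (inv_mem nN) s).1 hs)
    have e2 := xT s hs
    calc s * (x * n * x⁻¹ * n⁻¹) = x * s * x⁻¹ * (x * n * x⁻¹ * n⁻¹) := by rw [e2]
      _ = x * n * (n⁻¹ * s * n⁻¹⁻¹) * x⁻¹ * n⁻¹ := by group
      _ = x * n * (x⁻¹ * (x * (n⁻¹ * s * n⁻¹⁻¹) * x⁻¹)) * n⁻¹ := by group
      _ = x * n * x⁻¹ * n⁻¹ * s := by rw [e1]; group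
  obtain ⟨w, ⟨wP, wC⟩, wT, w2, -⟩ := exists_norm (hP.to_le inf_le_left) lt'
  have wT' : w ∉ T := fun e => wT ⟨e, wP, wC⟩
  have eP : w⁻¹ * (x * w * x⁻¹) ∈ P := mul_mem (inv_mem wP) (xP w wP)
  have eT : w⁻¹ * (x * w * x⁻¹) ∉ T := fun e =>
    wT' (inv_mem_iff.1 (st w⁻¹ (inv_mem wP) _ (inv_mem e) (by group)))
  have eC : w⁻¹ * (x * w * x⁻¹) ∈ centralizer (T : Set G) :=
    mul_mem (inv_mem wC) (mem_centralizer_iff.2 fun s hs => by
      have e1 := mem_centralizer_iff.1 wC s hs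
      calc s * (x * w * x⁻¹) = x * s * x⁻¹ * (x * w * x⁻¹) := by rw [xT s hs]
        _ = x * (s * w) * x⁻¹ := by group
        _ = x * w * x⁻¹ * (x * s * x⁻¹) := by rw [e1]; group
        _ = _ := by rw [xT s hs])
  have eI : Inv w (w⁻¹ * (x * w * x⁻¹)) := by
    have e1 := xT _ w2.1
    calc w * (w⁻¹ * (x * w * x⁻¹)) * w⁻¹ = x * w⁻¹ * x⁻¹ * (x * (w * w) * x⁻¹) * w⁻¹ := by group
      _ = _ := by rw [e1]; group
  exact eT (h.mem_of_norm ⟨w, eI⟩ (fun z => eT (PC _ eP (mem_C.2 (mem_center_iff.1 z x).symm))) cT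
    (fun s hs => mem_C.2 (mem_centralizer_iff.1 eC s hs)) (tw_of_mem hP eP) (self_mem_C _)
    (centralizer_le_normalizer _ eC))

end H50.RC
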