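import Cfsg.Agent.Lib.RCS.Bas
import Cfsg.Agent.Lib.LocStruct.SylowIn

set_option autoImplicit false

namespace H50.RC

open Subgroup

variable {G : Type*} [Group G] [Finite G] {a k : ℕ}

namespace F7

open H69

theorem cnt {v : G} {R : Subgroup G} (hR : R ≤ M v) : ∃ Z : Subgroup G,
    (∀ z, z ∈ Z ↔ ∃ r ∈ R, lam v r = z) ∧ Nat.card R = Nat.card ↥(R ⊓ C v) * Nat.card Z := by
  let φ : R →* G := MonoidHom.mk' (fun r => lam v r) fun r s => by
    change lam v (r * s) = _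
    rw [lam_mul (hR s.2), z0_comm (hR s.2)]
  refine ⟨φ.range, fun z => ⟨fun ⟨r, e⟩ => ⟨r, r.2, e⟩, fun ⟨r, hr, e⟩ => ⟨⟨r, hr⟩, e⟩⟩, ?_⟩
  have e : φ.ker = (R ⊓ C v).subgroupOf R :=
    Subgroup.ext fun r => ⟨fun h => ⟨r.2, lam_eq_one.1 h⟩, fun h => lam_eq_one.2 h.2⟩
  rw [← φ.ker.card_mul_index, index_ker, e, card_subgroupOf inf_le_left]

omit [Finite G] in
theorem ex_pre (v : G) {Z : Subgroup G} (hZ : Z ≤ Z0 G) : ∃ H : Subgroup G, ∀ p, p ∈ H ↔ lam v p ∈ Z := by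
  refine ⟨{ carrier := {p | lam v p ∈ Z}
            one_mem' := by simp [lam]
            mul_mem' := fun {a b} ha hb => ?_
            inv_mem' := fun {a} ha => ?_ }, fun _ => Iff.rfl⟩
  · change lam v (a * b) ∈ Z
    rw [lam_mul (hZ hb)]
    exact mul_mem hb ha
  · change lam v a⁻¹ ∈ Z
    have e : lam v a⁻¹ = a⁻¹ * (lam v a)⁻¹ * a⁻¹⁻¹ := by simp only [lam]; group
    rw [e, z0_conj (inv_mem (hZ ha))]
    exact inv_mem ha

theorem mem_T {w : G} (hw : w * w ∈ Z0 G) {T : Subgroup G} (hT : IsSylowIn 2 T (M w)) : w ∈ T := by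
  have tw : Tw w := ⟨1 + 1, by rw [pow_succ, pow_one, pow_mul, pow_two, pow_two, z0_sq hw]⟩
  refine hT.le_of_le_normalizer (R := Z0 G ⊔ zpowers w) (sup_zp z0_two tw (normalizer_eq_top (Z0 G) ▸ mem_top w))
    (sup_le ((Z0_le_C w).trans (C_le_M w)) (zpowers_le.2 (C_le_M w (self_mem_C w)))) (fun t ht => ?_)
    (mem_sup_right (mem_zpowers w))
  refine mem_normalizer_of_cj_le ?_
  rw [cj_sup, cj_eq_of_normal, cj_zpowers]
  refine sup_le le_sup_left (zpowers_le.2 ?_)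
  rw [conj_eq]
  exact mul_mem (mem_sup_left (hT.le ht)) (mem_sup_right (mem_zpowers w))

theorem card_T (h : Hyp G a k) {w : G} (hw : W w) {T : Subgroup G} (hT : IsSylowIn 2 T (M w)) :
    Nat.card ↥(T ⊓ C w) = 2 ^ k := by
  have : Fact (Nat.Prime 2) := ⟨Nat.prime_two⟩
  have s := hT.inf_normal (C_le_M w) fun g hg => mem_normalizer_fintype fun c hc => by
    have hc : c ∈ C w := hc
    change g * c * g⁻¹ ∈ C w
    rw [← lam_eq_one, lam_mul (inv_mem hg), lam_mul (C_le_M w hc), lam_eq_one.2 hc, one_mul,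
      ← lam_mul (inv_mem hg), mul_inv_cancel, lam_eq_one]
    exact one_mem _
  obtain ⟨T', h1, h2, h3, h4⟩ := h.exists_T hw.re hw.nc s.isP inf_le_right
  rw [← s.max T' h2 h3 h1, h4]

end F7

theorem Hyp.f7 (h : Hyp G a k) {w : G} (hw : W w) {P : Subgroup G} (hP : IsPGroup 2 P) (hPM : P ≤ M w) :
    ∃ S : Sylow 2 G, P ≤ S ∧ (S : Subgroup G) ≤ M w := by
  obtain ⟨T, hT, hPT⟩ := H69.exists_isSylowIn_le hP hPM
  obtain ⟨S, hS⟩ := hT.isP.exists_le_sylow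
  refine ⟨S, hPT.trans hS, ?_⟩
  by_contra n
  have lt : T < S := lt_of_le_of_ne hS fun e => n (e ▸ hT.le)
  obtain ⟨g, gS, gT, g2, gN⟩ := exists_norm S.isPGroup' lt
  have le : T ⊔ zpowers g ≤ S := sup_le hS (zpowers_le.2 gS)
  have p1 : IsPGroup 2 ↥(T ⊔ zpowers g) := S.isPGroup'.to_le le
  have gM : g ∉ M w := fun c => gT (hT.max _ le_sup_left (sup_le hT.le (zpowers_le.2 c)) p1 ▸
    mem_sup_right (mem_zpowers g))
  have wT := F7.mem_T hw.sq hT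
  have w2T := H69.conj_mem_of_mem_normalizer gN wT
  have iv := (inv_mul_of_sq hw.sq (v := g * w * g⁻¹) (by rw [conj_mul, z0_conj hw.sq])).1
  have nc : w * (g * w * g⁻¹) ∉ center G := fun c => gM (by
    have e : lam w g = w⁻¹ * (w * (g * w * g⁻¹)) * w⁻¹⁻¹ * (w * w)⁻¹ := by simp only [lam]; group
    rw [mem_M, e, z0_conj (iv.z0 c)]
    exact mul_mem (iv.z0 c) (inv_mem hw.sq))
  obtain ⟨Z, hZ, c1⟩ := F7.cnt hT.le
  have ZZ : Z ≤ Z0 G := fun z hz => by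
    obtain ⟨r, hr, rfl⟩ := (hZ z).1 hz
    exact hT.le hr
  have mZ : ∀ t ∈ T, lam w t ∈ Z := fun t ht => (hZ _).2 ⟨t, ht, rfl⟩
  obtain ⟨H, hH⟩ := F7.ex_pre (w * (g * w * g⁻¹)) ZZ
  have PH : T ⊔ zpowers g ≤ H := by
    refine sup_le (fun t ht => (hH t).2 ?_) (zpowers_le.2 ((hH g).2 ?_))
    · have m := H69.conj_mem_of_mem_normalizer' gN ht
      have e : t = g * (g⁻¹ * t * g) * g⁻¹ := by group
      have e1 := lam_conj (hT.le m) g
      have e2 := (mem_M_conj g).2 (hT.le m)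
      rw [← e] at e1 e2
      rw [lam_mul_left (hT.le ht) e2, e1]
      exact mul_mem (mZ t ht) (mZ _ m)
    · have e : lam (w * (g * w * g⁻¹)) g =
          g * w * g⁻¹ * lam w (g * g) * (g * w * g⁻¹)⁻¹ * lam w (g * w * g⁻¹) := by
        simp only [lam]; group
      rw [e, z0_conj (ZZ (mZ _ g2))]
      exact mul_mem (mZ _ g2) (mZ _ w2T)
  obtain ⟨Z1, hZ1, c2⟩ := F7.cnt (v := w * (g * w * g⁻¹)) (R := T ⊔ zpowers g) fun p hp => ZZ ((hH p).1 (PH hp))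
  have l1 : Nat.card Z1 ≤ Nat.card Z := card_le_of_le fun z hz => by
    obtain ⟨r, hr, rfl⟩ := (hZ1 z).1 hz
    exact (hH r).1 (PH hr)
  have l2 := Nat.le_of_dvd (by positivity)
    (h.card_dvd ⟨w, iv⟩ nc (p1.to_le (inf_le_left (b := C (w * (g * w * g⁻¹))))) inf_le_right)
  have l3 := Nat.mul_le_mul l2 l1
  rw [← c2, ← F7.card_T h hw hT, ← c1] at l3
  exact gT (eq_of_le_of_card_ge le_sup_left l3 ▸ mem_sup_right (mem_zpowers g))

theorem mem_syl {w : G} (hw : w * w ∈ Z0 G) (S : Sylow 2 G) (hS : (S : Subgroup G) ≤ M w) :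
    w ∈ (S : Subgroup G) := F7.mem_T hw (H69.isSylowIn_of_le S hS)

theorem Hyp.card_U (h : Hyp G a k) {w : G} (hw : W w) (S : Sylow 2 G) (hS : (S : Subgroup G) ≤ M w) :
    Nat.card ↥((S : Subgroup G) ⊓ C w) = 2 ^ k := F7.card_T h hw (H69.isSylowIn_of_le S hS)

/-- two Sylow subgroups inside `H` are conjugate in `H` -/
theorem syl_conj {H : Subgroup G} (S S' : Sylow 2 G) (hS : (S : Subgroup G) ≤ H) (hS' : (S' : Subgroup G) ≤ H) :
    ∃ g ∈ H, ∀ s, s ∈ (S : Subgroup G) ↔ g * s * g⁻¹ ∈ (S' : Subgroup G) := by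
  have : Fact (Nat.Prime 2) := ⟨Nat.prime_two⟩
  obtain ⟨g, hg, e⟩ := (H69.isSylowIn_of_le S hS).conj (H69.isSylowIn_of_le S' hS')
  exact ⟨g, hg, fun s => e ▸ H69.cj_mem_iff.symm⟩

theorem le_conj_syl {H P : Subgroup G} (S : Sylow 2 G) (hS : (S : Subgroup G) ≤ H) (hP : IsPGroup 2 P)
    (hPH : P ≤ H) : ∃ g ∈ H, ∀ p ∈ P, g⁻¹ * p * g ∈ (S : Subgroup G) := by
  have : Fact (Nat.Prime 2) := ⟨Nat.prime_two⟩
  obtain ⟨g, hg, e⟩ := (H69.isSylowIn_of_le S hS).exists_le_cj hP hPH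
  exact ⟨g, hg, fun p hp => H69.mem_cj.1 (e hp)⟩

end H50.RC
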