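import Cfsg.Agent.Lib.RCS.Tr
import Cfsg.Agent.Lib.RCS.Alg

set_option autoImplicit false

namespace H50.RC

open Subgroup

variable {G : Type*} [Group G] [Finite G] {a k : ℕ}

theorem Hyp.finA (h : Hyp G a k) (ha : 2 ≤ a) {w : G} (hw : W w)
    (hn : ∀ Q : Subgroup G, Q.Normal → IsPGroup 2 Q → w ∉ Q) : False := by
  have mM : ∀ {u g : G}, g ∈ M u → g * u * g⁻¹ ∈ M u := fun {u g} m => by
    rw [conj_eq]
    exact mul_mem (C_le_M u (Z0_le_C u m)) (C_le_M u (self_mem_C u))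
  let Y : Subgroup G := closure (Dw w ∩ M w)
  have wM : w ∈ M w := C_le_M w (self_mem_C w)
  have wY : w ∈ Y := subset_closure ⟨Dw.self w, wM⟩
  have hZ : Z0 G ≤ Y := fun ζ m => by
    have : w * ζ ∈ Y := subset_closure ⟨Dw.mul_z (Dw.self w) m, mul_mem wM (C_le_M w (Z0_le_C w m))⟩
    exact (mul_mem_cancel_left wY).1 this
  have hYc : ∀ y ∈ Y, Y ≤ M y := fun y hy => (closure_le _).2 fun u hu =>
    M_symm (((closure_le _).2 fun v hv => h.ti ha hw hu.1 (Dw.self w) hv.1 (M_symm hu.2) hv.2 :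
      Y ≤ M u) hy)
  have hY2 : ∀ y ∈ Y, y * y ∈ Z0 G := fun y hy => by
    induction hy using closure_induction with
    | mem v hv => rw [Dw.sq hw.sq hv.1]; exact hw.sq
    | one => simp
    | mul b c hb hc ib ic =>
      have m : lam b c ∈ Z0 G := hYc b hb hc
      have e : b * c * (b * c) = b * lam b c * b⁻¹ * (b * b) * (c * c) := by simp only [lam]; group
      rw [e, z0_conj m]
      exact mul_mem (mul_mem m ib) ic
    | inv b hb ib => rw [← mul_inv_rev]; exact inv_mem ib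
  have hY : IsPGroup 2 Y := fun y => ⟨2, Subtype.ext (by
    have := z0_sq (hY2 y y.2)
    rw [coe_pow, coe_one, ← this]; norm_num [pow_succ, mul_assoc])⟩
  have hN : ∀ g : G, g * w * g⁻¹ ∈ M w → g ∈ normalizer (Y : Set G) := fun g hg =>
    mem_normalizer_fintype fun y hy => by
      have : Y ≤ Y.comap (MulAut.conj g).toMonoidHom := (closure_le _).2 fun v hv =>
        subset_closure ⟨Dw.conj hv.1 g, h.ti ha hw (Dw.self w) (Dw.conj (Dw.self w) g) (Dw.conj hv.1 g) hg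
          ((mem_M_conj g).2 hv.2)⟩
      exact this hy
  by_cases hall : ∀ g : G, g * w * g⁻¹ ∈ M w
  · exact hn Y (normalizer_eq_top_iff.1 (top_le_iff.1 fun g _ => hN g (hall g))) hY wY
  obtain ⟨g, hg⟩ := not_forall.1 hall
  have hw' : g * w * g⁻¹ ∈ Dw w := Dw.conj (Dw.self w) g
  obtain ⟨x, ζ, hx, x1, hζ, e, i, -⟩ := (h.odd_or ha hw.sq (Dw.sq hw.sq hw')).resolve_left hg
  obtain ⟨T, hT, -, -, cT, Tw1, Tw2, -⟩ := h.exT ha hw.sq hx x1 hζ e i hw.tw.zp (mem_zpowers w)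
    (zpowers_le.2 (Or.inr i))
  obtain ⟨O, hO, o1, o2, o3⟩ := h.trans ha hw hw' hg
  have hne : ¬ O ≤ M w := fun le => by
    obtain ⟨O', -, n, od, k⟩ := lz (K := ⊤) (Z := Z0 G) le_top (fun z m g _ => z0_comm m g) z0_two
      (mem_top w) hw.sq fun g0 _ m => by
        obtain ⟨o, ho, f⟩ := o3 _ (Dw.conj (Dw.self w) g0) m
        have : lam w g0 = (o * w * o⁻¹ * (g0 * w * g0⁻¹)⁻¹)⁻¹ * lam w o := by simp only [lam]; group
        rw [this]
        exact mul_mem (inv_mem f) (le ho)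
    obtain ⟨o, ho, z, hz, f⟩ := k g (mem_top g)
    rw [h.odd O' (normalizer_eq_top_iff.1 (top_le_iff.1 n)) od, mem_bot] at ho
    rw [ho, one_mul] at f
    exact hg (mM (mem_M.2 (f ▸ hz)))
  have hOY : O ≤ normalizer (Y : Set G) := fun o ho => hN o (o2 o ho).1
  have hTO : T ≤ normalizer (O : Set G) := fun t ht => o1 t (mM (Tw1 ht)) (mM (Tw2 ht))
  obtain ⟨y, hr, hc, d⟩ := alg hY hT hO hZ hYc hY2 wY hOY (fun t ht => hN t (mM (Tw1 ht))) hTO Tw1
    (fun y hy hy' o ho => lam_eq_one.1 (eq_one_of_tw_odd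
      (tw_of_mem hY (mul_mem ((mem_normalizer_iff.1 (hOY ho) y).1 hy) (inv_mem hy)))
      (hO.of_dvd_nat (O.orderOf_dvd_natCard (by
        rw [show lam y o = o * (y * o⁻¹ * y⁻¹) by simp only [lam]; group]
        exact mul_mem ho ((mem_normalizer_iff.1 (hTO hy') _).1 (inv_mem ho))))))) hne
  exact h.ndvd y hr hc (by rwa [cT, ← pow_succ'] at d)

end H50.RC
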