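import Cfsg.Agent.Lib.RCS.Tho
import Cfsg.Agent.Lib.RCS.F7

set_option autoImplicit false

namespace H50.RC

open Subgroup

variable {G : Type*} [Group G] [Finite G] {a k : ℕ}

open B2

namespace FuA

omit [Finite G] in
theorem mc (g s y : G) : s ∈ C y ↔ g * s * g⁻¹ ∈ C (g * y * g⁻¹) := by
  rw [mem_C, mem_C, conj_mul, conj_mul, mul_left_inj, mul_right_inj]

theorem le_of {w x : G} {S : Sylow 2 G} (c : Cf w x S) {H : Subgroup G} (h1 : Tc x S ≤ H)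
    (h2 : w ∈ H) : (S : Subgroup G) ≤ H := fun _ hs =>
  (c.cases hs).elim (fun e => h1 e.1) fun e => (mul_mem_cancel_right (inv_mem h2)).1 (h1 e.2.2)

/-- `S` centralises or inverts `v` and `y` simultaneously -/
structure Pv (S : Subgroup G) (z v y : G) : Prop where
  odd : Odd (orderOf y)
  ne : y ≠ 1
  mem : v ∈ S
  sq : v * v = z
  dich : ∀ s ∈ S, (s ∈ C v ∧ s ∈ C y) ∨ (Inv s v ∧ Inv s y)
  ex : ∃ s ∈ S, Inv s v

variable {S : Subgroup G} {z v y v' y' s : G}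

omit [Finite G] in
theorem Pv.conj (p : Pv S z v y) (hz : z ∈ Z0 G) {n : G} (hn : n ∈ normalizer (S : Set G)) :
    Pv S z (n * v * n⁻¹) (n * y * n⁻¹) := by
  have m := mem_normalizer_iff.1 hn
  refine ⟨?_, fun e => p.ne (by simpa using e), (m v).1 p.mem, by rw [conj_mul, p.sq, z0_conj hz],
    fun s hs => ?_, ?_⟩
  · rw [show orderOf (n * y * n⁻¹) = orderOf y from (MulAut.conj n).orderOf_eq y]
    exact p.odd
  · obtain ⟨s, rfl⟩ : ∃ t, s = n * t * n⁻¹ := ⟨n⁻¹ * s * n, by group⟩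
    exact (p.dich s ((m s).2 hs)).imp (fun e => ⟨(mc n s v).1 e.1, (mc n s y).1 e.2⟩)
      fun e => ⟨e.1.conj n, e.2.conj n⟩
  · obtain ⟨s, hs, e⟩ := p.ex
    exact ⟨_, (m s).1 hs, e.conj n⟩

omit [Finite G] in
theorem Pv.cy (p : Pv S z v y) (z1 : z ≠ 1) (hs : s ∈ S) (h : s ∈ C v) : s ∈ C y :=
  (p.dich s hs).elim (·.2) fun e => (not_both (p.sq ▸ z1) h e.1).elim

omit [Finite G] in
theorem Pv.iy (p : Pv S z v y) (z1 : z ≠ 1) (hs : s ∈ S) (h : Inv s v) : Inv s y :=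
  (p.dich s hs).elim (fun e => (not_both (p.sq ▸ z1) e.1 h).elim) (·.2)

theorem Pv.b (h : Hyp G 1 k) (p : Pv S z v y) (p' : Pv S z v' y') (hz : z ∈ Z0 G) (z1 : z ≠ 1)
    (hc : v' ∈ C v) : v * v' ∈ Z0 G := by
  obtain ⟨u, hu, h1, h2⟩ : ∃ u ∈ S, Inv u v ∧ Inv u v' := by
    obtain ⟨s, hs, e⟩ := p.ex
    obtain ⟨s', hs', e'⟩ := p'.ex
    rcases p'.dich s hs with f | f
    · rcases p.dich s' hs' with f' | f'
      · exact ⟨s * s', mul_mem hs hs', (e.mul_C f'.1).1, (e'.mul_C f.1).2⟩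
      · exact ⟨s', hs', f'.1, e'⟩
    · exact ⟨s, hs, e, f.1⟩
  have cm := mem_C.1 hc
  have d2 : v * v' * (v * v') = 1 := by
    rw [mul_assoc, ← mul_assoc v', cm, mul_assoc, ← mul_assoc, p.sq, p'.sq, z0_sq hz]
  exact h.b1 p.odd p.ne (p.iy z1 hu h1) d2
    (mul_mem (p.cy z1 p.mem (self_mem_C v)) (p.cy z1 p'.mem hc))
    (mem_of_inv (inv_mul cm.symm h1 h2) d2)

omit [Finite G] in
theorem inv_symm (hz : z ∈ Z0 G) (h1 : v * v = z) (h2 : v' * v' = z) (h : Inv v v') : Inv v' v := by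
  have e : v' * v * v'⁻¹ = (v * v'⁻¹ * v⁻¹) * (v * v) * (v⁻¹ * v'⁻¹ * v⁻¹⁻¹) * v⁻¹ := by
    rw [h.inv]; group
  rw [Inv, e, h.inv, h.inv_left.inv, h1, ← z0_comm hz, mul_assoc z, h2, z0_sq hz, one_mul]

theorem mem_of_sq {n : G} {H : Subgroup G} (S : Sylow 2 G) (hS : (S : Subgroup G) ≤ H)
    (hn : n ∈ normalizer ((S : Subgroup G) : Set G)) (h2 : n * n ∈ H) : n ∈ H := by
  obtain ⟨i, j, t, ⟨o, ho⟩, e⟩ := exists_parts n
  rw [e]
  refine mul_mem (hS ?_) ?_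
  · rw [← S.is_maximal' (sup_zp S.isPGroup' t (pow_mem hn i)) le_sup_left]
    exact mem_sup_right (mem_zpowers _)
  · have : n ^ j = ((n * n) ^ j) ^ (o + 1) := by
      rw [← pow_two, ← pow_mul, ← pow_mul, show 2 * (j * (o + 1)) = j * (2 * o + 1 + 1) by ring,
        pow_mul, ← ho, pow_succ, pow_orderOf_eq_one, one_mul]
    rw [this]
    exact pow_mem (pow_mem h2 j) _

end FuA

open FuA

theorem Cf.fuA1 (h : Hyp G 1 k) {w x : G} {S : Sylow 2 G} (c : Cf w x S) (hw : W w) (w2 : w * w ≠ 1)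
    (hT : Tc x S ≤ M w) {g : G} (hg : g * w * g⁻¹ ∈ Tc x S) :
    Tc x S ≤ C (g * w * g⁻¹) ∧ Inv w (g * w * g⁻¹) := by
  have hv := Dw.conj (Dw.self w) g
  have hW := hw.dw hv
  have v2 := Dw.sq hw.sq hv
  generalize g * w * g⁻¹ = v at hg hW v2
  have b2 : ∀ {u y : G}, y ∈ Tc x S → u ∈ (S : Subgroup G) → Inv u x → Inv u y → Tc x S ≤ C y :=
    fun hy hu h1 h2 => h.b2 c.odd c.ne S.isPGroup' c.le hy.1 hy.2 hu h1 h2
  rcases h.b0' hw w2 (hT hg) with e | ⟨-, e⟩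
  swap
  · have i := inv_symm hw.sq v2 rfl e
    exact ⟨b2 hg c.mem c.inv i, i⟩
  exfalso
  have cm := mem_C.1 (lam_eq_one.1 e)
  have wv : w ∈ C v := mem_C.2 cm.symm
  have dS : w * v ∈ (S : Subgroup G) := mul_mem c.mem hg.1
  have dx : Inv (w * v) x := (c.inv.mul_C hg.2).1
  have d2 : w * v * (w * v) = 1 := by
    rw [mul_assoc, ← mul_assoc v, cm, mul_assoc, ← mul_assoc, v2, z0_sq hw.sq]
  have hM : Tc x S ≤ M v := fun s hs => by
    have y1 : lam (w * v) s ∈ Tc x S := mem_inf.2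
      ⟨mul_mem (mul_mem (mul_mem hs.1 dS) (inv_mem hs.1)) (inv_mem dS),
        ((dx.mul_C hs.2).2.mul_C (inv_mem hs.2)).1.mul_inv dx.inv_left⟩
    have y2 : Inv (w * v) (lam (w * v) s) := by
      rw [Inv, lam]
      generalize w * v = d at d2
      rw [inv_eq_of_mul_eq_one_right d2, mul_assoc, mul_assoc _ d d, d2]
      simp only [mul_inv_rev, inv_eq_of_mul_eq_one_right d2, inv_inv, mul_one, mul_assoc]
    have y3 := b2 y1 dS dx y2 hg
    have y4 := (y2.mul_C (inv_mem y3)).1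
    rw [mul_inv_cancel_right] at y4
    have l0 : lam w s ∈ Z0 G := hT hs
    have e1 : s * v * s⁻¹ = (lam w s)⁻¹ * (lam (w * v) s)⁻¹ * v := by
      rw [← y4.inv_left, ← z0_conj (inv_mem l0) w⁻¹]
      simp only [lam]; group
    generalize lam (w * v) s = y at y1 y2 y3 y4 e1
    have e2 : y⁻¹ * y⁻¹ = 1 := by
      have h1 : s * v * s⁻¹ * (s * v * s⁻¹) = v * v := by rw [conj_mul, v2, z0_conj hw.sq]
      have h2 : v * y⁻¹ = y⁻¹ * v := (show Commute v y from mem_C.1 y3).inv_right.eq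
      rw [e1, z0_inv l0] at h1
      refine mul_right_cancel (b := v * v) ?_
      rw [one_mul]
      conv_rhs => rw [← h1]
      calc y⁻¹ * y⁻¹ * (v * v) = lam w s * lam w s * (y⁻¹ * (y⁻¹ * v) * v) := by
            rw [z0_sq l0]; group
        _ = lam w s * lam w s * (y⁻¹ * (v * y⁻¹) * v) := by rw [h2]
        _ = lam w s * (lam w s * (y⁻¹ * v)) * y⁻¹ * v := by group
        _ = _ := by rw [z0_comm l0 (y⁻¹ * v)]; group
    have e3 : y * y = 1 := by rw [← mul_inv_rev, inv_eq_one] at e2; exact e2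
    rw [mem_M, lam, e1, mul_inv_cancel_right]
    exact mul_mem (inv_mem l0) (inv_mem (h.b1 c.odd c.ne c.inv e3 y1.2 (mem_of_inv y4 e3)))
  have hn : ¬ (S : Subgroup G) ≤ C v := fun e => by
    have := h.card_dvd hW.re hW.nc S.isPGroup' e
    rw [h.syl, Nat.pow_dvd_pow_iff_le_right one_lt_two] at this
    omega
  obtain ⟨s, hs, hs'⟩ := SetLike.not_le_iff_exists.1 hn
  have i := ((h.b0' hW (v2 ▸ w2) (le_of c hM (C_le_M v wv) hs)).resolve_left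
    fun e => hs' (lam_eq_one.1 e)).2
  refine hn (le_of c ?_ wv)
  rcases c.cases hs with e | e
  · exact b2 hg (mul_mem hs c.mem) (c.inv.mul_C e.1.2).2 (i.mul_C wv).1
  · exact b2 hg hs e.2.1 i

theorem Cf.fuA (h : Hyp G 1 k) {w x : G} {S : Sylow 2 G} (c : Cf w x S) (hw : W w) (w2 : w * w ≠ 1)
    (hT : Tc x S ≤ M w) (hi : ∀ H : Subgroup G, H.index = 2 → w ∈ H) : Fu w x S := by
  have hz := hw.sq
  have hS : (S : Subgroup G) ≤ M w := le_of c hT (C_le_M w (self_mem_C w))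
  obtain ⟨n, hn, h1⟩ : ∃ n ∈ normalizer ((S : Subgroup G) : Set G), n * w * n⁻¹ ∈ Tc x S := by
    obtain ⟨g, hg⟩ := c.tho h hw hi
    obtain ⟨t1, t2⟩ := c.fuA1 h hw w2 hT hg
    have hS1 : (S : Subgroup G) ≤ M (g * w * g⁻¹) := le_of c (t1.trans (C_le_M _)) (by
      rw [mem_M, lam, t2, ← mul_inv_rev, Dw.sq hz (Dw.conj (Dw.self w) g)]
      exact inv_mem hz)
    obtain ⟨S', -, m, -⟩ := c.conj g⁻¹
    have m' : ∀ s, s ∈ (S' : Subgroup G) ↔ g * s * g⁻¹ ∈ (S : Subgroup G) := fun s => by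
      rw [m, show g⁻¹ * (g * s * g⁻¹) * g⁻¹⁻¹ = s by group]
    obtain ⟨e, he, m2⟩ := syl_conj S S' hS fun s hs => (mem_M_conj g).1 (hS1 ((m' s).1 hs))
    refine ⟨g * e, mem_normalizer_iff.2 fun s => ?_, ?_⟩
    · rw [m2, m', show g * e * s * (g * e)⁻¹ = g * (e * s * e⁻¹) * g⁻¹ by group]
    · rw [show g * e * w * (g * e)⁻¹ = g * (e * w * e⁻¹) * g⁻¹ by group, conj_eq w e, ← conj_mul,
        z0_conj he]
      exact mul_mem (Cf.z0_le (w := w) he).1 hg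
  obtain ⟨t1, i01⟩ := c.fuA1 h hw w2 hT h1
  have p1 : Pv S (w * w) (n * w * n⁻¹) x := ⟨c.odd, c.ne, h1.1, Dw.sq hz (Dw.conj (Dw.self w) n),
    fun s hs => (c.cases hs).imp (fun e => ⟨t1 e.1, e.1.2⟩) fun e =>
      ⟨by simpa using (i01.mul_C (t1 e.2.2)).2, e.2.1⟩, w, c.mem, i01⟩
  have p0 := p1.conj hz (inv_mem hn)
  rw [show n⁻¹ * (n * w * n⁻¹) * n⁻¹⁻¹ = w by group] at p0
  have p2 := p1.conj hz hn
  have i12 := i01.conj n
  have n1 : n * w * n⁻¹ ∉ C w := fun e => not_both (p1.sq ▸ w2) (mem_C.2 (mem_C.1 e).symm) i01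
  have i20 : Inv (n * (n * w * n⁻¹) * n⁻¹) w := ((p0.dich _ p2.mem).resolve_left fun e => by
    have h2 := p0.b h p2 hz w2 e.1
    have h3 : n ∈ M w := mem_of_sq S hS hn (by
      rw [mem_M, show lam w (n * n) = w⁻¹ * (w * (n * (n * w * n⁻¹) * n⁻¹)) * w⁻¹⁻¹ * (w * w)⁻¹ by
        simp only [lam]; group, z0_conj h2]
      exact mul_mem h2 (inv_mem hz))
    refine n1 ?_
    rw [conj_eq]
    exact mul_mem (Z0_le_C w h3) (self_mem_C w)).1
  have i10 := inv_symm hz rfl p1.sq i01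
  have i21 := inv_symm hz p1.sq p2.sq i12
  have i02 := inv_symm hz p2.sq rfl i20
  have d1 := (inv_mul_of_sq hz p1.sq).1
  have d2 : w * (n * w * n⁻¹) * (w * (n * w * n⁻¹)) ≠ 1 := by
    rw [show w * (n * w * n⁻¹) * (w * (n * w * n⁻¹)) =
      w * (n * w * n⁻¹) * w⁻¹ * (w * w) * (n * w * n⁻¹) by group, i01, ← z0_comm hz,
      inv_mul_cancel_right]
    exact w2
  have d3 := h.b2 p2.odd p2.ne S.isPGroup' (fun s hs => (p2.dich s hs).elim
    (fun e => C_le_Cs _ e.2) fun e => Or.inr e.2) (mul_mem c.mem h1.1)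
    ((p2.iy w2 c.mem i02).mul_inv (p2.iy w2 h1.1 i12)) c.mem (p2.iy w2 c.mem i02) d1
  have hA : ∀ s ∈ Ac w x S, s ∈ C (n * (n * w * n⁻¹) * n⁻¹) := fun s hs =>
    ((p2.dich s hs.1.1).resolve_right fun e => by
      have h2 := (d1.mul_C (d3 (mem_inf.2 ⟨mul_mem hs.1.1 (inv_mem c.mem),
        e.2.mul_inv (p2.iy w2 c.mem i02).inv_left⟩))).2
      rw [inv_mul_cancel_right] at h2
      exact not_both d2 (mem_C'.2 (by rw [← conj_mul, mem_C'.1 hs.2, mem_C'.1 (t1 hs.1)])) h2).1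
  have nA : n ∈ normalizer (Ac w x S : Set G) := by
    refine inv_mem_iff.1 (mem_normalizer_fintype fun s hs => ?_)
    obtain ⟨s, rfl⟩ : ∃ t, s = n * t * n⁻¹ := ⟨n⁻¹ * s * n, by group⟩
    rw [show n⁻¹ * (n * s * n⁻¹) * n⁻¹⁻¹ = s by group]
    have h2 := (mem_normalizer_iff.1 hn s).2 hs.1.1
    exact ⟨⟨h2, p1.cy w2 h2 ((mc n s _).2 (hA _ hs))⟩, (mc n s w).2 (t1 hs.1)⟩
  refine ⟨n * w * n⁻¹, h1, fun e => n1 e.2, p1.sq ▸ Cf.z0_le hz,
    ⟨n, nA, by rw [mul_inv_cancel]; exact one_mem _⟩, n * n, mul_mem nA nA, ?_⟩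
  rw [show n * n * w * (n * n)⁻¹ * (n * w * n⁻¹ * w)⁻¹ =
    n * (n * w * n⁻¹) * n⁻¹ * w⁻¹ * (n * w * n⁻¹)⁻¹ by group]
  have h2 := mul_mem (mul_mem p2.mem (inv_mem c.mem)) (inv_mem h1.1)
  exact ⟨⟨h2, p1.cy w2 h2 (mul_mem (i21.mul_inv i01.inv_left) (inv_mem (self_mem_C _)))⟩,
    (i20.mul_C (inv_mem (self_mem_C w))).1.mul_inv i10.inv_left⟩

end H50.RC
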