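import Cfsg.Agent.Lib.RCS.Cfg
import Cfsg.Agent.Lib.RCS.F7

set_option autoImplicit false

namespace H50.RC

open Subgroup

variable {G : Type*} [Group G] [Finite G] {a k : ℕ}

namespace FuB

/-- the elements of `S` that centralise `j` -/
theorem mem_T {w x j : G} {S : Sylow 2 G} (c : Cf w x S) (hw : Inv w j) (j2 : j * j ≠ 1)
    (hT : Tc x S ≤ C j) {t : G} (ht : t ∈ (S : Subgroup G)) (htj : t ∈ C j) : t ∈ Tc x S := by
  rcases c.cases ht with h | ⟨-, -, h⟩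
  · exact h.1
  · exfalso
    have h1 : w ∈ C j := by
      have := mul_mem (inv_mem (hT h)) htj
      rwa [show (t * w⁻¹)⁻¹ * t = w by group] at this
    have h2 : j = j⁻¹ := (mem_C'.1 h1).symm.trans hw
    exact j2 (mul_eq_one_iff_eq_inv.2 h2)

theorem le_M {w x j : G} {S : Sylow 2 G} (c : Cf w x S) (hw : Inv w j) (j2 : j * j ∈ Z0 G)
    (hT : Tc x S ≤ C j) : (S : Subgroup G) ≤ M j := fun t ht => by
  rcases c.cases ht with h | ⟨-, -, h⟩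
  · exact C_le_M j (hT h.1)
  · have h1 : w ∈ M j := by
      rw [mem_M, lam, hw, ← mul_inv_rev]
      exact inv_mem j2
    have := mul_mem (C_le_M j (hT h)) h1
    rwa [inv_mul_cancel_right] at this

omit [Finite G] in
theorem conj_C {g t y : G} : g * t * g⁻¹ ∈ C (g * y * g⁻¹) ↔ t ∈ C y := by
  rw [mem_C, mem_C, conj_mul, conj_mul, mul_left_inj, mul_right_inj]

theorem case1 (h : Hyp G 1 k) {w x j g : G} {S : Sylow 2 G} (c : Cf w x S) (hw : W w)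
    (hmax : ∀ x' S', Cf w x' S' → Nat.card (Ac w x' S') ≤ Nat.card (Ac w x S))
    (hwj : Inv w j) (hj : W j) (j2 : j * j ≠ 1) (hT : Tc x S ≤ C j) {P : Subgroup G}
    (hP : IsPGroup 2 P) (hR : (S : Subgroup G) ⊓ M w ≤ P) (hgP : g ∈ P)
    (hgR : g ∉ (S : Subgroup G) ⊓ M w) (hgw : g ∈ C w) (hg : g ∈ M j) : False := by
  have hS := le_M c hwj hj.sq hT
  obtain ⟨Sj, hle, hSj⟩ := h.f7 hj (P := P ⊓ M j) hP.to_inf_left inf_le_right
  have hR' : (S : Subgroup G) ⊓ M w ≤ Sj := (le_inf hR (inf_le_left.trans hS)).trans hle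
  have hwR : w ∈ (S : Subgroup G) ⊓ M w := ⟨c.mem, C_le_M w (self_mem_C w)⟩
  obtain ⟨κ, hκ, hc⟩ := syl_conj S Sj hS hSj
  have eC : C (κ * j * κ⁻¹) = C j := (M_eq (w := j) (v := κ * j * κ⁻¹) hκ).2
  have key : ∀ t ∈ (Sj : Subgroup G), (t ∈ C (κ * x * κ⁻¹) ↔ t ∈ C j) ∧ t ∈ Cs (κ * x * κ⁻¹) :=
    fun t ht => by
      obtain ⟨t, rfl⟩ : ∃ t', t = κ * t' * κ⁻¹ := ⟨κ⁻¹ * t * κ, by group⟩
      have ht' := (hc t).2 ht
      refine ⟨?_, ?_⟩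
      · rw [← eC, conj_C, conj_C]
        exact ⟨fun e => hT ⟨ht', e⟩, fun e => (mem_T c hwj j2 hT ht' e).2⟩
      · rcases c.le ht' with e | e
        · exact C_le_Cs _ (conj_C.2 (mem_C'.2 e))
        · exact Or.inr (e.conj κ)
  have c' : Cf w (κ * x * κ⁻¹) Sj := by
    refine ⟨?_, fun e => c.ne (by simpa using e), ?_, fun t ht => (key t ht).2, hR' hwR⟩
    · have := (MulAut.conj κ).orderOf_eq x
      rw [MulAut.conj_apply] at this
      rw [this]; exact c.odd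
    · refine (key w (hR' hwR)).2.resolve_left fun e => j2 ?_
      have h1 := (key w (hR' hwR)).1.1 (mem_C'.2 e)
      exact mul_eq_one_iff_eq_inv.2 ((mem_C'.1 h1).symm.trans hwj)
  have hA : Ac w x S ≤ Ac w (κ * x * κ⁻¹) Sj := fun t ht => by
    have h1 : t ∈ (Sj : Subgroup G) := hR' ⟨ht.1.1, C_le_M w ht.2⟩
    exact ⟨⟨h1, (key t h1).1.2 (hT ht.1)⟩, ht.2⟩
  have e := eq_of_le_of_card_ge hA (hmax _ _ c')
  have hgS : g ∈ (Sj : Subgroup G) := hle ⟨hgP, hg⟩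
  have fin : ∀ t ∈ (Sj : Subgroup G), t ∈ C j → t ∈ C w → t ∈ (S : Subgroup G) ⊓ M w :=
    fun t h1 h2 h3 => by
      have h4 : t ∈ Ac w (κ * x * κ⁻¹) Sj := ⟨⟨h1, (key t h1).1.2 h2⟩, h3⟩
      rw [← e] at h4
      exact ⟨h4.1.1, C_le_M w h3⟩
  rcases h.b0' hj j2 hg with e1 | ⟨-, e1⟩
  · exact hgR (fin g hgS (lam_eq_one.1 e1) hgw)
  · have := fin (g * w) (mul_mem hgS (hR' hwR)) (e1.mul_inv hwj) (mul_mem hgw (self_mem_C w))
    exact hgR ((mul_mem_cancel_right hwR).1 this)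

end FuB

theorem Cf.fuB (h : Hyp G 1 k) {w x : G} {S : Sylow 2 G} (c : Cf w x S) (hw : W w) (w2 : w * w ≠ 1)
    (hmax : ∀ x' S', Cf w x' S' → Nat.card (Ac w x' S') ≤ Nat.card (Ac w x S))
    {s : G} (hs : s ∈ Tc x S) (hj : lam w s * lam w s = w * w) : Fu w x S := by
  obtain ⟨jT, wj, hT⟩ := c.phi h hw.sq hs
  have es := conj_eq w s
  have sM : lam w s ∉ Z0 G := fun e => w2 (hj ▸ z0_sq e)
  have sM' : s ∉ M w := sM
  generalize lam w s = j at jT wj hT es sM hj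
  have j2 : j * j ≠ 1 := hj ▸ w2
  have Wj : W j := ⟨⟨w, wj⟩, fun e => sM (wj.z0 e), hj ▸ hw.sq⟩
  have lamI : ∀ {y : G}, Inv w y → lam w y = y * y := fun {y} e => by
    calc lam w y = y * (w * y⁻¹ * w⁻¹) := by simp only [lam]; group
      _ = y * y := by rw [e.inv]
  have lj : lam w j = w * w := (lamI wj).trans hj
  have jM : j ∈ M w := by rw [mem_M, lj]; exact hw.sq
  have ha : ∀ y ∈ Tc x S, lam w y = w * w → y * y = w * w → y * j⁻¹ ∈ Z0 G := fun y hy e1 e2 => by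
    have hy' : y * j⁻¹ ∈ Tc x S := mul_mem hy (inv_mem jT)
    have e3 := c.phi_mul h hw.sq hy' jT
    rw [inv_mul_cancel_right, e1, lj] at e3
    have e4 : y * j⁻¹ ∈ C w := lam_eq_one.1 (by simpa using e3.symm)
    refine h.b1 c.odd c.ne c.inv ?_ hy'.2 (mem_C.2 (mem_C.1 e4).symm)
    have e5 : j⁻¹ * y = y * j⁻¹ := by
      rw [inv_mul_eq_iff_eq_mul, ← mul_assoc, ← mem_C.1 (hT hy), mul_inv_cancel_right]
    calc y * j⁻¹ * (y * j⁻¹) = y * (j⁻¹ * y) * j⁻¹ := by group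
      _ = (y * y) * (j * j)⁻¹ := by rw [e5]; group
      _ = 1 := by rw [e2, hj, mul_inv_cancel]
  have h2 : IsPGroup 2 ((S : Subgroup G) ⊓ M w : Subgroup G) := S.isPGroup'.to_inf_left
  obtain ⟨Sw, hle, hSw⟩ := h.f7 hw h2 inf_le_right
  have hlt : (S : Subgroup G) ⊓ M w < Sw := lt_of_le_of_ne hle fun e => sM' (hSw (by
    rw [eq_of_le_of_card_ge (e ▸ inf_le_left : (Sw : Subgroup G) ≤ S) (by rw [h.syl S, h.syl Sw])]
    exact hs.1))
  have jR : j ∈ (S : Subgroup G) ⊓ M w := ⟨jT.1, jM⟩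
  obtain ⟨g, gS, gR, gN, gw⟩ : ∃ g ∈ (Sw : Subgroup G), g ∉ (S : Subgroup G) ⊓ M w ∧
      g ∈ normalizer (((S : Subgroup G) ⊓ M w : Subgroup G) : Set G) ∧ g ∈ C w := by
    obtain ⟨g, gS, gR, -, gN⟩ := exists_norm Sw.isPGroup' hlt
    rcases h.b0' hw w2 (hSw gS) with e | ⟨e, -⟩
    · exact ⟨g, gS, gR, gN, lam_eq_one.1 e⟩
    · refine ⟨g * j, mul_mem gS (hle jR), fun e' => gR ((mul_mem_cancel_right jR).1 e'),
        mul_mem gN (le_normalizer jR), lam_eq_one.1 ?_⟩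
      rw [lam_mul jM, e, lj, z0_sq hw.sq]
  by_cases gM : g ∈ M j
  · exact (FuB.case1 h c hw hmax wj Wj j2 hT Sw.isPGroup' hle gS gR gw gM).elim
  have j'R : g * j * g⁻¹ ∈ (S : Subgroup G) ⊓ M w := (mem_normalizer_iff.1 gN j).1 jR
  have wj' : Inv w (g * j * g⁻¹) := by
    have := wj.conj g
    rwa [mem_C'.1 gw] at this
  have sq' : g * j * g⁻¹ * (g * j * g⁻¹) = w * w := by rw [conj_mul, hj, z0_conj hw.sq]
  have yT : g * j * g⁻¹ * w⁻¹ ∈ Tc x S := by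
    rcases c.cases j'R.1 with e | e
    · exact absurd (ha _ e.1 ((lamI wj').trans sq') sq') gM
    · exact e.2.2
  have yM : g * j * g⁻¹ * w⁻¹ ∈ M w := mul_mem j'R.2 (inv_mem (C_le_M w (self_mem_C w)))
  have wy : Inv w (g * j * g⁻¹ * w⁻¹) := by
    unfold Inv
    generalize g * j * g⁻¹ = v at sq' wj'
    have e1 : w * v * w⁻¹ = v⁻¹ := wj'
    have e2 : v⁻¹ = v * (w * w)⁻¹ := by rw [← sq']; group
    calc w * (v * w⁻¹) * w⁻¹ = (w * v * w⁻¹) * w⁻¹ := by group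
      _ = v⁻¹ * w⁻¹ := by rw [e1]
      _ = w * (w⁻¹ * v⁻¹ * w) * (w * w)⁻¹ := by group
      _ = w * v * (w * w)⁻¹ := by rw [← e1]; group
      _ = w * (v * (w * w)⁻¹) := by group
      _ = (v * w⁻¹)⁻¹ := by rw [← e2]; group
  have hζ : g * j * g⁻¹ * w⁻¹ * j⁻¹ ∈ Z0 G := by
    rcases h.b0' hw w2 yM with e | ⟨e, -⟩
    · exfalso
      have e1 : g * j * g⁻¹ ∈ C w :=
        (mul_mem_cancel_right (inv_mem (self_mem_C w))).1 (lam_eq_one.1 e)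
      rw [← lam_eq_one, lamI wj', sq'] at e1
      exact w2 e1
    · exact ha _ yT e ((lamI wy).symm.trans e)
  have hN := c.norm h hw.sq
  have gA : g ∈ normalizer (Ac w x S : Set G) := mem_normalizer_fintype fun t ht => by
    have t1 : g * t * g⁻¹ ∈ (S : Subgroup G) ⊓ M w :=
      (mem_normalizer_iff.1 gN t).1 ⟨ht.1.1, C_le_M w ht.2⟩
    have t2 : g * t * g⁻¹ ∈ C w := mul_mem (mul_mem gw ht.2) (inv_mem gw)
    have t3 : g * t * g⁻¹ ∈ C (g * j * g⁻¹) := FuB.conj_C.2 (hT ht.1)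
    have t4 : j ∈ C (g * t * g⁻¹) := by
      have := mul_mem (inv_mem (Z0_le_C (g * t * g⁻¹) hζ))
        (mul_mem (mem_C.2 (mem_C.1 t3).symm) (inv_mem (mem_C.2 (mem_C.1 t2).symm)))
      rwa [show (g * j * g⁻¹ * w⁻¹ * j⁻¹)⁻¹ * (g * j * g⁻¹ * w⁻¹) = j by group] at this
    exact ⟨FuB.mem_T c wj j2 hT t1.1 (mem_C.2 (mem_C.1 t4).symm), t2⟩
  refine ⟨j, jT, fun e => w2 (lj ▸ lam_eq_one.2 e.2), Cf.z0_le (hj ▸ hw.sq),
    ⟨g⁻¹ * s, mul_mem (inv_mem gA) (hN hs.1), Cf.z0_le ?_⟩,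
    s, hN hs.1, by rw [es, mul_inv_cancel]; exact one_mem _⟩
  have e1 : g⁻¹ * s * w * (g⁻¹ * s)⁻¹ * j⁻¹ = g⁻¹ * (s * w * s⁻¹) * g * j⁻¹ := by group
  have e3 : g⁻¹ * (j * w) * g * j⁻¹ = g⁻¹ * (g * j * g⁻¹ * w⁻¹ * j⁻¹)⁻¹ * g⁻¹⁻¹ := by group
  rw [e1, es, e3, z0_conj (inv_mem hζ)]
  exact inv_mem hζ

end H50.RC
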