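import Cfsg.Agent.Lib.RCS.Bas
import Cfsg.Agent.Lib.RCS.LZ
import Cfsg.Agent.S0199

set_option autoImplicit false

namespace H50.RC

open Subgroup

namespace Red

section Ac

variable {K L : Type*} [Group K] [Group L]

/-- conjugate and invert if `e = -1` -/
def ac (g : K) (e : ℤˣ) (t : K) : K := (g * t * g⁻¹) ^ (e : ℤ)

theorem ac_one (t : K) : ac 1 1 t = t := by simp [ac]

theorem ac_mul (g h : K) (e f : ℤˣ) (t : K) : ac (g * h) (e * f) t = ac g e (ac h f t) := by
  simp only [ac]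
  rw [← conj_zpow, ← zpow_mul, Units.val_mul, mul_comm (e : ℤ)]
  congr 1
  group

theorem map_ac (π : K →* L) (g : K) (e : ℤˣ) (t : K) : π (ac g e t) = ac (π g) e (π t) := by
  simp only [ac, map_zpow, map_mul, map_inv]

theorem ac_neg {g t : K} : ac g (-1) t = t ↔ Inv g t := by
  simp only [ac, Inv, Units.val_neg, Units.val_one, zpow_neg, zpow_one]
  exact inv_eq_iff_eq_inv

theorem ac_pos {g t : K} : ac g 1 t = t ↔ g ∈ C t := by
  simp only [ac, Units.val_one, zpow_one, mem_C']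

/-- the stabiliser of `t` -/
def PP (π : K →* L) (t : L) : Subgroup (K × ℤˣ) where
  carrier := {p | ac (π p.1) p.2 t = t}
  one_mem' := by
    change ac (π 1) 1 t = t
    rw [map_one, ac_one]
  mul_mem' := by
    intro p q hp hq
    change ac (π (p.1 * q.1)) (p.2 * q.2) t = t
    rw [map_mul, ac_mul, show ac (π q.1) q.2 t = t from hq]
    exact hp
  inv_mem' := by
    intro p hp
    change ac (π p.1⁻¹) p.2⁻¹ t = t
    conv_lhs => rw [← show ac (π p.1) p.2 t = t from hp]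
    rw [← ac_mul, ← map_mul, inv_mul_cancel, inv_mul_cancel, map_one, ac_one]

theorem mem_PP {π : K →* L} {t : L} {p : K × ℤˣ} : p ∈ PP π t ↔ ac (π p.1) p.2 t = t := Iff.rfl

theorem comap_PP (π : K →* L) (t : L) : (PP π t).comap (MonoidHom.inl K ℤˣ) = (C t).comap π := by
  ext g
  exact ac_pos

theorem rel_two {P : Subgroup (K × ℤˣ)} {u : K} (hu : (u, -1) ∈ P) :
    (MonoidHom.snd K ℤˣ).ker.relIndex P = 2 := by
  have h1 : (MonoidHom.snd K ℤˣ).ker.index = 2 := by
    rw [index_ker, MonoidHom.range_eq_top.2 Prod.snd_surjective, card_top, Nat.card_eq_fintype_card,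
      Fintype.card_units_int]
  have h2 := relIndex_dvd_index_of_normal (MonoidHom.snd K ℤˣ).ker P
  rw [h1] at h2
  refine ((Nat.dvd_prime Nat.prime_two).1 h2).resolve_left fun e => ?_
  have h3 : ((-1 : ℤˣ)) = 1 := relIndex_eq_one.1 e hu
  exact absurd h3 (by decide)

theorem card_two {P : Subgroup (K × ℤˣ)} {u : K} (hu : (u, -1) ∈ P) :
    Nat.card P = Nat.card (P.comap (MonoidHom.inl K ℤˣ)) * 2 := by
  rw [← rel_two hu, relIndex, ← ((MonoidHom.snd K ℤˣ).ker.subgroupOf P).card_mul_index,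
    ← card_map_of_injective (K := P.comap (MonoidHom.inl K ℤˣ)) (f := MonoidHom.inl K ℤˣ)
      (fun a b e => congrArg Prod.fst e), map_comap_eq, ← inf_subgroupOf_right,
    Nat.card_congr (subgroupOfEquivOfLe inf_le_right).toEquiv,
    show (MonoidHom.inl K ℤˣ).range = (MonoidHom.snd K ℤˣ).ker from
      Subgroup.ext fun p => ⟨by rintro ⟨g, rfl⟩; rfl, fun h => ⟨p.1, Prod.ext rfl h.symm⟩⟩]

end Ac

theorem odd_orbit {P X : Type*} [Group P] [Finite P] [MulAction P X] [Finite X]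
    (h : ¬ 2 ∣ Nat.card X) : ∃ y : X, ¬ 2 ∣ (MulAction.stabilizer P y).index := by
  obtain ⟨S⟩ : Nonempty (Sylow 2 P) := inferInstance
  obtain ⟨y, hy⟩ := S.isPGroup'.nonempty_fixed_point_of_prime_not_dvd_card X h
  exact ⟨y, fun e => S.not_dvd_index (e.trans (index_dvd_of_le fun s hs => hy ⟨s, hs⟩))⟩

variable {G : Type*} [Group G]

theorem card_fib (N : Subgroup G) (x : G) :
    Nat.card {y : G // (y : G ⧸ N) = x} = Nat.card N :=
  Nat.card_congr
    { toFun := fun y => ⟨x⁻¹ * y.1, QuotientGroup.eq.1 y.2.symm⟩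
      invFun := fun n => ⟨x * n.1, QuotientGroup.mk_mul_of_mem x n.2⟩
      left_inv := fun y => Subtype.ext (mul_inv_cancel_left _ _)
      right_inv := fun n => Subtype.ext (inv_mul_cancel_left _ _) }

/-- the action on a coset -/
@[reducible] def act (N : Subgroup G) [N.Normal] (t : G ⧸ N) :
    MulAction (PP (QuotientGroup.mk' N) t) {y : G // (y : G ⧸ N) = t} where
  smul p y := ⟨ac p.1.1 p.1.2 y.1, by
    change QuotientGroup.mk' N _ = t
    rw [map_ac, show QuotientGroup.mk' N y.1 = t from y.2]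
    exact p.2⟩
  one_smul y := Subtype.ext (ac_one y.1)
  mul_smul p q y := Subtype.ext (ac_mul _ _ _ _ y.1)

theorem lift [Finite G] (N : Subgroup G) [N.Normal] (hN : Odd (Nat.card N)) {t : G ⧸ N}
    (hr : Re t) : ∃ y : G, (y : G ⧸ N) = t ∧ Re y ∧ ∃ r, ¬ 2 ∣ r ∧ (C y).index = r * (C t).index := by
  letI := act N t
  obtain ⟨u, hu⟩ := hr
  obtain ⟨u, rfl⟩ := QuotientGroup.mk'_surjective N u
  have huP : (u, -1) ∈ PP (QuotientGroup.mk' N) t := ac_neg.2 hu
  obtain ⟨⟨y, hy⟩, ho⟩ := odd_orbit (P := PP (QuotientGroup.mk' N) t)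
    (X := {y : G // (y : G ⧸ N) = t}) (by
      obtain ⟨x, rfl⟩ := QuotientGroup.mk_surjective t
      rw [card_fib]
      exact hN.not_two_dvd_nat)
  have e : MulAction.stabilizer (PP (QuotientGroup.mk' N) t) (⟨y, hy⟩ : {y : G // (y : G ⧸ N) = t}) =
      (PP (MonoidHom.id G) y).subgroupOf (PP (QuotientGroup.mk' N) t) := by
    ext p
    exact Subtype.ext_iff
  rw [e] at ho
  have hle : PP (MonoidHom.id G) y ≤ PP (QuotientGroup.mk' N) t := fun p hp => by
    rw [mem_PP, ← show QuotientGroup.mk' N y = t from hy, ← map_ac]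
    exact congrArg _ hp
  obtain ⟨v, hv⟩ : ∃ v, (v, -1) ∈ PP (MonoidHom.id G) y := by
    by_contra hc
    refine ho ?_
    rw [← rel_two huP]
    refine relIndex_dvd_of_le_left _ fun p hp => ?_
    rcases Int.units_eq_one_or p.2 with h | h
    · exact h
    · exact absurd ⟨p.1, by rw [← h]; exact hp⟩ hc
  refine ⟨y, hy, ⟨v, ac_neg.1 hv⟩, _, ho, ?_⟩
  have e1 := ((PP (MonoidHom.id G) y).subgroupOf (PP (QuotientGroup.mk' N) t)).card_mul_index
  rw [Nat.card_congr (subgroupOfEquivOfLe hle).toEquiv, card_two hv, card_two huP, comap_PP,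
    comap_PP, comap_id] at e1
  have e2 := (C y).card_mul_index
  have e3 := ((C t).comap (QuotientGroup.mk' N)).card_mul_index
  rw [index_comap_of_surjective _ (QuotientGroup.mk'_surjective N)] at e3
  have e4 : Nat.card ((C t).comap (QuotientGroup.mk' N)) = Nat.card (C y) *
      ((PP (MonoidHom.id G) y).subgroupOf (PP (QuotientGroup.mk' N) t)).index := by
    rw [mul_right_comm] at e1
    exact (Nat.eq_of_mul_eq_mul_right (by norm_num) e1).symm
  rw [e4, ← e2, mul_assoc] at e3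
  exact (Nat.eq_of_mul_eq_mul_left Nat.card_pos e3).symm

theorem lift_inv [Finite G] {Q : Subgroup G} [Q.Normal] {p : ℕ} [Fact p.Prime]
    (hp : ¬ p ∣ Nat.card Q) {x u : G} (hx : x ^ p = 1) (hu : Inv (u : G ⧸ Q) x) : Re x := by
  classical
  have h1 : (x : G ⧸ Q) * u * x = u := by
    have : (u : G ⧸ Q) * x = (x : G ⧸ Q)⁻¹ * u := mul_inv_eq_iff_eq_mul.1 hu
    rw [mul_assoc, this, mul_inv_cancel_left]
  have h2 : (x : G ⧸ Q)⁻¹ * u * (x : G ⧸ Q)⁻¹ = u := by
    conv_lhs => rw [← h1]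
    group
  let σ : Equiv.Perm {y : G // (y : G ⧸ Q) = u} :=
    { toFun := fun y => ⟨x * y.1 * x, by
        rw [QuotientGroup.mk_mul, QuotientGroup.mk_mul, y.2, h1]⟩
      invFun := fun y => ⟨x⁻¹ * y.1 * x⁻¹, by
        rw [QuotientGroup.mk_mul, QuotientGroup.mk_mul, y.2, QuotientGroup.mk_inv, h2]⟩
      left_inv := fun y => Subtype.ext (by change x⁻¹ * (x * y.1 * x) * x⁻¹ = y.1; group)
      right_inv := fun y => Subtype.ext (by change x * (x⁻¹ * y.1 * x⁻¹) * x = y.1; group) }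
  have hσ : ∀ (n : ℕ) (y : {y : G // (y : G ⧸ Q) = u}), ((σ ^ n) y).1 = x ^ n * y.1 * x ^ n := by
    intro n
    induction n with
    | zero => simp
    | succ n ih =>
      intro y
      rw [pow_succ σ, Equiv.Perm.mul_apply, ih]
      change x ^ n * (x * y.1 * x) * x ^ n = _
      group
  haveI := Fintype.ofFinite {y : G // (y : G ⧸ Q) = u}
  obtain ⟨y, hy⟩ := Equiv.Perm.exists_fixed_point_of_prime (p := p) (n := 1) (σ := σ)
    (by rwa [← Nat.card_eq_fintype_card, card_fib])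
    (Equiv.ext fun y => Subtype.ext (by rw [hσ, pow_one, hx, one_mul, mul_one]; rfl))
  have e : x * y.1 * x = y.1 := congrArg Subtype.val hy
  refine ⟨y.1, ?_⟩
  unfold Inv
  conv_lhs => rw [show y.1 * x * y.1⁻¹ = x⁻¹ * (x * y.1 * x) * y.1⁻¹ by group, e]
  group

end Red

variable {G : Type*} [Group G] [Finite G] {a k : ℕ}

theorem Orig.quot (h : Orig G a) (N : Subgroup G) [N.Normal] (hN : Odd (Nat.card N)) : Orig (G ⧸ N) a := by
  intro t ht hc
  obtain ⟨y, rfl, ⟨v, hv⟩, r, hr, e⟩ := Red.lift N hN (t := t) (isConj_iff.1 ht)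
  have := h y (isConj_iff.2 ⟨v, hv⟩) fun hy => hc (mem_center_iff.2 fun g => by
    obtain ⟨g, rfl⟩ := QuotientGroup.mk_surjective g
    rw [← QuotientGroup.mk_mul, mem_center_iff.1 hy g, QuotientGroup.mk_mul])
  rw [e, Nat.factorization_mul (fun e0 : r = 0 => hr (by rw [e0]; exact dvd_zero 2)) index_ne_zero_of_finite,
    Finsupp.add_apply, Nat.factorization_eq_zero_of_not_dvd hr, zero_add] at this
  exact this

theorem Orig.hyp (h : Orig G a) (hO : ∀ N : Subgroup G, N.Normal → Odd (Nat.card N) → N = ⊥)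
    {x : G} (hr : Re x) (hc : x ∉ center G) : ∃ k, Hyp G a k := by
  have key : ∀ y : G, Re y → y ∉ center G →
      (Nat.card G).factorization 2 = a + (Nat.card (C y)).factorization 2 := fun y hy hyc => by
    rw [← (C y).index_mul_card, Nat.factorization_mul index_ne_zero_of_finite Nat.card_pos.ne',
      Finsupp.add_apply, h y (isConj_iff.2 hy) hyc]
  have eq : ∀ y : G, Re y → y ∉ center G →
      (Nat.card (C y)).factorization 2 = (Nat.card (C x)).factorization 2 := fun y hy hyc => by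
    have e1 := key y hy hyc
    have e2 := key x hr hc
    omega
  refine ⟨(Nat.card (C x)).factorization 2, hO, fun S => by
    rw [S.card_eq_multiplicity, key x hr hc], fun y hy hyc => ?_, fun y hy hyc => ?_⟩
  · rw [Nat.prime_two.pow_dvd_iff_le_factorization Nat.card_pos.ne', eq y hy hyc]
  · rw [Nat.prime_two.pow_dvd_iff_le_factorization Nat.card_pos.ne', eq y hy hyc]
    omega

theorem closed (hno : ∀ x : G, Odd (orderOf x) → Re x → x = 1) :
    ∃ Q : Subgroup G, Q.Normal ∧ IsPGroup 2 Q ∧ Odd Q.index := by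
  obtain ⟨Q, ⟨hn, hQ⟩, hmax⟩ := Set.exists_max_image {Q : Subgroup G | Q.Normal ∧ IsPGroup 2 Q}
    (fun Q => Nat.card Q) (Set.toFinite _) ⟨⊥, inferInstance, IsPGroup.of_bot⟩
  refine ⟨Q, hn, hQ, Nat.not_even_iff_odd.1 fun he => ?_⟩
  obtain ⟨u, hu⟩ := exists_prime_orderOf_dvd_card' (G := G ⧸ Q) 2 he.two_dvd
  have u2 : u * u = 1 := by rw [← pow_two, ← hu, pow_orderOf_eq_one]
  obtain ⟨x, -, xo, x1, hx⟩ := bs (K := ⊤) (u := u) (mem_top u) ⟨1, by rw [pow_one, pow_two, u2]⟩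
    (fun g _ => by rw [u2, one_mul, mul_one]) fun R _ hR h2 huR => by
      haveI : R.Normal := normalizer_eq_top_iff.1 (top_le_iff.1 hR)
      have hle : Q ≤ R.comap (QuotientGroup.mk' Q) := QuotientGroup.le_comap_mk' Q R
      have e := eq_of_le_of_card_ge hle (hmax _ ⟨inferInstance,
        h2.comap_of_ker_isPGroup _ (by rwa [QuotientGroup.ker_mk'])⟩)
      obtain ⟨v, rfl⟩ := QuotientGroup.mk_surjective u
      have hv : v ∈ Q := by rw [e]; exact huR
      rw [(QuotientGroup.eq_one_iff v).2 hv, orderOf_one] at hu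
      omega
  obtain ⟨p, hp, hd⟩ := Nat.exists_prime_and_dvd (n := orderOf x) fun e => x1 (orderOf_eq_one_iff.1 e)
  haveI := Fact.mk hp
  have po : Odd p := xo.of_dvd_nat hd
  have op : orderOf (x ^ (orderOf x / p)) = p := orderOf_pow_orderOf_div (orderOf_pos x).ne' hd
  have hx' := hx.pow (orderOf x / p)
  generalize x ^ (orderOf x / p) = y at op hx'
  obtain ⟨y, rfl⟩ := QuotientGroup.mk_surjective y
  obtain ⟨u, rfl⟩ := QuotientGroup.mk_surjective u
  have hy : y ^ p ∈ Q := by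
    rw [← QuotientGroup.eq_one_iff, QuotientGroup.mk_pow, ← op, pow_orderOf_eq_one]
  obtain ⟨n, hn'⟩ := tw_of_mem hQ hy
  obtain ⟨m, hm⟩ := IsPGroup.iff_card.1 hQ
  have p2 : ∀ j : ℕ, ¬ p ∣ 2 ^ j := fun j e =>
    po.not_two_dvd_nat ((Nat.prime_dvd_prime_iff_eq hp Nat.prime_two).1 (hp.dvd_of_dvd_pow e) ▸ dvd_rfl)
  have e1 : (y ^ 2 ^ n) ^ p = 1 := by rw [← pow_mul, mul_comm, pow_mul, hn']
  have e2 := hno (y ^ 2 ^ n) (po.of_dvd_nat (orderOf_dvd_of_pow_eq_one e1))
    (Red.lift_inv (Q := Q) (u := u) (hm ▸ p2 m) e1 (by rw [QuotientGroup.mk_pow]; exact hx'.pow _))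
  refine p2 n ?_
  rw [← op, orderOf_dvd_iff_pow_eq_one, ← QuotientGroup.mk_pow, e2, QuotientGroup.mk_one]

end H50.RC
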