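import Cfsg.Agent.Lib.RCS.A2

set_option autoImplicit false
set_option linter.unusedVariables false

namespace H50.RC

open Subgroup

variable {G : Type*} [Group G] [Finite G] {a k : ℕ}

namespace TI1

open Pointwise

omit [Finite G] in
theorem par {Ω : Type*} [MulAction G Ω] [Finite Ω] {P : Subgroup G} (hP : IsPGroup 2 P) (X : Set Ω)
    (hX : ∀ p ∈ P, ∀ x ∈ X, p • x ∈ X) :
    X.ncard % 2 = {x | x ∈ X ∧ ∀ p ∈ P, p • x = x}.ncard % 2 := by
  have : Fact (Nat.Prime 2) := ⟨Nat.prime_two⟩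
  let A : SubMulAction P Ω := ⟨X, fun c _ hx => hX c c.2 _ hx⟩
  have h := hP.card_modEq_card_fixedPoints A
  have e1 : Nat.card A = X.ncard := Nat.card_coe_set_eq X
  have e2 : Nat.card (MulAction.fixedPoints P A) = {x | x ∈ X ∧ ∀ p ∈ P, p • x = x}.ncard := by
    rw [← Nat.card_coe_set_eq]
    exact Nat.card_congr
      ⟨fun y => ⟨y.1.1, y.1.2, fun p hp => congrArg Subtype.val (y.2 ⟨p, hp⟩)⟩,
        fun y => ⟨⟨y.1, y.2.1⟩, fun p => Subtype.ext (y.2.2 p p.2)⟩, fun _ => rfl, fun _ => rfl⟩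
  rwa [e1, e2] at h

omit [Finite G] in
theorem lam_z {u u' ζ ζ' : G} (h : ζ ∈ Z0 G) (h' : ζ' ∈ Z0 G) :
    lam (u * ζ) (u' * ζ') = lam u u' := by
  rw [lam_mul_z h, lam_symm, lam_mul_z h', ← lam_symm]

/-- the commutator of two conjugates of `w` -/
noncomputable def L (w : G) (x y : G ⧸ M w) : G :=
  lam (x.out * w * x.out⁻¹) (y.out * w * y.out⁻¹)

omit [Finite G] in
theorem L_mk (w g g' : G) :
    L w (g : G ⧸ M w) (g' : G ⧸ M w) = lam (g * w * g⁻¹) (g' * w * g'⁻¹) := by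
  have k : ∀ g : G, ∃ ζ ∈ Z0 G, (g : G ⧸ M w).out * w * (g : G ⧸ M w).out⁻¹ = g * w * g⁻¹ * ζ :=
    fun g => by
      obtain ⟨m, hm⟩ := QuotientGroup.mk_out_eq_mul (M w) g
      refine ⟨lam w m, m.2, ?_⟩
      have c := z0_conj (z := lam w m) m.2 (g * w * g⁻¹)
      have c' := z0_conj (z := lam w m) m.2 g
      rw [hm, mul_inv_eq_iff_eq_mul.1 c, ← c']
      simp only [lam]; group
  obtain ⟨ζ, h, e⟩ := k g
  obtain ⟨ζ', h', e'⟩ := k g'
  rw [L, e, e', lam_z h h']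

omit [Finite G] in
theorem L_smul (w g : G) (x y : G ⧸ M w) : L w (g • x) (g • y) = g * L w x y * g⁻¹ := by
  induction x using QuotientGroup.induction_on
  induction y using QuotientGroup.induction_on
  rw [MulAction.Quotient.smul_mk, MulAction.Quotient.smul_mk, L_mk, L_mk]
  simp only [lam, smul_eq_mul]; group

omit [Finite G] in
theorem fix_iff (w g p : G) : p • (g : G ⧸ M w) = g ↔ p ∈ M (g * w * g⁻¹) := by
  rw [MulAction.Quotient.smul_mk, eq_comm, QuotientGroup.eq, ← mem_M_conj g, smul_eq_mul,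
    show g * (g⁻¹ * (p * g)) * g⁻¹ = p by group]

omit [Finite G] in
theorem mk_eq (w g g' : G) :
    (g : G ⧸ M w) = g' ↔ g' * w * g'⁻¹ * (g * w * g⁻¹)⁻¹ ∈ Z0 G := by
  rw [QuotientGroup.eq, mem_M, show g' * w * g'⁻¹ * (g * w * g⁻¹)⁻¹ = g * lam w (g⁻¹ * g') * g⁻¹ by
    simp only [lam]; group]
  exact ⟨fun h => z0_normal.conj_mem _ h g, fun h => by
    have := z0_normal.conj_mem _ h g⁻¹
    rwa [show g⁻¹ * (g * lam w (g⁻¹ * g') * g⁻¹) * g⁻¹⁻¹ = lam w (g⁻¹ * g') by group] at this⟩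

/-- the graph of the conjugates with commutator `ζ` -/
def Gr (w : G) {ζ : G} (h : ζ ∈ Z0 G) : SimpleGraph (G ⧸ M w) where
  Adj x y := x ≠ y ∧ L w x y = ζ
  symm := ⟨fun x y e => ⟨e.1.symm, by rw [L, lam_symm, ← L, e.2, z0_inv h]⟩⟩
  loopless := ⟨fun x e => e.1 rfl⟩

omit [Finite G] in
theorem adj_smul (w : G) {ζ : G} (h : ζ ∈ Z0 G) (g : G) {x y : G ⧸ M w} (e : (Gr w h).Adj x y) :
    (Gr w h).Adj (g • x) (g • y) :=
  ⟨fun e' => e.1 (smul_left_cancel g e'), by rw [L_smul, e.2, z0_conj h]⟩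

theorem even_nb (w : G) {ζ : G} (h : ζ ∈ Z0 G) (ho : Odd (M w).index) (x : G ⧸ M w) :
    ((Gr w h).neighborSet x).ncard % 2 = 0 := by
  classical
  have := Fintype.ofFinite (G ⧸ M w)
  by_contra hn
  have all : ∀ y, Odd ((Gr w h).degree y) := fun y => by
    obtain ⟨g, rfl⟩ := MulAction.exists_smul_eq G x y
    have e : (Gr w h).neighborSet (g • x) = g • (Gr w h).neighborSet x := by
      ext z
      rw [Set.mem_smul_set_iff_inv_smul_mem]
      exact ⟨fun e => by simpa using adj_smul w h g⁻¹ e, fun e => by simpa using adj_smul w h g e⟩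
    rw [← SimpleGraph.card_neighborSet_eq_degree, ← Nat.card_eq_fintype_card, Nat.card_coe_set_eq, e,
      Set.ncard_smul_set, Nat.odd_iff]
    omega
  have := (Gr w h).even_card_odd_degree_vertices
  rw [Finset.filter_true_of_mem fun y _ => all y, Finset.card_univ, ← Nat.card_eq_fintype_card] at this
  exact Nat.not_even_iff_odd.2 ho this

end TI1

open TI1 in
theorem Hyp.second (h : Hyp G a k) (ha : 2 ≤ a) {w : G} (hw : W w) (S : Sylow 2 G)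
    (hS : (S : Subgroup G) ≤ M w) {T : Subgroup G} (hT : T ≤ S) {v : G} (hv : v ∈ Dw w)
    (hvS : v ∈ (S : Subgroup G)) (hvw : v * w⁻¹ ∉ Z0 G) (hTv : T ≤ M v) :
    ∃ v' ∈ Dw w, v' ∈ (S : Subgroup G) ∧ v' * w⁻¹ ∉ Z0 G ∧ v' * v⁻¹ ∉ Z0 G ∧ lam w v' = lam w v ∧
      T ≤ M v' := by
  have : Fact (Nat.Prime 2) := ⟨Nat.prime_two⟩
  have hζ : lam w v ∈ Z0 G := hS hvS
  have ho : Odd (M w).index := Nat.not_even_iff_odd.1 fun e =>
    S.not_dvd_index (e.two_dvd.trans (index_dvd_of_le hS))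
  obtain ⟨g0, ζ0, h0, e0⟩ := hv
  have w1 : (1 : G) * w * 1⁻¹ = w := by group
  set X := (Gr w hζ).neighborSet ((1 : G) : G ⧸ M w) with hX
  have XS : ∀ p ∈ (S : Subgroup G), ∀ x ∈ X, p • x ∈ X := fun p hp x hx => by
    have := adj_smul w hζ p hx
    rwa [(fix_iff w 1 p).2 (by rw [w1]; exact hS hp)] at this
  set Y := {x | x ∈ X ∧ ∃ g : G, (g : G ⧸ M w) = x ∧ g * w * g⁻¹ ∈ (S : Subgroup G)} with hY
  have YS : ∀ p ∈ (S : Subgroup G), ∀ x ∈ Y, p • x ∈ Y := by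
    rintro p hp _ ⟨hx, g, rfl, hg⟩
    refine ⟨XS p hp _ hx, p * g, rfl, ?_⟩
    rw [show p * g * w * (p * g)⁻¹ = p * (g * w * g⁻¹) * p⁻¹ by group]
    exact mul_mem (mul_mem hp hg) (inv_mem hp)
  have p1 := par S.isPGroup' X XS
  have p2 := par S.isPGroup' Y YS
  have p3 := par (S.isPGroup'.to_le hT) Y fun p hp => YS p (hT hp)
  have e : {x | x ∈ Y ∧ ∀ p ∈ (S : Subgroup G), p • x = x} =
      {x | x ∈ X ∧ ∀ p ∈ (S : Subgroup G), p • x = x} := by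
    ext x
    refine ⟨fun hx => ⟨hx.1.1, hx.2⟩, fun hx => ⟨⟨hx.1, ?_⟩, hx.2⟩⟩
    induction x using QuotientGroup.induction_on with
    | H g =>
      exact ⟨g, rfl, mem_syl (hw.dw (Dw.conj (Dw.self w) g)).sq S fun p hp =>
        (fix_iff w g p).1 (hx.2 p hp)⟩
  rw [e, ← p1, even_nb w hζ ho, p3] at p2
  have ev : v * (g0 * w * g0⁻¹)⁻¹ ∈ Z0 G := by
    rw [e0, ← z0_comm h0, mul_inv_cancel_right]; exact h0
  have y0 : (g0 : G ⧸ M w) ∈ {x | x ∈ Y ∧ ∀ p ∈ T, p • x = x} := by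
    refine ⟨⟨⟨fun e => hvw ?_, ?_⟩, g0, rfl, ?_⟩, fun p hp => (fix_iff w g0 p).2 ?_⟩
    · have := mul_mem ev ((mk_eq w 1 g0).1 e)
      rwa [w1, mul_assoc, inv_mul_cancel_left] at this
    · rw [L_mk, w1, e0, ← lam_z (one_mem _) h0, mul_one]
    · rw [show g0 * w * g0⁻¹ = v * ζ0⁻¹ by rw [e0, mul_inv_cancel_right]]
      exact mul_mem hvS (inv_mem (z0_le_syl S h0))
    · rw [← (M_eq ev).1]; exact hTv hp
  obtain ⟨y, hy, ne⟩ := Set.exists_ne_of_one_lt_ncard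
    (s := {x | x ∈ Y ∧ ∀ p ∈ T, p • x = x}) (by
      have := (Set.ncard_pos (Set.toFinite _)).2 ⟨_, y0⟩
      omega) (g0 : G ⧸ M w)
  obtain ⟨⟨⟨a1, a2⟩, g, rfl, hg⟩, hf⟩ := hy
  refine ⟨g * w * g⁻¹, Dw.conj (Dw.self w) g, hg, fun e => a1 ((mk_eq w 1 g).2 (by rwa [w1])),
    fun e => ne ((mk_eq w g0 g).2 ?_).symm, by rwa [L_mk, w1] at a2,
    fun p hp => (fix_iff w g p).1 (hf p hp)⟩
  have := mul_mem e ev
  rwa [mul_assoc, inv_mul_cancel_left] at this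

end H50.RC
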