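import Cfsg.Agent.Lib.RCS.TI1

set_option autoImplicit false

namespace H50.RC

open Subgroup

variable {G : Type*} [Group G] [Finite G] {a k : ℕ}

namespace TI2

omit [Finite G] in
theorem zq {p q : G} (h : p * q ∈ Z0 G) (h2 : q * q ∈ Z0 G) : p * q⁻¹ ∈ Z0 G := by
  simpa [mul_assoc] using mul_mem h (inv_mem h2)

theorem cx {p q x ζ s : G} (hx : Odd (orderOf x)) (hζ : ζ ∈ Z0 G) (e : p * q = x * ζ) (hp : s ∈ M p) (hq : s ∈ M q) :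
    s ∈ C x ∧ lam q s = lam p s := by
  have e1 : lam x s = lam p s * lam q s := by rw [← lam_mul_left hp hq, e, lam_mul_z hζ]
  have c : s ∈ C x := odd_C hx (by rw [mem_M, e1]; exact mul_mem hp hq)
  rw [lam_eq_one.2 c] at e1
  exact ⟨c, (eq_inv_of_mul_eq_one_right e1.symm).trans (z0_inv hp)⟩

theorem main (h : Hyp G a k) (ha : 2 ≤ a) {w : G} (hw : W w) {v v' : G}
    (hv : v ∈ Dw w) (hv' : v' ∈ Dw w) (h1 : v ∈ M w) (h2 : v' ∈ M v) : v' ∈ M w := by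
  by_cases hvw : v * w⁻¹ ∈ Z0 G
  · rwa [← (M_eq hvw).1]
  have sq : ∀ {u}, u ∈ Dw w → u * u = w * w := Dw.sq hw.sq
  have sq' : ∀ {u}, u ∈ Dw w → u * u ∈ Z0 G := fun hu => sq hu ▸ hw.sq
  refine (h.odd_or ha hw.sq (sq hv')).elim id fun ⟨x, ζ, hx, x1, hζ, e, iw, _⟩ => False.elim ?_
  have vx := (cx hx hζ e h1 (M_symm h2)).1
  obtain ⟨S0, s1, s2⟩ := h.f7 hw (hw.dw hv).tw.zp (zpowers_le.2 h1)
  obtain ⟨T, hT, t1, t2, t3, t4, t5, t6⟩ := h.exT ha hw.sq hx x1 hζ e iw (P := (S0 : Subgroup G) ⊓ Cs x)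
    S0.2.to_inf_left ⟨mem_syl hw.sq S0 s2, .inr iw⟩ inf_le_right
  have vT : v ∈ T := t1 ⟨⟨s1 (mem_zpowers v), C_le_Cs x vx⟩, vx⟩
  have N1 : ∀ {u}, u ∈ Dw w → u ∈ T → lam w u = lam w v → u * v⁻¹ ∈ Z0 G := fun {u} hu uT e => by
    have c : u * v ∈ C w := lam_eq_one.1 (by rw [lam_mul h1, e, z0_sq h1])
    have i := (inv_mul_of_sq (sq' hu) ((sq hv).trans (sq hu).symm)).1
    exact zq (h.a2 ha hx x1 (iw.mul_C (t2 uT)).1 (tw_of_mem hT (mul_mem uT vT)) (t2 (mul_mem uT vT))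
      (i.mul_C (mem_C.2 (mem_C.1 c).symm)).2) (sq' hv)
  have Tv : T ≤ M v := fun s hs => N1 (Dw.conj hv s) (mul_mem (mul_mem hs vT) (inv_mem hs)) (by
    rw [← lam_conj h1 s, conj_eq w s, z0_comm (t4 hs), lam_mul_z (t4 hs)])
  obtain ⟨S, s3, s4⟩ := h.f7 hw hT t4
  obtain ⟨u, hu, uS, uw, uv, ul, Tu⟩ := h.second ha hw S s4 s3 hv (s3 vT) hvw Tv
  rcases h.odd_or ha (sq' hv') ((sq hu).trans (sq hv').symm) with m | ⟨y, ξ, hy, -, hξ, e', -, -⟩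
  · have := h.eq_of_le ⟨w, iw⟩ (odd_nc hx x1 ⟨w, iw⟩) t3 (P := (S : Subgroup G) ⊓ C x) S.2.to_inf_left
      (le_inf s3 t2) inf_le_right
    exact uv (N1 hu (this ▸ mem_inf.2 ⟨uS, (cx hx hζ e (s4 uS) m).1⟩) ul)
  · have i := (inv_mul_of_sq hw.sq (sq hu)).1
    have nz : w * u ∉ Z0 G := fun m => uw (zq (Normal.mem_comm z0_normal m) hw.sq)
    have c : T ≤ C (w * u) := fun s hs => lam_eq_one.1 (by
      rw [lam_mul_left (t4 hs) (Tu hs), (cx hy hξ e' (t5 hs) (Tu hs)).2, t6 s hs, z0_sq (t4 hs)])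
    have tw := tw_of_mem S.2 (mul_mem (mem_syl hw.sq S s4) uS)
    have m := h.mem_of_norm ⟨w, i⟩ (fun m => nz (i.z0 m)) t3 c tw (self_mem_C _)
      (centralizer_le_normalizer _ fun s hs => mem_C.1 (c hs))
    exact nz (h.a2 ha hx x1 iw tw (t2 m) i)

end TI2

/-- commuting modulo `Z0` is transitive on `Dw w` -/
theorem Hyp.ti (h : Hyp G a k) (ha : 2 ≤ a) {w : G} (hw : W w) {u v v' : G} (hu : u ∈ Dw w)
    (hv : v ∈ Dw w) (hv' : v' ∈ Dw w) (h1 : v ∈ M u) (h2 : v' ∈ M v) : v' ∈ M u :=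
  TI2.main h ha (hw.dw hu) ((Dw.eq hu).symm ▸ hv) ((Dw.eq hu).symm ▸ hv') h1 h2

end H50.RC
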