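import Cfsg.Agent.Lib.RCS.Cfg
import Cfsg.Agent.S0111
import Cfsg.Agent.Lib.RCS.LZ

set_option autoImplicit false

namespace H50.RC

open Subgroup

variable {G : Type*} [Group G] [Finite G] {a k : ℕ}

/-- Thompson transfer modulo `Z0` -/
theorem Cf.tho (h : Hyp G 1 k) {w x : G} {S : Sylow 2 G} (c : Cf w x S) (hw : W w)
    (hi : ∀ H : Subgroup G, H.index = 2 → w ∈ H) : ∃ g : G, g * w * g⁻¹ ∈ Tc x S := by
  let f := QuotientGroup.mk' (Z0 G)
  have hf : Function.Surjective f := QuotientGroup.mk'_surjective _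
  have hZ : f.ker ≤ Tc x S := by
    rw [QuotientGroup.ker_mk']
    exact le_inf (z0_le_syl S) (Z0_le_C x)
  have hc : ((Tc x S).map f).comap f = Tc x S := comap_map_eq_self hZ
  have wT : w ∉ Tc x S := fun m => (c.cases c.mem).elim (fun e => e.2 c.inv) fun e => e.1 m
  have hidx : ((Tc x S).map f).relIndex ((S.mapSurjective hf : Sylow 2 _) : Subgroup _) = 2 := by
    rw [Sylow.coe_mapSurjective, ← relIndex_comap, hc, relIndex_eq_two_iff]
    refine ⟨w⁻¹, inv_mem c.mem, fun b hb => ?_⟩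
    rcases c.cases hb with e | e
    · exact Or.inr ⟨e.1, fun m => wT (by simpa using mul_mem (inv_mem m) e.1)⟩
    · exact Or.inl ⟨e.2.2, e.1⟩
  have ho : orderOf (f w) = 2 := by
    refine orderOf_eq_prime ?_ fun e => hw.nc ?_
    · rw [sq, ← map_mul]
      exact (QuotientGroup.eq_one_iff _).2 hw.sq
    · exact ((QuotientGroup.eq_one_iff _).1 e).1
  rcases Cfsg.Agent.S0111.result (S.mapSurjective hf) ((Tc x S).map f) (map_mono inf_le_left) hidx (f w) ho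
    (mem_map_of_mem f c.mem) (fun m => wT (hc ▸ m)) with ⟨M, -, hM, e⟩ | ⟨g, e⟩
  · exact absurd (hi (M.comap f) (by rw [index_comap_of_surjective _ hf, hM])) e
  · obtain ⟨g, rfl⟩ := hf g
    refine ⟨g, ?_⟩
    rw [← hc, mem_comap]
    simpa using e

/-- an element of `W` of order 4 -/
theorem Hyp.ord4 (h : Hyp G 1 k) {E : Subgroup G} (hE : Good E) {w e : G} (hwE : w ∈ E) (hw : W w)
    (he : e ∈ E) (hew : e ∉ C w) :
    ∃ w' ∈ E, W w' ∧ w' * w' ≠ 1 ∧ ∃ e' ∈ E, e' ∉ C w' := by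
  by_cases w2 : w * w = 1
  swap
  · exact ⟨w, hwE, hw, w2, e, he, hew⟩
  haveI := hE.normal
  have nC : ∀ {d : G}, Inv w d → d * d ≠ 1 → w ∉ C d := fun {d} i n m => n (by
    have := (mem_C'.1 m).symm.trans i
    exact mul_eq_one_iff_eq_inv.2 this)
  obtain ⟨x, -, hx, x1, hi⟩ := bs (K := ⊤) (mem_top w) hw.tw (fun g _ => by rw [w2, one_mul, mul_one])
    fun Q _ hQ h2 m => hew (mem_C.2
      (hE.cen Q (normalizer_eq_top_iff.1 (top_le_iff.1 hQ)) h2 w m e he).symm)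
  obtain ⟨S, c, -⟩ := h.exists_cf hx x1 hi hw.tw.zp (mem_zpowers w) (zpowers_le.2 (Or.inr hi))
  by_cases hT : Tc x S ≤ M w
  · obtain ⟨g, hg⟩ := c.tho h hw fun H hH => hE.idx H hH hwE
    have e2 : g * w * g⁻¹ * (g * w * g⁻¹) = 1 := by rw [conj_mul, w2]; simp
    have n1 : w ∉ C (g * w * g⁻¹) := fun m => by
      have := h.b1 hx x1 hi e2 hg.2 m
      have e3 := z0_conj this g⁻¹
      rw [show g⁻¹ * (g * w * g⁻¹) * g⁻¹⁻¹ = w by group] at e3
      exact hw.nc (e3 ▸ this.1)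
    have i := (inv_mul_of_sq hw.sq (e2.trans w2.symm)).1
    have d2 : w * (g * w * g⁻¹) * (w * (g * w * g⁻¹)) = lam (g * w * g⁻¹) w := by
      rw [lam, inv_eq_of_mul_eq_one_right w2, inv_eq_of_mul_eq_one_right e2]; group
    have d1 : w * (g * w * g⁻¹) * (w * (g * w * g⁻¹)) ≠ 1 := fun e => n1 (lam_eq_one.1 (d2 ▸ e))
    refine ⟨_, mul_mem hwE (hE.normal.conj_mem w hwE g), ⟨⟨w, i⟩, fun m => d1 (i.z0 m).2, ?_⟩, d1,
      w, hwE, nC i d1⟩
    rw [d2]
    exact M_symm (hT hg)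
  · obtain ⟨s, hs, n⟩ := SetLike.not_le_iff_exists.1 hT
    obtain ⟨p1, p2, -⟩ := c.phi h hw.sq hs
    obtain ⟨m, hj⟩ := exists_W_pow (tw_of_mem S.isPGroup' p1.1) p2 n
    have i := p2.pow m
    have j2 : lam w s ^ m * lam w s ^ m ≠ 1 := fun e => hj.nc (h.b1 hx x1 hi e (pow_mem p1.2 m)
      (mem_C'.2 (i.trans (inv_eq_of_mul_eq_one_right e)))).1
    exact ⟨_, pow_mem (mul_mem (hE.normal.conj_mem w hwE s) (inv_mem hwE)) m, hj, j2, w, hwE, nC i j2⟩

end H50.RC
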