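import Cfsg.Agent.Lib.RCS.TI2
import Cfsg.Agent.Lib.RCS.LZ

set_option autoImplicit false

namespace H50.RC.Tr

open Subgroup

variable {G : Type*} [Group G]

theorem eq_iff {a b : G} : a * b⁻¹ ∈ Z0 G ↔ (a : G ⧸ Z0 G) = b := by
  rw [← div_eq_mul_inv, QuotientGroup.eq_iff_div_mem]

theorem one_iff {a : G} : a ∈ Z0 G ↔ (a : G ⧸ Z0 G) = 1 := (QuotientGroup.eq_one_iff a).symm

theorem M_iff {g w : G} : g ∈ M w ↔ (g : G ⧸ Z0 G) * w = w * g := by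
  rw [mem_M, lam, eq_iff, QuotientGroup.mk_mul, QuotientGroup.mk_mul, QuotientGroup.mk_inv,
    mul_inv_eq_iff_eq_mul]

theorem M_of_eq {a b w : G} (h : a * b⁻¹ ∈ Z0 G) (hb : b ∈ M w) : a ∈ M w := by
  rw [M_iff] at hb ⊢
  rwa [eq_iff.1 h]

theorem self_M (w : G) : w ∈ M w := C_le_M w (self_mem_C w)

theorem st_of_M {g w : G} (h : g ∈ M w) : g * w * g⁻¹ ∈ M w := M_of_eq h (self_M w)

theorem st_inv {g u v : G} (h : g * u * g⁻¹ ∈ M v) : g⁻¹ * v * g⁻¹⁻¹ ∈ M u := by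
  refine M_symm ((mem_M_conj g).1 ?_)
  rwa [show g * (g⁻¹ * v * g⁻¹⁻¹) * g⁻¹ = v by group]

variable [Finite G] {a k : ℕ}

theorem st_mul (h : Hyp G a k) (ha : 2 ≤ a) {w : G} (hw : W w) {u u1 u2 g g' : G} (hu : u ∈ Dw w)
    (hu1 : u1 ∈ Dw w) (hu2 : u2 ∈ Dw w) (h1 : g * u1 * g⁻¹ ∈ M u2) (h2 : g' * u * g'⁻¹ ∈ M u1) :
    g * g' * u * (g * g')⁻¹ ∈ M u2 := by
  refine h.ti ha hw hu2 (Dw.conj hu1 g) (Dw.conj hu _) h1 ?_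
  rw [show g * g' * u * (g * g')⁻¹ = g * (g' * u * g'⁻¹) * g⁻¹ by group]
  exact (mem_M_conj g).2 h2

theorem plus (h : Hyp G a k) (ha : 2 ≤ a) {w w' : G} (hw : W w) (hw' : w' ∈ Dw w) (hn : w' ∉ M w)
    {σ σ' : G} (hσ : σ ∈ Dw w) (hσ' : σ' ∈ Dw w) (s1 : σ * w * σ⁻¹ ∈ M w') (s2 : σ * w' * σ⁻¹ ∈ M w)
    (s3 : σ' * w * σ'⁻¹ ∈ M w') (hm : σ' ∈ M σ) : σ * σ' ∈ Z0 G := by
  have h0 := Dw.self w
  let A : Subgroup G :=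
    { carrier := {g | g * w * g⁻¹ ∈ M w}
      one_mem' := st_of_M (one_mem _)
      mul_mem' := fun h1 h2 => st_mul h ha hw h0 h0 h0 h1 h2
      inv_mem' := st_inv }
  have q1 : σ * σ ∈ Z0 G := Dw.sq hw.sq hσ ▸ hw.sq
  have q2 : σ' * σ' = σ * σ := (Dw.sq hw.sq hσ').trans (Dw.sq hw.sq hσ).symm
  have ht : Tw (σ * σ') := by
    have : σ * σ' * (σ * σ') ∈ Z0 G := by
      have e1 := one_iff.1 q1
      have e2 := one_iff.1 (q2 ▸ q1)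
      have e3 := M_iff.1 hm
      rw [one_iff]
      simp only [QuotientGroup.mk_mul] at e1 e2 ⊢
      rw [mul_assoc, ← mul_assoc (σ' : G ⧸ Z0 G), e3, mul_assoc, e2, mul_one, e1]
    exact ⟨2, by rw [show 2 ^ 2 = 2 * 2 from rfl, pow_mul, sq, sq]; exact z0_sq this⟩
  obtain ⟨S, -, hS⟩ := h.f7 hw (P := ⊥) IsPGroup.of_bot bot_le
  obtain ⟨g, hg, hd⟩ := le_conj_syl (H := A) S (fun s hs => st_of_M (hS hs)) ht.zp
    (zpowers_le.2 (st_mul h ha hw h0 hw' h0 s2 s3))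
  have hd' : σ * σ' ∈ M (g * w * g⁻¹) := by
    have := (mem_M_conj g).2 (hS (hd _ (mem_zpowers _)))
    rwa [show g * (g⁻¹ * (σ * σ') * g) * g⁻¹ = σ * σ' by group] at this
  rcases h.odd_or ha q1 ((Dw.sq hw.sq (Dw.conj h0 g)).trans (Dw.sq hw.sq hσ).symm) with
    h1 | ⟨x, ζ, hx, x1, hζ, e, i1, -⟩
  · exact (hn (h.ti ha hw h0 (Dw.conj h0 σ) hw'
      (st_of_M (h.ti ha hw h0 (Dw.conj h0 g) hσ hg (M_symm h1))) (M_symm s1))).elim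
  · refine h.a2 ha hx x1 i1 ht (odd_C hx (M_symm ?_)) (inv_mul_of_sq q1 q2).1
    refine M_of_eq (b := σ * (g * w * g⁻¹)) (by rw [e]; simpa [← z0_comm hζ] using hζ) ?_
    exact mul_mem (M_symm (mul_mem (self_M σ) hm)) (M_symm hd')

omit [Finite G] in
theorem sqrt {x : G} (hx : Odd (orderOf x)) : ∃ m : ℕ, x ^ m * x ^ m = x := by
  obtain ⟨m, hm⟩ := exists_pow_eq_self_of_coprime (x := x) (n := 2) hx.coprime_two_left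
  exact ⟨m, by rw [← sq, ← pow_mul, mul_comm, pow_mul, hm]⟩

end H50.RC.Tr

namespace H50.RC

open Subgroup

variable {G : Type*} [Group G] [Finite G] {a k : ℕ}

omit [Finite G] in
/-- the swapping reflection of a dihedral group of twice odd order (modulo `Z0`) -/
theorem exists_swap {v v' x ζ : G} (hv : v * v ∈ Z0 G) (hx : Odd (orderOf x)) (hζ : ζ ∈ Z0 G)
    (he : v * v' = x * ζ) (hi : Inv v x) :
    ∃ σ ∈ Dw v, σ * v * σ⁻¹ * v'⁻¹ ∈ Z0 G ∧ σ * v' * σ⁻¹ * v⁻¹ ∈ Z0 G := by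
  obtain ⟨m, hm⟩ := exists_pow_eq_self_of_coprime (x := x) (n := 2 ^ 2)
    (hx.coprime_two_left.pow_left 2)
  have hy := hi.pow m
  rw [← pow_mul, mul_comm, pow_mul] at hm
  generalize x ^ m = y at hm hy
  have hσ : y⁻¹ * v * y⁻¹⁻¹ ∈ Dw v := Dw.conj (Dw.self v) _
  have e : y⁻¹ * v * y⁻¹⁻¹ = v * y * y := by rw [inv_inv, ← hy]; group
  have q := Tr.one_iff.1 (Dw.sq hv hσ ▸ hv)
  have h1 : v * y * y * v * (v * y * y)⁻¹ = v * x := by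
    calc _ = v * y * y * (v * y⁻¹ * v⁻¹) * (v * y⁻¹ * v⁻¹) := by group
      _ = _ := by rw [hy.inv, ← hm]; simp only [pow_succ, pow_zero, mul_assoc, one_mul, pow_mul]
  rw [e] at hσ q
  generalize v * y * y = σ at hσ q h1
  have h2 : ((σ * v * σ⁻¹ : G) : G ⧸ Z0 G) = v' := by
    have e1 := Tr.one_iff.1 hv
    have e2 := congrArg (fun g : G => (g : G ⧸ Z0 G)) he
    simp only [QuotientGroup.mk_mul, Tr.one_iff.1 hζ, mul_one] at e1 e2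
    rw [h1, QuotientGroup.mk_mul, ← e2, ← mul_assoc, e1, one_mul]
  refine ⟨σ, hσ, Tr.eq_iff.2 h2, Tr.eq_iff.2 ?_⟩
  simp only [QuotientGroup.mk_mul, QuotientGroup.mk_inv] at q h2 ⊢
  rw [← h2]
  calc _ = (σ * σ : G ⧸ Z0 G) * v * (σ * σ : G ⧸ Z0 G)⁻¹ := by group
    _ = _ := by rw [q]; group

/-- an odd normal subgroup of the stabiliser of two commuting classes is transitive on one of them -/
theorem Hyp.trans (h : Hyp G a k) (ha : 2 ≤ a) {w w' : G} (hw : W w) (hw' : w' ∈ Dw w) (hn : w' ∉ M w) :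
    ∃ O : Subgroup G, Odd (Nat.card O) ∧
      (∀ g : G, g * w * g⁻¹ ∈ M w → g * w' * g⁻¹ ∈ M w' → g ∈ normalizer (O : Set G)) ∧
      (∀ o ∈ O, o * w * o⁻¹ ∈ M w ∧ o * w' * o⁻¹ ∈ M w') ∧
      ∀ v ∈ Dw w, v ∈ M w → ∃ o ∈ O, o * w * o⁻¹ * v⁻¹ ∈ Z0 G := by
  have h0 := Dw.self w
  have mul := fun {u u1 u2 g g' : G} => Tr.st_mul h ha hw (u := u) (u1 := u1) (u2 := u2) (g := g)
    (g' := g')
  let K : Subgroup G :=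
    { carrier := {g | (g * w * g⁻¹ ∈ M w ∧ g * w' * g⁻¹ ∈ M w') ∨
        (g * w * g⁻¹ ∈ M w' ∧ g * w' * g⁻¹ ∈ M w)}
      one_mem' := Or.inl ⟨Tr.st_of_M (one_mem _), Tr.st_of_M (one_mem _)⟩
      mul_mem' := by
        rintro g g' (⟨a1, a2⟩ | ⟨a1, a2⟩) (⟨b1, b2⟩ | ⟨b1, b2⟩)
        · exact Or.inl ⟨mul h0 h0 h0 a1 b1, mul hw' hw' hw' a2 b2⟩
        · exact Or.inr ⟨mul h0 hw' hw' a2 b1, mul hw' h0 h0 a1 b2⟩
        · exact Or.inr ⟨mul h0 h0 hw' a1 b1, mul hw' hw' h0 a2 b2⟩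
        · exact Or.inl ⟨mul h0 hw' h0 a2 b1, mul hw' h0 hw' a1 b2⟩
      inv_mem' := by
        rintro g (⟨a1, a2⟩ | ⟨a1, a2⟩)
        · exact Or.inl ⟨Tr.st_inv a1, Tr.st_inv a2⟩
        · exact Or.inr ⟨Tr.st_inv a2, Tr.st_inv a1⟩ }
  have hZ : Z0 G ≤ K := fun z hz =>
    Or.inl ⟨Tr.st_of_M (C_le_M _ (Z0_le_C _ hz)), Tr.st_of_M (C_le_M _ (Z0_le_C _ hz))⟩
  have swap : ∀ v ∈ Dw w, v ∈ M w → ∃ σ ∈ Dw w, σ * w' * σ⁻¹ * v⁻¹ ∈ Z0 G ∧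
      σ * v * σ⁻¹ * w'⁻¹ ∈ Z0 G ∧ σ * w * σ⁻¹ ∈ M w' ∧ σ * w' * σ⁻¹ ∈ M w := fun v hv hm => by
    have q : v * v ∈ Z0 G := Dw.sq hw.sq hv ▸ hw.sq
    rcases h.odd_or ha q ((Dw.sq hw.sq hw').trans (Dw.sq hw.sq hv).symm) with
      h1 | ⟨x, ζ, hx, -, hζ, e, i1, -⟩
    · exact (hn (h.ti ha hw h0 hv hw' hm h1)).elim
    obtain ⟨σ, hσ, s1, s2⟩ := exists_swap q hx hζ e i1
    refine ⟨σ, Dw.eq hv ▸ hσ, s2, s1, ?_, Tr.M_of_eq s2 hm⟩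
    simpa using mul (g' := 1) h0 hv hw' (Tr.M_of_eq s1 (Tr.self_M w')) (by simpa using M_symm hm)
  obtain ⟨σ, hσ, -, s0, s1, s2⟩ := swap w h0 (Tr.self_M w)
  have q : σ * σ ∈ Z0 G := Dw.sq hw.sq hσ ▸ hw.sq
  have q' := Tr.one_iff.1 q
  rw [QuotientGroup.mk_mul] at q'
  obtain ⟨O, hOK, hKO, hO, hl⟩ := lz hZ (fun z hz g _ => z0_comm hz g) z0_two (s := σ)
    (Or.inr ⟨s1, s2⟩) q (fun g hg hm => by
      have := Tr.plus h ha hw hw' hn hσ (Dw.conj hσ g) s1 s2 (by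
        rcases hg with ⟨a1, a2⟩ | ⟨a1, a2⟩
        · exact mul h0 h0 hw' (mul h0 hw' hw' a2 s1) (Tr.st_inv a1)
        · exact mul h0 hw' hw' (mul hw' h0 hw' a1 s2) (Tr.st_inv a2)) hm
      rw [Tr.one_iff, QuotientGroup.mk_mul, ← q', mul_right_inj] at this
      exact Tr.eq_iff.2 this)
  refine ⟨O, hO, fun g a1 a2 => hKO (Or.inl ⟨a1, a2⟩), fun o ho => ?_, fun v hv hm => ?_⟩
  · obtain ⟨m, hm⟩ := Tr.sqrt (hO.of_dvd_nat (O.orderOf_dvd_natCard ho))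
    rw [← hm]
    rcases hOK (O.pow_mem ho m) with ⟨a1, a2⟩ | ⟨a1, a2⟩
    · exact ⟨mul h0 h0 h0 a1 a1, mul hw' hw' hw' a2 a2⟩
    · exact ⟨mul h0 hw' h0 a2 a1, mul hw' h0 hw' a1 a2⟩
  obtain ⟨τ, hτ, t0, -, t1, t2⟩ := swap v hv hm
  have r := Tr.one_iff.1 (Dw.sq hw.sq hτ ▸ hw.sq)
  rw [QuotientGroup.mk_mul] at r
  obtain ⟨o, ho, e⟩ : ∃ o ∈ O, (o : G ⧸ Z0 G) = ((σ * τ : G) : G ⧸ Z0 G)⁻¹ := by
    rcases h.odd_or ha q ((Dw.sq hw.sq hτ).trans (Dw.sq hw.sq hσ).symm) with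
      h1 | ⟨x, ζ, hx, -, hζ, e, i1, -⟩
    · exact ⟨1, one_mem _, by rw [Tr.one_iff.1 (Tr.plus h ha hw hw' hn hσ hτ s1 s2 t1 h1)]; simp⟩
    have hxK : x ∈ K := (K.mul_mem_cancel_right (hZ hζ)).1
      (e ▸ K.mul_mem (Or.inr ⟨s1, s2⟩) (Or.inr ⟨t1, t2⟩))
    obtain ⟨m, hm⟩ := Tr.sqrt hx
    obtain ⟨o, ho, ζ', hζ', e'⟩ := hl _ (K.inv_mem (K.pow_mem hxK m))
    have e2 : lam σ (x ^ m)⁻¹ = x⁻¹ := by
      calc _ = (x ^ m)⁻¹ * (σ * x ^ m * σ⁻¹) := by rw [lam]; group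
        _ = _ := by rw [i1.pow m, ← mul_inv_rev, hm]
    refine ⟨o, ho, ?_⟩
    rw [e, QuotientGroup.mk_mul, Tr.one_iff.1 hζ, mul_one, ← QuotientGroup.mk_inv, ← e2, e',
      QuotientGroup.mk_mul, Tr.one_iff.1 hζ', mul_one]
  refine ⟨o, ho, Tr.eq_iff.2 ?_⟩
  rw [Tr.eq_iff] at s0 t0
  simp only [QuotientGroup.mk_mul, QuotientGroup.mk_inv] at s0 t0 e ⊢
  rw [e, ← t0, ← s0, mul_inv_rev, inv_eq_of_mul_eq_one_right q', inv_eq_of_mul_eq_one_right r,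
    mul_inv_rev, inv_eq_of_mul_eq_one_right q', inv_eq_of_mul_eq_one_right r]
  simp only [mul_assoc]

end H50.RC
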